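import Cfsg.Prelude.Def_DStar
import Cfsg.Prelude.Def_PLocal
import Cfsg.Agent.Lib.TwoGroups.NormalAbelian
import Cfsg.Agent.Lib.Replacement.Glauberman
import Cfsg.Agent.Lib.Replacement.Counting

/-!
The subgroup `D*(S)` of a finite `p`-group: it is the largest member of its defining family, lies in every
maximal normal abelian subgroup and centralizes every abelian subgroup of largest order.
-/

set_option autoImplicit false

open scoped commutatorElement

namespace CfsgLib.Replacement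

variable {G : Type*} [Group G]

/-- The members of the family behind `D*(S)`, for a subgroup `S` of an ambient group. -/
structure IsDMember (S A : Subgroup G) : Prop where
  le : A ≤ S
  comm : ∀ a ∈ A, ∀ b ∈ A, a * b = b * a
  rigid : ∀ x ∈ S, (∀ a ∈ A, Commute ⁅a, x⁆ x ∧ ∀ b ∈ A, Commute ⁅a, x⁆ b) → ∀ a ∈ A, a * x = x * a

/-- Generators with central commutators generate a group of class at most two. -/
theorem commutator_commutator_eq_bot_of_gens {s : Set G}
    (h : ∀ u ∈ s, ∀ v ∈ s, ∀ w ∈ s, Commute ⁅u, v⁆ w) :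
    ⁅⁅Subgroup.closure s, Subgroup.closure s⁆, Subgroup.closure s⁆ = ⊥ := by
  set T := Subgroup.closure s with hT
  set C := Subgroup.centralizer (T : Set G) with hC
  have hcl : ∀ z : G, (∀ w ∈ s, Commute z w) → z ∈ C := fun z hz => by
    rw [hC, hT, Subgroup.centralizer_closure, Subgroup.mem_centralizer_iff]
    exact fun w hw => (hz w hw).eq.symm
  have hstep : ∀ u ∈ T, ∀ v ∈ s, ⁅u, v⁆ ∈ C := by
    intro u hu v hv
    induction hu using Subgroup.closure_induction with
    | mem u hu => exact hcl _ fun w hw => h u hu v hv w hw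
    | one => rw [commutatorElement_one_left]; exact one_mem C
    | mul a b ha hb iha ihb =>
      have h1 : Commute ⁅b, v⁆ a := ((Subgroup.mem_centralizer_iff.mp ihb) a ha).symm
      have : ⁅a * b, v⁆ = a * ⁅b, v⁆ * a⁻¹ * ⁅a, v⁆ := by
        simp only [commutatorElement_def]; group
      rw [this, ← h1.eq, mul_inv_cancel_right]
      exact mul_mem ihb iha
    | inv a ha iha =>
      have h1 : Commute ⁅v, a⁆ a⁻¹ := by
        have h2 : Commute ⁅a, v⁆ a⁻¹ := ((Subgroup.mem_centralizer_iff.mp iha) a⁻¹ (inv_mem ha)).symm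
        rw [← commutatorElement_inv]
        exact h2.inv_left
      have : ⁅a⁻¹, v⁆ = a⁻¹ * ⁅v, a⁆ * a := by
        simp only [commutatorElement_def]; group
      rw [this, ← h1.eq, inv_mul_cancel_right, ← commutatorElement_inv]
      exact inv_mem iha
  have hall : ∀ u ∈ T, ∀ v ∈ T, ⁅u, v⁆ ∈ C := by
    intro u hu v hv
    induction hv using Subgroup.closure_induction with
    | mem v hv => exact hstep u hu v hv
    | one => rw [commutatorElement_one_right]; exact one_mem C
    | mul a b ha hb iha ihb =>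
      have h1 : Commute ⁅u, b⁆ a := ((Subgroup.mem_centralizer_iff.mp ihb) a ha).symm
      have : ⁅u, a * b⁆ = ⁅u, a⁆ * (a * ⁅u, b⁆ * a⁻¹) := by
        simp only [commutatorElement_def]; group
      rw [this, ← h1.eq, mul_inv_cancel_right]
      exact mul_mem iha ihb
    | inv a ha iha =>
      have h1 : Commute ⁅a, u⁆ a⁻¹ := by
        have h2 : Commute ⁅u, a⁆ a⁻¹ := ((Subgroup.mem_centralizer_iff.mp iha) a⁻¹ (inv_mem ha)).symm
        rw [← commutatorElement_inv]
        exact h2.inv_left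
      have : ⁅u, a⁻¹⁆ = a⁻¹ * ⁅a, u⁆ * a := by
        simp only [commutatorElement_def]; group
      rw [this, ← h1.eq, inv_mul_cancel_right, ← commutatorElement_inv]
      exact inv_mem iha
  rw [Subgroup.commutator_eq_bot_iff_le_centralizer, Subgroup.commutator_le]
  exact hall

theorem class_two_of_pair {A : Subgroup G} {x : G} (hA : ∀ a ∈ A, ∀ b ∈ A, a * b = b * a)
    (h : ∀ a ∈ A, Commute ⁅a, x⁆ x ∧ ∀ b ∈ A, Commute ⁅a, x⁆ b) :
    ⁅⁅A ⊔ Subgroup.zpowers x, A ⊔ Subgroup.zpowers x⁆, A ⊔ Subgroup.zpowers x⁆ = ⊥ := by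
  have hs : A ⊔ Subgroup.zpowers x = Subgroup.closure ((A : Set G) ∪ {x}) := by
    rw [Subgroup.closure_union, Subgroup.closure_eq, Subgroup.zpowers_eq_closure]
  rw [hs]
  refine commutator_commutator_eq_bot_of_gens ?_
  have hw : ∀ a ∈ A, ∀ w ∈ ((A : Set G) ∪ {x}), Commute ⁅a, x⁆ w := by
    intro a ha w hw
    rcases hw with hw | hw
    · exact (h a ha).2 w hw
    · rw [Set.mem_singleton_iff] at hw
      exact hw ▸ (h a ha).1
  intro u hu v hv w hw'
  rcases hu with hu | hu <;> rcases hv with hv | hv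
  · rw [show ⁅u, v⁆ = 1 from commutatorElement_eq_one_iff_mul_comm.mpr (hA u hu v hv)]
    exact Commute.one_left w
  · rw [Set.mem_singleton_iff] at hv
    exact hv ▸ hw u hu w hw'
  · rw [Set.mem_singleton_iff] at hu
    rw [hu, ← commutatorElement_inv]
    exact (hw v hv w hw').inv_left
  · rw [Set.mem_singleton_iff] at hu hv
    rw [hu, hv, commutatorElement_self]
    exact Commute.one_left w

theorem pair_of_class_two {A : Subgroup G} {x : G}
    (h : ⁅⁅A ⊔ Subgroup.zpowers x, A ⊔ Subgroup.zpowers x⁆, A ⊔ Subgroup.zpowers x⁆ = ⊥) :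
    ∀ a ∈ A, Commute ⁅a, x⁆ x ∧ ∀ b ∈ A, Commute ⁅a, x⁆ b := by
  intro a ha
  have hm : ⁅a, x⁆ ∈ ⁅A ⊔ Subgroup.zpowers x, A ⊔ Subgroup.zpowers x⁆ :=
    Subgroup.commutator_mem_commutator (Subgroup.mem_sup_left ha)
      (Subgroup.mem_sup_right (Subgroup.mem_zpowers x))
  have hc := Subgroup.mem_centralizer_iff.mp (Subgroup.commutator_eq_bot_iff_le_centralizer.mp h hm)
  exact ⟨(hc x (Subgroup.mem_sup_right (Subgroup.mem_zpowers x))).symm,
    fun b hb => (hc b (Subgroup.mem_sup_left hb)).symm⟩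

theorem isDMember_top_iff {S : Type*} [Group S] {A : Subgroup S} :
    IsDMember (⊤ : Subgroup S) A ↔ A ∈ Cfsg.dStarFamily S := by
  constructor
  · intro h
    exact ⟨⟨⟨fun a b => Subtype.ext (h.comm a a.2 b b.2)⟩⟩,
      fun x hx => h.rigid x (Subgroup.mem_top x) (pair_of_class_two hx)⟩
  · rintro ⟨hc, hr⟩
    have hcomm : ∀ a ∈ A, ∀ b ∈ A, a * b = b * a := fun a ha b hb =>
      congrArg Subtype.val (mul_comm' (⟨a, ha⟩ : A) ⟨b, hb⟩)
    exact ⟨le_top, hcomm, fun x _ hx => hr x (class_two_of_pair hcomm hx)⟩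

theorem IsDMember.map {H : Type*} [Group H] {S A : Subgroup G} (h : IsDMember S A) {f : G →* H}
    (hf : Function.Injective f) : IsDMember (S.map f) (A.map f) := by
  refine ⟨Subgroup.map_mono h.le, ?_, ?_⟩
  · rintro _ ⟨a, ha, rfl⟩ _ ⟨b, hb, rfl⟩
    rw [← map_mul, ← map_mul, h.comm a ha b hb]
  · rintro _ ⟨x, hx, rfl⟩ hyp _ ⟨a, ha, rfl⟩
    rw [← map_mul, ← map_mul, h.rigid x hx ?_ a ha]
    intro c hc
    obtain ⟨h1, h2⟩ := hyp _ ⟨c, hc, rfl⟩
    rw [← map_commutatorElement] at h1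
    refine ⟨hf (by rw [map_mul, map_mul]; exact h1.eq), fun b hb => ?_⟩
    have h3 := h2 _ ⟨b, hb, rfl⟩
    rw [← map_commutatorElement] at h3
    exact hf (by rw [map_mul, map_mul]; exact h3.eq)

theorem IsDMember.comap {H : Type*} [Group H] {f : H →* G} (hf : Function.Injective f)
    {S A : Subgroup H} (h : IsDMember (S.map f) (A.map f)) : IsDMember S A := by
  refine ⟨(Subgroup.map_le_map_iff_of_injective hf).mp h.le, fun a ha b hb => hf ?_, fun x hx hyp a ha => hf ?_⟩
  · rw [map_mul, map_mul]; exact h.comm _ ⟨a, ha, rfl⟩ _ ⟨b, hb, rfl⟩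
  · rw [map_mul, map_mul]
    refine h.rigid _ ⟨x, hx, rfl⟩ ?_ _ ⟨a, ha, rfl⟩
    rintro _ ⟨c, hc, rfl⟩
    obtain ⟨h1, h2⟩ := hyp c hc
    rw [← map_commutatorElement]
    refine ⟨h1.map f, ?_⟩
    rintro _ ⟨b, hb, rfl⟩
    exact (h2 b hb).map f

theorem IsDMember.of_le {S R A : Subgroup G} (h : IsDMember S A) (hRS : R ≤ S) (hAR : A ≤ R) :
    IsDMember R A :=
  ⟨hAR, h.comm, fun x hx => h.rigid x (hRS hx)⟩

/-- `dStarOf S` is the join of the members. -/
theorem dStarOf_eq_sSup (S : Subgroup G) : Cfsg.dStarOf S = sSup {A | IsDMember S A} := by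
  refine le_antisymm ?_ (sSup_le fun A hA => ?_)
  · rw [Cfsg.dStarOf, Cfsg.dStar, Subgroup.map_le_iff_le_comap]
    refine sSup_le fun A hA => Subgroup.map_le_iff_le_comap.mp (le_sSup ?_)
    have := (isDMember_top_iff.mpr hA).map (f := S.subtype) S.subtype_injective
    rwa [← MonoidHom.range_eq_map, Subgroup.range_subtype] at this
  · have hA' : (A.subgroupOf S).map S.subtype = A := Subgroup.map_subgroupOf_eq_of_le hA.le
    rw [← hA']
    refine Subgroup.map_mono (le_sSup (isDMember_top_iff.mp ?_))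
    refine IsDMember.comap S.subtype_injective ?_
    rwa [← MonoidHom.range_eq_map, Subgroup.range_subtype, hA']

variable [Finite G] {p : ℕ} [Fact p.Prime]

omit [Finite G] [Fact p.Prime] in
/-- A member centralizes every abelian normal subgroup it lives with. -/
theorem IsDMember.centralizes_normal {S A B : Subgroup G} [Group.IsNilpotent S] (h : IsDMember S A)
    (hBS : B ≤ S) (hBn : S ≤ Subgroup.normalizer (B : Set G)) (hB : ∀ a ∈ B, ∀ b ∈ B, a * b = b * a)
    (b : G) (hb : b ∈ B) : ∀ a ∈ A, a * b = b * a := by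
  have main : ∀ k : ℕ, ∀ b : S, (b : G) ∈ B → b ∈ Subgroup.upperCentralSeries S k →
      ∀ a ∈ A, a * (b : G) = b * a := by
    intro k
    induction k with
    | zero =>
      intro b _ hb a _
      rw [Subgroup.upperCentralSeries_zero, Subgroup.mem_bot] at hb
      rw [hb]; simp
    | succ k ih =>
      intro b hbB hbk a ha
      refine h.rigid b b.2 (fun c hc => ?_) a ha
      set z : S := ⁅(⟨c, h.le hc⟩ : S), b⁆ with hz
      have hzB : (z : G) ∈ B := by
        have h1 := (Subgroup.mem_normalizer_iff.mp (hBn (h.le hc)) b).mp hbB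
        exact mul_mem h1 (inv_mem hbB)
      have hzk : z ∈ Subgroup.upperCentralSeries S k := by
        rw [hz, ← commutatorElement_inv]
        exact inv_mem (Subgroup.mem_upperCentralSeries_succ_iff.mp hbk _)
      have hcast : (z : G) = ⁅c, (b : G)⁆ := rfl
      rw [← hcast]
      exact ⟨hB _ hzB _ hbB, fun d hd => (ih z hzB hzk d hd).symm⟩
  intro a ha
  exact main (Group.nilpotencyClass S) ⟨b, hBS hb⟩ hb
    (by rw [Subgroup.upperCentralSeries_nilpotencyClass]; trivial) a ha

/-- Every member lies in every maximal normal abelian subgroup. -/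
theorem IsDMember.le_of_self_centralizing {S A M : Subgroup G} (hS : IsPGroup p S) (h : IsDMember S A)
    (hMS : M ≤ S) (hMn : S ≤ Subgroup.normalizer (M : Set G))
    (hM : ∀ a ∈ M, ∀ b ∈ M, a * b = b * a) (hMc : S ⊓ Subgroup.centralizer (M : Set G) ≤ M) :
    A ≤ M := by
  have := hS.isNilpotent
  exact fun a ha => hMc (Subgroup.mem_inf.mpr ⟨h.le ha, Subgroup.mem_centralizer_iff.mpr fun b hb =>
    (h.centralizes_normal hMS hMn hM b hb a ha).symm⟩)

theorem exists_normal_abelian {S : Subgroup G} (hS : IsPGroup p S) :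
    ∃ M : Subgroup G, M ≤ S ∧ S ≤ Subgroup.normalizer (M : Set G) ∧
      (∀ a ∈ M, ∀ b ∈ M, a * b = b * a) ∧ S ⊓ Subgroup.centralizer (M : Set G) ≤ M := by
  obtain ⟨M, -, hMn, hM, hMc⟩ := TwoGroups.exists_normal_abelian_centralizer_eq hS
    (B := (⊥ : Subgroup S)) inferInstance ⟨⟨fun a b => Subsingleton.elim _ _⟩⟩
  refine ⟨M.map S.subtype, Subgroup.map_subtype_le M, ?_, ?_, ?_⟩
  · intro s hs
    rw [Subgroup.mem_normalizer_iff]
    intro x
    constructor
    · rintro ⟨y, hy, rfl⟩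
      exact ⟨_, hMn.conj_mem y hy ⟨s, hs⟩, rfl⟩
    · rintro ⟨y, hy, hyx⟩
      refine ⟨_, hMn.conj_mem y hy ⟨s, hs⟩⁻¹, ?_⟩
      simp only [Subgroup.coe_subtype, Subgroup.coe_mul, Subgroup.coe_inv] at hyx ⊢
      rw [hyx]; group
  · rintro _ ⟨a, ha, rfl⟩ _ ⟨b, hb, rfl⟩
    rw [← map_mul, ← map_mul, show a * b = b * a from
      congrArg Subtype.val (mul_comm' (⟨a, ha⟩ : M) ⟨b, hb⟩)]
  · intro x hx
    obtain ⟨hxS, hxc⟩ := Subgroup.mem_inf.mp hx
    refine ⟨⟨x, hxS⟩, ?_, rfl⟩
    rw [SetLike.mem_coe, ← hMc]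
    exact Subgroup.mem_centralizer_iff.mpr fun b hb =>
      Subtype.ext (Subgroup.mem_centralizer_iff.mp hxc _ ⟨b, hb, rfl⟩)

/-- `D*(S)` is itself a member. -/
theorem isDMember_dStarOf {S : Subgroup G} (hS : IsPGroup p S) :
    IsDMember S (Cfsg.dStarOf S) := by
  rw [dStarOf_eq_sSup]
  obtain ⟨M, hMS, hMn, hM, hMc⟩ := exists_normal_abelian hS
  have hle : sSup {A | IsDMember S A} ≤ M :=
    sSup_le fun A hA => hA.le_of_self_centralizing hS hMS hMn hM hMc
  have hcomm : ∀ a ∈ sSup {A | IsDMember S A}, ∀ b ∈ sSup {A | IsDMember S A}, a * b = b * a :=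
    fun a ha b hb => hM a (hle ha) b (hle hb)
  refine ⟨hle.trans hMS, hcomm, fun x hx hyp => ?_⟩
  have : sSup {A | IsDMember S A} ≤ Subgroup.centralizer ({x} : Set G) := by
    refine sSup_le fun A hA a ha => Subgroup.mem_centralizer_singleton_iff.mpr
      (hA.rigid x hx (fun c hc => ⟨(hyp c (le_sSup (α := Subgroup G) hA hc)).1,
        fun b hb => (hyp c (le_sSup (α := Subgroup G) hA hc)).2 b (le_sSup (α := Subgroup G) hA hb)⟩) a ha)
  exact fun a ha => Subgroup.mem_centralizer_singleton_iff.mp (this ha)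

omit [Finite G] [Fact p.Prime] in
theorem dStarOf_le (S : Subgroup G) : Cfsg.dStarOf S ≤ S := Subgroup.map_subtype_le _

omit [Finite G] [Fact p.Prime] in
theorem le_dStarOf {S A : Subgroup G} (h : IsDMember S A) : A ≤ Cfsg.dStarOf S := by
  rw [dStarOf_eq_sSup]; exact le_sSup h

omit [Finite G] [Fact p.Prime] in
theorem normalizer_le_normalizer_dStarOf (S : Subgroup G) :
    Subgroup.normalizer (S : Set G) ≤ Subgroup.normalizer (Cfsg.dStarOf S : Set G) := by
  have key : ∀ g ∈ Subgroup.normalizer (S : Set G), ∀ x ∈ Cfsg.dStarOf S, g * x * g⁻¹ ∈ Cfsg.dStarOf S := by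
    intro g hg
    have hle : Cfsg.dStarOf S ≤ (Cfsg.dStarOf S).comap (MulAut.conj g).toMonoidHom := by
      rw [dStarOf_eq_sSup]
      refine sSup_le fun A hA a ha => ?_
      have h1 := hA.map (f := (MulAut.conj g).toMonoidHom) (MulAut.conj g).injective
      rw [map_conj_eq_self_of_mem_normalizer hg] at h1
      exact le_sSup (α := Subgroup G) h1 ⟨a, ha, rfl⟩
    exact fun x hx => hle hx
  intro g hg
  rw [Subgroup.mem_normalizer_iff]
  refine fun x => ⟨key g hg x, fun h => ?_⟩
  have := key g⁻¹ (inv_mem hg) _ h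
  rwa [show g⁻¹ * (g * x * g⁻¹) * g⁻¹⁻¹ = x by group] at this

/-- `D*(S)` centralizes every abelian subgroup of `S` of largest order, hence lies in it. -/
theorem dStarOf_le_of_maxAbelian {S : Subgroup G} (hS : IsPGroup p S) {A : Subgroup G} (hAS : A ≤ S)
    (hA : ∀ a ∈ A, ∀ b ∈ A, a * b = b * a)
    (hmax : ∀ B : Subgroup G, B ≤ S → (∀ a ∈ B, ∀ b ∈ B, a * b = b * a) → Nat.card B ≤ Nat.card A) :
    Cfsg.dStarOf S ≤ A := by
  set D := Cfsg.dStarOf S with hD
  have hDm := isDMember_dStarOf hS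
  have hDn : S ≤ Subgroup.normalizer (D : Set G) :=
    Subgroup.le_normalizer.trans (normalizer_le_normalizer_dStarOf S)
  -- it suffices that `D` centralizes `A`
  have hsuff : ∀ A : Subgroup G, A ≤ S → (∀ a ∈ A, ∀ b ∈ A, a * b = b * a) →
      (∀ B : Subgroup G, B ≤ S → (∀ a ∈ B, ∀ b ∈ B, a * b = b * a) → Nat.card B ≤ Nat.card A) →
      (∀ d ∈ D, ∀ a ∈ A, d * a = a * d) → D ≤ A := by
    intro A hAS hA hmax hc
    have hsup : ∀ x ∈ A ⊔ D, ∀ y ∈ A ⊔ D, x * y = y * x := by
      have : IsMulCommutative (A ⊔ D : Subgroup G) := by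
        rw [Subgroup.sup_eq_closure]
        refine Subgroup.isMulCommutative_closure ?_
        rintro x (hx | hx) y (hy | hy)
        · exact hA x hx y hy
        · exact (hc y hy x hx).symm
        · exact hc x hx y hy
        · exact hDm.comm x hx y hy
      exact fun x hx y hy => congrArg Subtype.val (mul_comm' (⟨x, hx⟩ : (A ⊔ D : Subgroup G)) ⟨y, hy⟩)
    have := hmax (A ⊔ D) (sup_le hAS hDm.le) hsup
    rw [Subgroup.eq_of_le_of_card_ge le_sup_left this]
    exact le_sup_right
  suffices h : ∀ n, ∀ A : Subgroup G, Nat.card S - Nat.card (A ⊓ D : Subgroup G) ≤ n → A ≤ S →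
      (∀ a ∈ A, ∀ b ∈ A, a * b = b * a) →
      (∀ B : Subgroup G, B ≤ S → (∀ a ∈ B, ∀ b ∈ B, a * b = b * a) → Nat.card B ≤ Nat.card A) →
      ∀ d ∈ D, ∀ a ∈ A, d * a = a * d from hsuff A hAS hA hmax (h _ A le_rfl hAS hA hmax)
  intro n
  induction n using Nat.strong_induction_on with
  | _ n ih =>
    intro A hn hAS hA hmax
    by_cases hnorm : D ≤ Subgroup.normalizer (A : Set G)
    · intro d hd a ha
      refine hDm.rigid a (hAS ha) (fun c hc => ?_) d hd
      have h1 : ⁅c, a⁆ ∈ A := by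
        have := (Subgroup.mem_normalizer_iff.mp (hnorm hc) a).mp ha
        exact mul_mem this (inv_mem ha)
      have h2 : ⁅c, a⁆ ∈ D := by
        have := (Subgroup.mem_normalizer_iff.mp (hDn (hAS ha)) c⁻¹).mp (inv_mem hc)
        rw [commutatorElement_def, mul_assoc c, mul_assoc c]
        exact mul_mem hc this
      exact ⟨hA _ h1 a ha, fun b hb => hDm.comm _ h2 b hb⟩
    · exfalso
      set A' := A.subgroupOf S with hA'
      set D' := D.subgroupOf S with hD'
      have hmapA : A'.map S.subtype = A := Subgroup.map_subgroupOf_eq_of_le hAS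
      have hA'c : IsMulCommutative A' :=
        ⟨⟨fun a b => Subtype.ext (Subtype.ext (hA _ a.2 _ b.2))⟩⟩
      have hD'n : A' ≤ Subgroup.normalizer (D' : Set S) := by
        intro a _
        rw [Subgroup.mem_normalizer_iff]
        intro x
        exact Subgroup.mem_normalizer_iff.mp (hDn a.2) x
      have hnn : ¬ D' ≤ Subgroup.normalizer (A' : Set S) := by
        intro hle
        apply hnorm
        intro d hd
        refine Subgroup.mem_normalizer_fintype fun a ha => ?_
        exact (Subgroup.mem_normalizer_iff.mp (hle (show (⟨d, hDm.le hd⟩ : S) ∈ D' from hd))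
          ⟨a, hAS ha⟩).mp ha
      obtain ⟨x, hx, hxn⟩ := exists_thompsonStep hS A' D' hA'c
        (fun b hb c hc => Subtype.ext (hDm.comm _ hb _ hc)) hD'n hnn
      set As := hx.star.map S.subtype with hAs
      have hAsS : As ≤ S := Subgroup.map_subtype_le _
      have hAsc : ∀ a ∈ As, ∀ b ∈ As, a * b = b * a := by
        rintro _ ⟨a, ha, rfl⟩ _ ⟨b, hb, rfl⟩
        rw [← map_mul, ← map_mul, hx.star_comm a ha b hb]
      have hcard : Nat.card As = Nat.card A := by
        rw [hAs, ← Nat.card_congr (Subgroup.equivMapOfInjective _ _ S.subtype_injective).toEquiv,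
          hx.card_star, Nat.card_congr (Subgroup.subgroupOfEquivOfLe hAS).toEquiv]
      have hlt : A ⊓ D < As ⊓ D := by
        have := hx.inf_lt_star_inf hxn
        have h2 := (Subgroup.map_lt_map_iff_of_injective S.subtype_injective).mpr this
        rwa [Subgroup.map_inf _ _ _ S.subtype_injective, Subgroup.map_inf _ _ _ S.subtype_injective,
          hmapA, ← hAs, hD', Subgroup.map_subgroupOf_eq_of_le hDm.le] at h2
      have hc1 : Nat.card (A ⊓ D : Subgroup G) < Nat.card (As ⊓ D : Subgroup G) := by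
        refine lt_of_le_of_ne (card_le_card hlt.le) fun he => hlt.ne ?_
        exact Subgroup.eq_of_le_of_card_ge hlt.le he.ge
      have hc2 : Nat.card (As ⊓ D : Subgroup G) ≤ Nat.card S := card_le_card (inf_le_left.trans hAsS)
      have hmaxs : ∀ B : Subgroup G, B ≤ S → (∀ a ∈ B, ∀ b ∈ B, a * b = b * a) →
          Nat.card B ≤ Nat.card As := fun B hB hBc => hcard ▸ hmax B hB hBc
      have hDAs : D ≤ As := hsuff As hAsS hAsc hmaxs
        (ih (Nat.card S - Nat.card (As ⊓ D : Subgroup G)) (by omega) As le_rfl hAsS hAsc hmaxs)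
      apply hnorm
      intro d hd
      obtain ⟨s, hs, rfl⟩ := hDAs hd
      refine Subgroup.mem_normalizer_fintype fun a ha => ?_
      exact (Subgroup.mem_normalizer_iff.mp (hx.star_le_normalizer hs) ⟨a, hAS ha⟩).mp ha

end CfsgLib.Replacement
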