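import Mathlib
import Cfsg.Prelude.Def_Transfer
import Cfsg.Agent.Lib.PGroups.Extraspecial
import Cfsg.Agent.Lib.Replacement.LinearPlane

/-!
A Sylow subgroup `p^(1+2)_+`: radical planes give elements of the normalizer of large order on `P / Z(P)`.
-/

set_option autoImplicit false
set_option linter.style.haveILetI false

namespace CfsgLib.Replacement.ExtraspecialPlanes

open CfsgLib.Replacement.LinearTI
open scoped commutatorElement

variable {G : Type*} [Group G] {p : ℕ}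

theorem conj_pow_fix {g z : G} (h : g * z * g⁻¹ = z) (t : ℕ) : g ^ t * z * (g ^ t)⁻¹ = z := by
  induction t with
  | zero => simp
  | succ t ih =>
    calc g ^ (t + 1) * z * (g ^ (t + 1))⁻¹ = g * (g ^ t * z * (g ^ t)⁻¹) * g⁻¹ := by group
      _ = z := by rw [ih, h]

theorem conj_pow_shear {g a z : G} (hz : g * z * g⁻¹ = z) (h : g * a * g⁻¹ = a * z) (t : ℕ) :
    g ^ t * a * (g ^ t)⁻¹ = a * z ^ t := by
  induction t with
  | zero => simp
  | succ t ih =>
    calc g ^ (t + 1) * a * (g ^ (t + 1))⁻¹ = g * (g ^ t * a * (g ^ t)⁻¹) * g⁻¹ := by group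
      _ = (g * a * g⁻¹) * (g * z ^ t * g⁻¹) := by rw [ih]; group
      _ = a * z * z ^ t := by rw [h, ← conj_pow, hz]
      _ = a * z ^ (t + 1) := by rw [mul_assoc, ← pow_succ']

theorem zmod_pow_eq [Fact p.Prime] {g : G} (hg : g ^ p = 1) {m k : ℕ} (h : (m : ZMod p) = k) :
    g ^ m = g ^ k :=
  pow_eq_pow_iff_modEq.2 (Nat.ModEq.of_dvd (orderOf_dvd_of_pow_eq_one hg) ((ZMod.natCast_eq_natCast_iff _ _ _).1 h))

/-- Two opposite transvections give the diagonal elements. -/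
theorem exists_diag [Fact p.Prime] {z a X Y : G} (hcomm : z * a = a * z) (hzp : z ^ p = 1) (hap : a ^ p = 1)
    (hXz : X * z * X⁻¹ = z) (hXa : X * a * X⁻¹ = a * z) (hYa : Y * a * Y⁻¹ = a) (hYz : Y * z * Y⁻¹ = z * a)
    {l : ZMod p} (hl : l ≠ 0) :
    ∃ h : G, h * z * h⁻¹ = z ^ l.val ∧ h * a * h⁻¹ = a ^ (l⁻¹).val := by
  have hc : ∀ i j : ℕ, z ^ i * a ^ j = a ^ j * z ^ i := fun i j => Commute.pow_pow hcomm i j
  have W : ∀ t s : ℕ, (1 + t * s : ZMod p) = 0 →
      (X ^ t * Y ^ s * X ^ t) * z * (X ^ t * Y ^ s * X ^ t)⁻¹ = a ^ s ∧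
      (X ^ t * Y ^ s * X ^ t) * a * (X ^ t * Y ^ s * X ^ t)⁻¹ = z ^ t := by
    intro t s hts
    have x1 := conj_pow_fix hXz t
    have x2 := conj_pow_shear hXz hXa t
    have y1 := conj_pow_fix hYa s
    have y2 := conj_pow_shear hYa hYz s
    have h0 : z ^ (1 + t * s) = 1 := by
      rw [← pow_zero z]; exact zmod_pow_eq hzp (by push_cast; exact hts)
    have h0a : a ^ (1 + t * s) = 1 := by
      rw [← pow_zero a]; exact zmod_pow_eq hap (by push_cast; exact hts)
    constructor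
    · calc (X ^ t * Y ^ s * X ^ t) * z * (X ^ t * Y ^ s * X ^ t)⁻¹
          = X ^ t * (Y ^ s * (X ^ t * z * (X ^ t)⁻¹) * (Y ^ s)⁻¹) * (X ^ t)⁻¹ := by group
        _ = (X ^ t * z * (X ^ t)⁻¹) * (X ^ t * a ^ s * (X ^ t)⁻¹) := by
          rw [show Y ^ s * (X ^ t * z * (X ^ t)⁻¹) * (Y ^ s)⁻¹ = z * a ^ s by rw [x1, y2]]; group
        _ = z * (a * z ^ t) ^ s := by rw [x1, ← conj_pow, x2]
        _ = a ^ s * z ^ (1 + t * s) := by
          rw [Commute.mul_pow (Commute.pow_right hcomm.symm t), ← pow_mul, ← mul_assoc,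
            (Commute.pow_right hcomm s).eq, mul_assoc, pow_add, pow_one]
        _ = a ^ s := by rw [h0, mul_one]
    · calc (X ^ t * Y ^ s * X ^ t) * a * (X ^ t * Y ^ s * X ^ t)⁻¹
          = X ^ t * (Y ^ s * (X ^ t * a * (X ^ t)⁻¹) * (Y ^ s)⁻¹) * (X ^ t)⁻¹ := by group
        _ = X ^ t * ((Y ^ s * a * (Y ^ s)⁻¹) * (Y ^ s * z ^ t * (Y ^ s)⁻¹)) * (X ^ t)⁻¹ := by rw [x2]; group
        _ = X ^ t * (a * (z * a ^ s) ^ t) * (X ^ t)⁻¹ := by rw [y1, ← conj_pow, y2]
        _ = X ^ t * (a ^ (1 + t * s) * z ^ t) * (X ^ t)⁻¹ := by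
          rw [Commute.mul_pow (Commute.pow_right hcomm s), ← pow_mul, hc, ← mul_assoc, mul_comm s t, pow_add, pow_one]
          simp only [mul_assoc]
        _ = X ^ t * z ^ t * (X ^ t)⁻¹ := by rw [h0a, one_mul]
        _ = z ^ t := by rw [← conj_pow, x1]
  set t := (-l).val with ht
  set s := (l⁻¹).val with hs
  have hts : (1 + t * s : ZMod p) = 0 := by
    rw [ht, hs, ZMod.natCast_zmod_val, ZMod.natCast_zmod_val, neg_mul, mul_inv_cancel₀ hl]; ring
  have h11 : (1 + (1 : ℕ) * ((-1 : ZMod p).val : ℕ) : ZMod p) = 0 := by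
    rw [ZMod.natCast_zmod_val]; simp
  obtain ⟨w1, w2⟩ := W t s hts
  obtain ⟨u1, u2⟩ := W 1 (-1 : ZMod p).val h11
  refine ⟨(X ^ t * Y ^ s * X ^ t) * (X ^ 1 * Y ^ (-1 : ZMod p).val * X ^ 1), ?_, ?_⟩
  · rw [mul_inv_rev, show ∀ A B : G, A * B * z * (B⁻¹ * A⁻¹) = A * (B * z * B⁻¹) * A⁻¹ from fun A B => by group,
      u1, ← conj_pow, w2, ← pow_mul]
    refine zmod_pow_eq hzp ?_
    push_cast
    rw [ht, ZMod.natCast_zmod_val, ZMod.natCast_zmod_val, ZMod.natCast_zmod_val]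
    ring
  · rw [mul_inv_rev, show ∀ A B : G, A * B * a * (B⁻¹ * A⁻¹) = A * (B * a * B⁻¹) * A⁻¹ from fun A B => by group,
      u2, pow_one z, w1]

variable [Finite G] [Fact p.Prime] (P : Sylow p G)

theorem pow_prime_eq_one (hexp : Monoid.exponent ↥P = p) (x : ↥P) : x ^ p = 1 :=
  orderOf_dvd_iff_pow_eq_one.1 ((Monoid.order_dvd_exponent x).trans hexp.dvd)

theorem exists_conj_eq_mul (hE : Cfsg.IsExtraspecial p ↥P) {z a : ↥P} (hz : z ∈ Subgroup.center ↥P)
    (hz1 : z ≠ 1) (ha : a ∉ Subgroup.center ↥P) : ∃ X : ↥P, X * a * X⁻¹ = a * z := by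
  obtain ⟨x, hx⟩ : ∃ x : ↥P, x * a ≠ a * x := by
    by_contra hall
    push Not at hall
    exact ha (Subgroup.mem_center_iff.2 hall)
  set w := a⁻¹ * (x * a * x⁻¹) with hw
  have hwc : w ∈ Subgroup.center ↥P := by
    have h : w = ⁅a⁻¹, x⁆ := by rw [hw, commutatorElement_def]; group
    exact h ▸ CfsgLib.PGroups.IsExtraspecial.commutator_mem_center hE _ _
  have hw1 : w ≠ 1 := fun h => hx (by
    rw [hw, inv_mul_eq_one] at h
    calc x * a = (x * a * x⁻¹) * x := by group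
      _ = a * x := by rw [← h])
  have hZc : Nat.card (Subgroup.center ↥P) = p := hE.2
  have hmem := mem_zpowers_of_prime_card (g := (⟨w, hwc⟩ : Subgroup.center ↥P)) (g' := ⟨z, hz⟩) hZc
    (fun h => hw1 (congrArg Subtype.val h))
  rw [← mem_powers_iff_mem_zpowers] at hmem
  obtain ⟨m, hm⟩ := hmem
  have hm' : w ^ m = z := congrArg Subtype.val hm
  refine ⟨x ^ m, ?_⟩
  rw [← hm']
  exact conj_pow_shear (by rw [Subgroup.mem_center_iff.1 hwc x, mul_inv_cancel_right])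
    (by rw [hw, mul_inv_cancel_left]) m

/-- An element of the normalizer acting as a torus element on a plane. -/
theorem exists_normalizer_diag (hE : Cfsg.IsExtraspecial p ↥P) (hexp : Monoid.exponent ↥P = p) {z a : ↥P}
    (hz : z ∈ Subgroup.center ↥P) (hz1 : z ≠ 1) (ha : a ∉ Subgroup.center ↥P)
    (hY : ∃ Y : G, Y * a * Y⁻¹ = (a : G) ∧ Y * z * Y⁻¹ = (z : G) * a) {l : ZMod p} (hl : l ≠ 0) :
    ∃ n : G, n ∈ Subgroup.normalizer ((P : Subgroup G) : Set G) ∧ n * z * n⁻¹ = (z : G) ^ l.val ∧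
      ∃ i : ℕ, n * a * n⁻¹ = (a : G) ^ (l⁻¹).val * (z : G) ^ i := by
  obtain ⟨X, hX⟩ := exists_conj_eq_mul P hE hz hz1 ha
  obtain ⟨Y, hYa, hYz⟩ := hY
  have hzp : (z : G) ^ p = 1 := by rw [← SubgroupClass.coe_pow, pow_prime_eq_one P hexp]; rfl
  have hap : (a : G) ^ p = 1 := by rw [← SubgroupClass.coe_pow, pow_prime_eq_one P hexp]; rfl
  have hc : ∀ q : ↥P, (q : G) * z = z * q := fun q =>
    congrArg Subtype.val (Subgroup.mem_center_iff.1 hz q)
  obtain ⟨h, hhz, hha⟩ := exists_diag (hc a).symm hzp hap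
    (X := (X : G)) (by rw [hc X, mul_inv_cancel_right]) (congrArg Subtype.val hX :) hYa hYz hl
  have key : ∀ (g : G) (i : ℕ), g * z * g⁻¹ = z → g * a * g⁻¹ = a * (z : G) ^ i →
      g ^ (orderOf g - 1) * a * (g ^ (orderOf g - 1))⁻¹ = a * ((z : G) ^ i) ^ (orderOf g - 1) := fun g i h1 h2 =>
    conj_pow_shear (by rw [← conj_pow, h1]) h2 _
  let M : Subgroup G :=
    { carrier := {g | g * z * g⁻¹ = z ∧ ∃ i : ℕ, g * a * g⁻¹ = a * (z : G) ^ i}
      one_mem' := ⟨by simp, 0, by simp⟩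
      mul_mem' := fun {g g'} ⟨h1, i, h2⟩ ⟨h1', j, h2'⟩ => ⟨by
        calc g * g' * z * (g * g')⁻¹ = g * (g' * z * g'⁻¹) * g⁻¹ := by group
          _ = z := by rw [h1', h1], i + j, by
        calc g * g' * a * (g * g')⁻¹ = g * (g' * a * g'⁻¹) * g⁻¹ := by group
          _ = (g * a * g⁻¹) * (g * (z : G) ^ j * g⁻¹) := by rw [h2']; group
          _ = a * (z : G) ^ (i + j) := by rw [h2, ← conj_pow, h1, mul_assoc, ← pow_add]⟩
      inv_mem' := fun {g} ⟨h1, i, h2⟩ => by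
        have e : g⁻¹ = g ^ (orderOf g - 1) := by
          refine inv_eq_of_mul_eq_one_right ?_
          rw [← pow_succ', Nat.sub_add_cancel (orderOf_pos g), pow_orderOf_eq_one]
        rw [e]
        exact ⟨conj_pow_fix h1 _, i * (orderOf g - 1), by rw [key g i h1 h2, pow_mul]⟩ }
  have hPM : (P : Subgroup G) ≤ M := fun q hq => by
    refine ⟨by rw [hc ⟨q, hq⟩, mul_inv_cancel_right], ?_⟩
    have hcm := CfsgLib.PGroups.IsExtraspecial.commutator_mem_center hE a⁻¹ ⟨q, hq⟩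
    have hmem := mem_zpowers_of_prime_card (g := (⟨z, hz⟩ : Subgroup.center ↥P))
      (g' := ⟨_, hcm⟩) hE.2 (fun h => hz1 (congrArg Subtype.val h))
    rw [← mem_powers_iff_mem_zpowers] at hmem
    obtain ⟨i, hi⟩ := hmem
    have hi' : (z : G) ^ i = ((⁅a⁻¹, (⟨q, hq⟩ : ↥P)⁆ : ↥P) : G) :=
      congrArg (fun w : Subgroup.center ↥P => ((w : ↥P) : G)) hi
    refine ⟨i, ?_⟩
    rw [hi', commutatorElement_def]
    push_cast
    group
  have hllinv : ((l⁻¹).val * l.val : ℕ) = ((1 : ℕ) : ZMod p) := by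
    push_cast
    rw [ZMod.natCast_zmod_val, ZMod.natCast_zmod_val, inv_mul_cancel₀ hl]
  have hz' : (h * z * h⁻¹) ^ (l⁻¹).val = z := by
    rw [hhz, ← pow_mul, mul_comm]
    exact (zmod_pow_eq hzp hllinv).trans (pow_one _)
  have ha' : (h * a * h⁻¹) ^ l.val = a := by
    rw [hha, ← pow_mul]
    exact (zmod_pow_eq hap hllinv).trans (pow_one _)
  have hconjM : ((MulAut.conj h • P : Sylow p G) : Subgroup G) ≤ M := by
    intro g hg
    obtain ⟨q, hq, rfl⟩ := hg
    obtain ⟨q1, i, q2⟩ := hPM hq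
    show (h * q * h⁻¹) * z * (h * q * h⁻¹)⁻¹ = z ∧ ∃ i : ℕ, (h * q * h⁻¹) * a * (h * q * h⁻¹)⁻¹ = a * (z : G) ^ i
    have e1 : (h * q * h⁻¹) * (h * z * h⁻¹) * (h * q * h⁻¹)⁻¹ = h * z * h⁻¹ := by
      calc _ = h * (q * z * q⁻¹) * h⁻¹ := by group
        _ = _ := by rw [q1]
    have e2 : (h * q * h⁻¹) * (h * a * h⁻¹) * (h * q * h⁻¹)⁻¹ = (h * a * h⁻¹) * ((z : G) ^ l.val) ^ i := by
      calc _ = h * (q * a * q⁻¹) * h⁻¹ := by group
        _ = (h * a * h⁻¹) * (h * (z : G) ^ i * h⁻¹) := by rw [q2]; group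
        _ = _ := by rw [← conj_pow, hhz]
    refine ⟨?_, l.val * i * l.val, ?_⟩
    · conv_lhs => rw [← hz', ← conj_pow, e1]
      exact hz'
    · have hcp : Commute (h * (a : G) * h⁻¹) (((z : G) ^ l.val) ^ i) := by
        rw [hha, ← pow_mul]
        exact Commute.pow_pow (hc a) _ _
      conv_lhs => rw [← ha', ← conj_pow, e2, hcp.mul_pow, ha', ← pow_mul, ← pow_mul, ← mul_assoc]
  obtain ⟨m, hm⟩ := MulAction.exists_smul_eq ↥M ((MulAut.conj h • P : Sylow p G).subtype hconjM) (P.subtype hPM)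
  rw [Sylow.smul_subtype] at hm
  have hm' := Sylow.subtype_injective hm
  obtain ⟨hm1, j, hm2⟩ := m.2
  refine ⟨(m : G) * h, Sylow.smul_eq_iff_mem_normalizer.1 ?_, ?_, j * (l⁻¹).val, ?_⟩
  · rw [mul_smul]; exact hm'
  · calc (m : G) * h * z * ((m : G) * h)⁻¹ = (m : G) * (h * z * h⁻¹) * (m : G)⁻¹ := by group
      _ = (z : G) ^ l.val := by rw [hhz, ← conj_pow, hm1]
  · calc (m : G) * h * a * ((m : G) * h)⁻¹ = (m : G) * (h * a * h⁻¹) * (m : G)⁻¹ := by group
      _ = (a * (z : G) ^ j) ^ (l⁻¹).val := by rw [hha, ← conj_pow, hm2]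
      _ = _ := by rw [Commute.mul_pow (Commute.pow_right (hc a) j), ← pow_mul]

/-- The number of planes of `P` carrying two opposite transvections. -/
theorem card_planes_le (hp : p ≠ 2) (hE : Cfsg.IsExtraspecial p ↥P) (hcard : Nat.card P = p ^ 3)
    (hexp : Monoid.exponent ↥P = p) {z : ↥P} (hz : z ∈ Subgroup.center ↥P) (hz1 : z ≠ 1)
    {ι : Type*} [Fintype ι] (a : ι → ↥P) (ha : ∀ i, a i ∉ Subgroup.center ↥P)
    (hne : ∀ i j, i ≠ j → a i * a j ≠ a j * a i)
    (hY : ∀ i, ∃ Y : G, Y * a i * Y⁻¹ = (a i : G) ∧ Y * z * Y⁻¹ = (z : G) * a i) :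
    (17 ≤ p ∨ p = 11 → Fintype.card ι ≤ 2) ∧ (p = 13 → Fintype.card ι ≤ 6) := by
  classical
  have hpr : p.Prime := Fact.out
  have hZc : Subgroup.center ↥P = commutator ↥P := hE.1.2.2.symm.trans (by first | rfl | exact hE.1.2.1)
  have hpV : ∀ v : (Additive (Abelianization ↥P)), p • v = 0 := fun v => by
    obtain ⟨x, rfl⟩ := QuotientGroup.mk_surjective (Additive.toMul v)
    refine Additive.toMul.injective ?_
    show (Abelianization.of x) ^ p = 1
    rw [← map_pow, pow_prime_eq_one P hexp, map_one]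
  haveI : Module (ZMod p) (Additive (Abelianization ↥P)) := AddCommGroup.zmodModule hpV
  haveI : Module.Finite (ZMod p) (Additive (Abelianization ↥P)) := Module.Finite.of_finite
  have hd : Module.finrank (ZMod p) (Additive (Abelianization ↥P)) = 2 := by
    have h1 := Module.natCard_eq_pow_finrank (K := ZMod p) (V := Additive (Abelianization ↥P))
    have h2 : Nat.card (Additive (Abelianization ↥P)) = p ^ 2 := by
      have h := (Subgroup.center ↥P).card_eq_card_quotient_mul_card_subgroup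
      rw [show Nat.card (Subgroup.center ↥P) = p from hE.2, show Nat.card ↥P = p ^ 3 from hcard, pow_succ] at h
      have h' := (Nat.eq_of_mul_eq_mul_right hpr.pos h).symm
      rw [hZc] at h'
      exact h'
    rw [h2, Nat.card_zmod] at h1
    exact (Nat.pow_right_injective hpr.two_le h1).symm
  let mk : ↥P → (Additive (Abelianization ↥P)) := fun x => Additive.ofMul (Abelianization.of x)
  have mk_pow : ∀ (x : ↥P) (k : ℕ), mk (x ^ k) = (k : ZMod p) • mk x := fun x k => by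
    rw [Nat.cast_smul_eq_nsmul]; rfl
  have of_eq : ∀ x y : ↥P, x⁻¹ * y ∈ Subgroup.center ↥P → mk x = mk y := fun x y h =>
    congrArg Additive.ofMul (QuotientGroup.eq.2 (hZc ▸ h))
  have mk_eq : ∀ x y : ↥P, mk x = mk y → ∃ w ∈ (Subgroup.center ↥P), y = x * w := fun x y h => by
    exact ⟨x⁻¹ * y, hZc.symm ▸ QuotientGroup.eq.1 (Additive.ofMul.injective h), by group⟩
  let N := Subgroup.normalizer ((P : Subgroup G) : Set G)
  let τ : ↥N →* MulAut ↥(P : Subgroup G) := (P : Subgroup G).normalizerMonoidHom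
  have hτ : ∀ (n : ↥N) (x : ↥P), ((τ n x : ↥P) : G) = (n : G) * x * (n : G)⁻¹ := fun n x => rfl
  let act : ↥N → Module.End (ZMod p) (Additive (Abelianization ↥P)) := fun n =>
    (MonoidHom.toAdditive (Abelianization.map (τ n).toMonoidHom)).toZModLinearMap p
  have hact : ∀ n x, act n (mk x) = mk (τ n x) := fun _ _ => rfl
  let actHom : ↥N →* Module.End (ZMod p) (Additive (Abelianization ↥P)) :=
    { toFun := act
      map_one' := LinearMap.ext fun v => by
        obtain ⟨x, rfl⟩ := QuotientGroup.mk_surjective (Additive.toMul v)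
        show act 1 (mk x) = mk x
        rw [hact, map_one]; rfl
      map_mul' := fun n n' => LinearMap.ext fun v => by
        obtain ⟨x, rfl⟩ := QuotientGroup.mk_surjective (Additive.toMul v)
        show act (n * n') (mk x) = act n (act n' (mk x))
        rw [hact, hact, hact, map_mul]; rfl }
  let ρ := actHom.toHomUnits
  haveI : Finite ρ.range := Finite.of_surjective ρ.rangeRestrict ρ.rangeRestrict_surjective
  have hcop : ¬ p ∣ Nat.card ρ.range := by
    rw [← Subgroup.index_ker]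
    have hle : (P : Subgroup G).subgroupOf N ≤ ρ.ker := fun n hn => by
      refine Units.ext (LinearMap.ext fun v => ?_)
      obtain ⟨x, rfl⟩ := QuotientGroup.mk_surjective (Additive.toMul v)
      show act n (mk x) = mk x
      rw [hact]
      refine of_eq _ _ ?_
      have h : (τ n x)⁻¹ * x = ⁅(⟨n, hn⟩ : ↥P), x⁻¹⁆ := Subtype.ext (by
        rw [commutatorElement_def]; push_cast; rw [hτ]; group)
      exact h ▸ CfsgLib.PGroups.IsExtraspecial.commutator_mem_center hE _ _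
    intro hd'
    have h2 : ¬ p ∣ (P : Subgroup G).index := P.not_dvd_index
    exact h2 (hd'.trans ((Subgroup.index_dvd_of_le hle).trans
      (Dvd.intro _ (Subgroup.relIndex_mul_index (Subgroup.le_normalizer)))))
  obtain ⟨l, hl⟩ := IsCyclic.exists_generator (α := (ZMod p)ˣ)
  have hlord : orderOf l = p - 1 := by
    rw [orderOf_eq_card_of_forall_mem_zpowers hl, Nat.card_eq_fintype_card, ZMod.card_units]
  have hn : ∀ i, ∃ n : ↥N, τ n z = z ^ (l : ZMod p).val ∧ mk (τ n (a i)) = ((l⁻¹ : (ZMod p)ˣ) : ZMod p) • mk (a i) := by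
    intro i
    obtain ⟨n, hnN, hnz, j, hna⟩ := exists_normalizer_diag P hE hexp hz hz1 (ha i) (hY i) l.ne_zero
    refine ⟨⟨n, hnN⟩, Subtype.ext (by rw [hτ]; exact hnz), ?_⟩
    rw [show τ ⟨n, hnN⟩ (a i) = a i ^ ((l : ZMod p)⁻¹).val * z ^ j from Subtype.ext (by
      rw [hτ]; push_cast; exact hna)]
    show mk (a i ^ ((l : ZMod p)⁻¹).val * z ^ j) = _
    have hzj : mk (a i ^ ((l : ZMod p)⁻¹).val * z ^ j) = mk (a i ^ ((l : ZMod p)⁻¹).val) :=
      of_eq _ _ (by rw [mul_inv_rev, mul_assoc, inv_mul_cancel, mul_one]; exact inv_mem (pow_mem hz j))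
    rw [hzj, mk_pow, ZMod.natCast_zmod_val, Units.val_inv_eq_inv_val]
  choose n hnz hna using hn
  have hv0 : ∀ i, mk (a i) ≠ 0 := fun i h => ha i (hZc.symm ▸ (QuotientGroup.eq_one_iff _).1 h)
  have hv : ∀ i j, i ≠ j → ∀ c : ZMod p, c • mk (a i) ≠ mk (a j) := by
    intro i j hij c h
    rw [← ZMod.natCast_zmod_val c, ← mk_pow] at h
    obtain ⟨w, hw, e⟩ := mk_eq _ _ h
    refine hne i j hij ?_
    rw [e]
    exact (Commute.self_pow _ _).mul_right (Subgroup.mem_center_iff.1 hw (a i))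
  -- the order modulo scalars
  have hord : ∀ i, ∀ m : ℕ, (⟨ρ (n i), n i, rfl⟩ : ρ.range) ^ m ∈ scalars ρ.range → p - 1 ∣ 3 * m := by
    intro i m hm
    obtain ⟨c, hc⟩ := hm
    have hc' : act (n i ^ m) = c • 1 := by
      rw [← hc, SubgroupClass.coe_pow, ← map_pow]
      rfl
    have hzm : ∀ k : ℕ, τ (n i ^ k) z = z ^ ((l : ZMod p).val ^ k) := fun k => by
      induction k with
      | zero => simp
      | succ k ih =>
        rw [pow_succ, map_mul, MulAut.mul_apply, hnz, map_pow, ih, ← pow_mul, ← pow_succ]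
    have ham : ∀ k : ℕ, act (n i ^ k) (mk (a i)) = ((l⁻¹ : (ZMod p)ˣ) : ZMod p) ^ k • mk (a i) := fun k => by
      induction k with
      | zero => rw [pow_zero, hact, map_one, pow_zero, one_smul]; rfl
      | succ k ih =>
        have e : act (n i ^ (k + 1)) = act (n i ^ k) * act (n i) := by
          rw [pow_succ]; exact actHom.map_mul _ _
        rw [e, Module.End.mul_apply, hact, hna, map_smul, ih, smul_smul, ← pow_succ']
    have hceq : c = ((l⁻¹ : (ZMod p)ˣ) : ZMod p) ^ m := by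
      have h := ham m
      rw [hc', LinearMap.smul_apply, Module.End.one_apply] at h
      exact smul_left_injective _ (hv0 i) h
    obtain ⟨X, hX⟩ := exists_conj_eq_mul P hE hz hz1 (ha i)
    set φ := τ (n i ^ m)
    have himg : ∀ y : ↥P, ∃ w ∈ (Subgroup.center ↥P), φ y = y ^ c.val * w := fun y => by
      refine mk_eq _ _ ?_
      rw [mk_pow, ZMod.natCast_zmod_val, ← hact, hc', LinearMap.smul_apply, Module.End.one_apply]
    obtain ⟨w₁, hw₁, e₁⟩ := himg X
    obtain ⟨w₂, hw₂, e₂⟩ := himg (a i)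
    have hXz : X * z * X⁻¹ = z := by rw [Subgroup.mem_center_iff.1 hz X, mul_inv_cancel_right]
    have h1 : φ X * φ (a i) * (φ X)⁻¹ = φ (a i) * φ z := by
      rw [← map_inv, ← map_mul, ← map_mul, ← map_mul, hX]
    rw [hzm m, e₁, e₂] at h1
    have hw₁c : ∀ y, w₁ * y * w₁⁻¹ = y := fun y => by
      rw [← Subgroup.mem_center_iff.1 hw₁ y, mul_inv_cancel_right]
    have h2 : X ^ c.val * a i ^ c.val * (X ^ c.val)⁻¹ = a i ^ c.val * (z ^ c.val) ^ c.val := by
      rw [← conj_pow, conj_pow_shear hXz hX, Commute.mul_pow]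
      exact Subgroup.mem_center_iff.1 (pow_mem hz _) (a i)
    have h3 : (z ^ c.val) ^ c.val = z ^ ((l : ZMod p).val ^ m) := by
      have h4 : X ^ c.val * w₁ * (a i ^ c.val * w₂) * (X ^ c.val * w₁)⁻¹
          = (X ^ c.val * a i ^ c.val * (X ^ c.val)⁻¹) * w₂ := by
        calc _ = X ^ c.val * (w₁ * (a i ^ c.val * w₂) * w₁⁻¹) * (X ^ c.val)⁻¹ := by group
          _ = X ^ c.val * a i ^ c.val * (w₂ * (X ^ c.val)⁻¹) := by rw [hw₁c]; group
          _ = _ := by rw [← Subgroup.mem_center_iff.1 hw₂ (X ^ c.val)⁻¹]; group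
      rw [h4, h2, mul_assoc (a i ^ c.val) w₂, mul_assoc,
        Subgroup.mem_center_iff.1 hw₂ ((z ^ c.val) ^ c.val)] at h1
      exact mul_left_cancel (mul_left_cancel h1)
    rw [← pow_mul, pow_eq_pow_iff_modEq] at h3
    have hzo : orderOf z = p := orderOf_eq_prime (pow_prime_eq_one P hexp z) hz1
    rw [hzo, ← ZMod.natCast_eq_natCast_iff] at h3
    push_cast at h3
    rw [ZMod.natCast_zmod_val, ZMod.natCast_zmod_val, hceq] at h3
    have h5 : l ^ (3 * m) = 1 := by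
      have h6 : (l⁻¹) ^ m * (l⁻¹) ^ m = l ^ m := Units.ext (by push_cast; rw [← Units.val_inv_eq_inv_val]; exact h3)
      calc l ^ (3 * m) = l ^ m * l ^ m * l ^ m := by rw [← pow_add, ← pow_add]; congr 1; omega
        _ = l ^ m * l ^ m * ((l⁻¹) ^ m * (l⁻¹) ^ m) := by rw [h6]
        _ = 1 := by rw [inv_pow]; group
    rw [← hlord]
    exact orderOf_dvd_of_pow_eq_one h5
  have hgcd : ∀ r : ℕ, r ∣ p - 1 → Nat.Coprime r 3 → ∀ i, ∀ m : ℕ,
      (⟨ρ (n i), n i, rfl⟩ : ρ.range) ^ m ∈ scalars ρ.range → r ∣ m := fun r hr hr3 i m hm =>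
    hr3.dvd_of_dvd_mul_left (hr.trans (hord i m hm))
  have happly := fun r hr hh => card_lines_le hd (H := ρ.range) hp hcop (fun i => mk (a i)) hv0 hv (r := r) hr
    (fun i => (⟨ρ (n i), n i, rfl⟩ : ρ.range)) (fun i => ⟨_, (hact _ _).trans (hna i)⟩) hh
  refine ⟨fun h => ?_, fun h => ?_⟩
  · obtain ⟨r, hr6, hrd⟩ : ∃ r, 6 ≤ r ∧ ∀ m : ℕ, p - 1 ∣ 3 * m → r ∣ m := by
      by_cases h3 : 3 ∣ p - 1
      · obtain ⟨k, hk⟩ := h3
        refine ⟨k, ?_, fun m hm => Nat.dvd_of_mul_dvd_mul_left three_pos (hk ▸ hm)⟩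
        rcases h with h | h
        · omega
        · omega
      · refine ⟨p - 1, by omega, fun m hm => ?_⟩
        exact (((Nat.Prime.coprime_iff_not_dvd Nat.prime_three).2 h3).symm).dvd_of_dvd_mul_left hm
    exact (happly r (le_trans (by norm_num) hr6) fun i m hm => hrd m (hord i m hm)).1 hr6
  · exact (happly 4 le_rfl fun i m hm => hgcd 4 (by subst h; norm_num) (by norm_num) i m hm).2 dvd_rfl

end CfsgLib.Replacement.ExtraspecialPlanes
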