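import Cfsg.Agent.Lib.Replacement.JEngel
import Cfsg.Agent.Lib.NormalPComplement.Thompson

/-!
For `p ≥ 5` a finite group has a normal `p`-complement when the `p'`-elements normalizing `J(S)` (abelian
version) centralize it.
-/

set_option autoImplicit false
set_option linter.style.haveILetI false

universe u

open scoped commutatorElement IsMulCommutative

namespace CfsgLib.Replacement.JEngel

open CfsgLib.ConjFunctor CfsgLib.KInf CfsgLib.NormalPComplement

variable {p : ℕ} [Fact p.Prime]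

theorem le_of_le_commutator_sup {G : Type*} [Group G] [Finite G] {S H N : Subgroup G} (hS : IsPGroup p S)
    (hHS : H ≤ S) (hSN : S ≤ Subgroup.normalizer (N : Set G)) (h : H ≤ ⁅H, S⁆ ⊔ N) : H ≤ N := by
  haveI : Group.IsNilpotent S := hS.isNilpotent
  obtain ⟨n, hn⟩ := (Subgroup.isNilpotent_iff_lowerCentralSeries S).1 inferInstance
  have hγ : ∀ k, S.lowerCentralSeries k ≤ S := fun k =>
    (S.lowerCentralSeries_antitone (Nat.zero_le k)).trans (Subgroup.lowerCentralSeries_zero S).le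
  have key : ∀ k, H ≤ S.lowerCentralSeries k ⊔ N := by
    intro k
    induction k with
    | zero => rw [Subgroup.lowerCentralSeries_zero]; exact hHS.trans le_sup_left
    | succ k ih =>
      refine h.trans (sup_le (Subgroup.commutator_le.2 fun x hx s hs => ?_) le_sup_right)
      have hx' := ih hx
      rw [← SetLike.mem_coe, Subgroup.coe_mul_of_left_le_normalizer_right _ _ ((hγ k).trans hSN)] at hx'
      obtain ⟨a, ha, b, hb, rfl⟩ := Set.mem_mul.1 hx'
      rw [show ⁅a * b, s⁆ = a * ⁅b, s⁆ * a⁻¹ * ⁅a, s⁆ by simp only [commutatorElement_def]; group]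
      refine Subgroup.mul_mem _ (Subgroup.mem_sup_right ?_) (Subgroup.mem_sup_left ?_)
      · refine (Subgroup.mem_normalizer_iff.1 (hSN (hγ k ha)) _).1 ?_
        rw [← commutatorElement_inv]
        exact N.inv_mem (comm_mem_of_normalizer (hSN hs) hb)
      · rw [Subgroup.lowerCentralSeries_succ]
        exact Subgroup.commutator_mem_commutator ha hs
  exact (key n).trans (by rw [hn, bot_sup_eq])

/-- When the Sylow subgroup `S` is a maximal subgroup, a chief factor on which some element of `S ∖ O_p(G)`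
has Engel degree below `p` is central. -/
theorem commutator_le_of_engel {G : Type*} [Group G] [Finite G] (S : Sylow p G)
    (hmax : ∀ M : Subgroup G, (S : Subgroup G) ≤ M → M = (S : Subgroup G) ∨ M = ⊤)
    {U V : Subgroup G} (hUV : Cfsg.IsChiefFactor U V) (hU : U ≤ Cfsg.pCore p G) {u : G}
    (huS : u ∈ (S : Subgroup G)) (huQ : u ∉ Cfsg.pCore p G)
    (hu : Cfsg.iterCommutator U (Subgroup.zpowers u) (p - 1) ≤ V) : ⁅U, (⊤ : Subgroup G)⁆ ≤ V := by
  classical
  haveI := hUV.2.1
  haveI := hUV.2.2.1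
  set P := Cfsg.pCore p G
  set S' := (S : Subgroup G)
  have hUS : U ≤ S' := hU.trans (Cores.pCore_le_sylow S)
  set U₀ := ⁅U, S'⁆ ⊔ V with hU₀
  have hU₀U : U₀ ≤ U := sup_le (Subgroup.commutator_le_left U S') hUV.1.le
  have hne : ¬ U ≤ U₀ := fun hle => hUV.1.not_ge (le_of_le_commutator_sup S.2 hUS
    (Subgroup.normalizer_eq_top (H := V) ▸ le_top) hle)
  obtain ⟨hel, hexp⟩ := chiefFactor_elementary hUV (S.2.to_le hUS)
  haveI : IsMulCommutative (↥U ⧸ V.subgroupOf U) := by
    rw [Subgroup.Normal.quotient_commutative_iff_commutator_le]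
    refine Subgroup.map_le_map_iff_of_injective (f := U.subtype) U.subtype_injective |>.1 ?_
    rw [Subgroup.map_subtype_commutator, Subgroup.subgroupOf_map_subtype]
    exact le_inf hel (commutator_le_self _)
  haveI : (U₀.subgroupOf U).Normal := by
    refine ⟨fun d hd y => Subgroup.mem_subgroupOf.2 ?_⟩
    have h1 : ⁅(y : G), (d : G)⁆ ∈ U₀ := Subgroup.mem_sup_right (hel (Subgroup.commutator_mem_commutator y.2 d.2))
    have := U₀.mul_mem h1 hd
    simpa [commutatorElement_def, mul_assoc] using this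
  haveI : IsMulCommutative (↥U ⧸ U₀.subgroupOf U) := by
    rw [Subgroup.Normal.quotient_commutative_iff_commutator_le]
    refine Subgroup.map_le_map_iff_of_injective (f := U.subtype) U.subtype_injective |>.1 ?_
    rw [Subgroup.map_subtype_commutator, Subgroup.subgroupOf_map_subtype]
    exact le_inf (hel.trans le_sup_right) (commutator_le_self _)
  let ρ : G →* MulAut ((↥U ⧸ V.subgroupOf U) →* (↥U ⧸ U₀.subgroupOf U)) :=
    { toFun := fun g =>
        { toFun := fun ψ => ψ.comp (quotConj U V g⁻¹).toMonoidHom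
          invFun := fun ψ => ψ.comp (quotConj U V g).toMonoidHom
          left_inv := fun ψ => MonoidHom.ext fun b => by
            show ψ (quotConj U V g⁻¹ (quotConj U V g b)) = ψ b
            rw [← MulAut.mul_apply, ← map_mul, inv_mul_cancel, map_one, MulAut.one_apply]
          right_inv := fun ψ => MonoidHom.ext fun b => by
            show ψ (quotConj U V g (quotConj U V g⁻¹ b)) = ψ b
            rw [← MulAut.mul_apply, ← map_mul, mul_inv_cancel, map_one, MulAut.one_apply]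
          map_mul' := fun ψ χ => rfl }
      map_one' := MulEquiv.ext fun ψ => MonoidHom.ext fun b => by
        show ψ (quotConj U V 1⁻¹ b) = ψ b
        rw [inv_one, map_one, MulAut.one_apply]
      map_mul' := fun g h => MulEquiv.ext fun ψ => MonoidHom.ext fun b => by
        show ψ (quotConj U V (g * h)⁻¹ b) = ψ (quotConj U V h⁻¹ (quotConj U V g⁻¹ b))
        rw [mul_inv_rev, map_mul, MulAut.mul_apply] }
  let φ₀ : (↥U ⧸ V.subgroupOf U) →* (↥U ⧸ U₀.subgroupOf U) :=
    QuotientGroup.map (V.subgroupOf U) (U₀.subgroupOf U) (MonoidHom.id U)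
      (fun y hy => Subgroup.mem_subgroupOf.2 (Subgroup.mem_sup_right (Subgroup.mem_subgroupOf.1 hy)))
  set E : Set G := {v | v ∈ S' ∧ v ∉ P ∧ Cfsg.iterCommutator U (Subgroup.zpowers v) (p - 1) ≤ V} with hEdef
  have hconj : ∀ v ∈ E, ∀ g : G, g * v * g⁻¹ ∈ S' → g * v * g⁻¹ ∈ E := fun v hv g hg =>
    ⟨hg, fun h => hv.2.1 (by simpa [mul_assoc] using (inferInstance : P.Normal).conj_mem _ h g⁻¹),
      iterCommutator_conj_le hv.2.2 g⟩
  have hEinv : ∀ s ∈ S', ∀ v ∈ E, s * v * s⁻¹ ∈ E := fun s hs v hv =>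
    hconj v hv s (S'.mul_mem (S'.mul_mem hs hv.1) (S'.inv_mem hs))
  set Y₀ := Subgroup.closure E with hY₀
  have hY₀S : Y₀ ≤ S' := (Subgroup.closure_le _).2 fun v hv => hv.1
  set M := Subgroup.normalizer (Y₀ : Set G) with hMdef
  have hSM : S' ≤ M := fun s hs => cj_eq_self_iff.1 <| Subgroup.eq_of_le_of_card_ge (by
    rw [hY₀, cj_closure, Subgroup.closure_le]
    rintro _ ⟨v, hv, rfl⟩
    exact Subgroup.subset_closure (hEinv s hs v hv)) (card_cj s Y₀).ge
  have hMne : M ≠ ⊤ := fun h => huQ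
    (isPGroup_le_pCore (S.2.to_le hY₀S) h (Subgroup.subset_closure ⟨huS, huQ, hu⟩))
  have hMS : M = S' := (hmax M hSM).resolve_right hMne
  have hEM : E ⊆ M := fun v hv => hSM hv.1
  have hfix : ∀ g : G, (∀ v ∈ E, g⁻¹ * v * g ∈ M) → g ∈ M := by
    intro g hg
    have h' : g⁻¹ ∈ M := cj_eq_self_iff.1 <| Subgroup.eq_of_le_of_card_ge (by
      rw [hY₀, cj_closure, Subgroup.closure_le]
      rintro _ ⟨v, hv, rfl⟩
      refine Subgroup.subset_closure (hconj v hv _ ?_)
      rw [inv_inv]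
      exact hMS ▸ hg v hv) (card_cj _ Y₀).ge
    simpa using M.inv_mem h'
  have hinv : ∀ g : G, ρ g φ₀ = φ₀ := by
    refine fixed_of_killsOrbits (ρ := ρ) S.2 (fun v hv => hv.1) hEinv (fun v hv k hk ψ => ?_) hEM hfix ?_
    · refine MonoidHom.ext fun b => ?_
      rw [MonoidHom.finsetProd_apply]
      have key : ∏ i ∈ Finset.range (p ^ k), quotConj U V (v⁻¹ ^ i) b = 1 :=
        killsOrbits_quotConj U V hexp hv.2.2 (Subgroup.inv_mem _ (Subgroup.mem_zpowers v)) hk b
      calc ∏ i ∈ Finset.range (p ^ k), (ρ (v ^ i) ψ) b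
          = ∏ i ∈ Finset.range (p ^ k), ψ (quotConj U V (v⁻¹ ^ i) b) :=
            Finset.prod_congr rfl fun i _ => by
              show ψ (quotConj U V (v ^ i)⁻¹ b) = _
              rw [inv_pow]
        _ = _ := by rw [← map_prod, key, map_one]; rfl
    · intro m hm
      refine MonoidHom.ext fun b => ?_
      obtain ⟨x, rfl⟩ := QuotientGroup.mk_surjective b
      show φ₀ (quotConj U V m⁻¹ (QuotientGroup.mk x)) = φ₀ (QuotientGroup.mk x)
      rw [quotConj_mk]
      refine QuotientGroup.eq.2 (Subgroup.mem_subgroupOf.2 ?_)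
      have h1 : ⁅m⁻¹, (x : G)⁻¹⁆ ∈ U₀ := by
        rw [← commutatorElement_inv]
        exact U₀.inv_mem (Subgroup.mem_sup_left (Subgroup.commutator_mem_commutator (U.inv_mem x.2)
          (S'.inv_mem (hMS ▸ hm))))
      simpa [commutatorElement_def, mul_assoc] using h1
  have hall : ⁅U, (⊤ : Subgroup G)⁆ ≤ U₀ := by
    refine Subgroup.commutator_le.2 fun x hx g _ => ?_
    have h1 := DFunLike.congr_fun (hinv g⁻¹) (QuotientGroup.mk (⟨x⁻¹, U.inv_mem hx⟩ : U))
    change φ₀ (quotConj U V g⁻¹⁻¹ (QuotientGroup.mk _)) = φ₀ (QuotientGroup.mk _) at h1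
    rw [quotConj_mk] at h1
    have h2 := Subgroup.mem_subgroupOf.1 (QuotientGroup.eq.1 h1)
    have h3 : ⁅g, x⁆ ∈ U₀ := by simpa [commutatorElement_def, mul_assoc] using h2
    rw [← commutatorElement_inv]
    exact U₀.inv_mem h3
  rcases hUV.2.2.2 (⁅U, (⊤ : Subgroup G)⁆ ⊔ V) inferInstance le_sup_right
    (sup_le (Subgroup.commutator_le_left U ⊤) hUV.1.le) with e | e
  · exact le_sup_left.trans e.le
  · exact absurd (e.ge.trans (sup_le hall le_sup_right)) hne

/-- A `p'`-element centralizing `N` and moving `x` inside a central coset of `N` fixes it. -/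
theorem fixed_of_coprime {G : Type*} [Group G] [Finite G] {N : Subgroup G} (hN : IsPGroup p N) {k x : G}
    (hk : (orderOf k).Coprime p) (hfix : ∀ z ∈ N, k * z = z * k) (hx : x⁻¹ * (k * x * k⁻¹) ∈ N) :
    k * x = x * k := by
  set z := x⁻¹ * (k * x * k⁻¹) with hz
  have hkz : k * z * k⁻¹ = z := by rw [hfix z hx, mul_inv_cancel_right]
  have hpow : ∀ i : ℕ, k ^ i * x * (k ^ i)⁻¹ = x * z ^ i := by
    intro i
    induction i with
    | zero => simp
    | succ i ih =>
      calc k ^ (i + 1) * x * (k ^ (i + 1))⁻¹ = k * (k ^ i * x * (k ^ i)⁻¹) * k⁻¹ := by rw [pow_succ']; group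
        _ = k * x * k⁻¹ * (k * z ^ i * k⁻¹) := by rw [ih]; group
        _ = x * z ^ (i + 1) := by
          rw [← conj_pow, hkz, show k * x * k⁻¹ = x * z by rw [hz]; group, pow_succ', mul_assoc]
  have h := hpow (orderOf k)
  rw [pow_orderOf_eq_one] at h
  have hz1 : z ^ orderOf k = 1 := by simpa using h.symm
  obtain ⟨j, hj⟩ := IsPGroup.iff_orderOf.mp hN ⟨z, hx⟩
  rw [Subgroup.orderOf_mk] at hj
  have hz2 : z = 1 := orderOf_eq_one_iff.1 (Nat.eq_one_of_dvd_coprimes (hk.pow_right j)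
    (orderOf_dvd_of_pow_eq_one hz1) hj.dvd)
  have : k * x * k⁻¹ = x := by
    rw [hz, inv_mul_eq_one] at hz2
    exact hz2.symm
  calc k * x = k * x * k⁻¹ * k := by group
    _ = x * k := by rw [this]

/-- There is no critical group, `p ≥ 5`, with `N(J(S))` `p`-nilpotent. -/
theorem isCritical_false {G : Type u} [Group G] [Finite G] (hp : 5 ≤ p) {S : Sylow p G} (h : IsCritical S)
    (hN : Cfsg.HasNormalPComplement p
      ↥(Subgroup.normalizer (Cfsg.thompsonSubgroupAOf (S : Subgroup G) : Set G))) : False := by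
  have hPS : Cfsg.pCore p G ≤ (S : Subgroup G) := Cores.pCore_le_sylow S
  by_cases hall : ∀ A, IsMaxAbelian (S : Subgroup G) A → A ≤ Cfsg.pCore p G
  · refine h.not_hasComplement ?_
    have htop : Subgroup.normalizer (Cfsg.thompsonSubgroupAOf (S : Subgroup G) : Set G) = ⊤ := by
      rw [← thompsonSubgroupAOf_eq_of_le hPS (thompsonSubgroupAOf_le_iff.2 hall)]
      exact top_le_iff.1 ((Subgroup.le_normalizer_of_normal (H := Cfsg.pCore p G)).trans
        (normalizer_le_normalizer_thompsonSubgroupAOf _))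
    rw [htop] at hN
    exact (hasNormalPComplement_congr Subgroup.topEquiv).1 hN
  push Not at hall
  obtain ⟨A₀, hA₀, hout⟩ := hall
  obtain ⟨A, X, hd⟩ := exists_data S.2 hPS hA₀ hout
  obtain ⟨g, hgA, hgP⟩ := SetLike.not_le_iff_exists.1 hd.out
  have hgS := hd.max.le hgA
  have hgle : Subgroup.zpowers g ≤ A := Subgroup.zpowers_le.2 hgA
  haveI := hd.normal
  haveI := hd.Q_normal
  have hn : ∀ N : Subgroup G, N.Normal → ∀ K : Subgroup G, K ≤ Subgroup.normalizer (N : Set G) := fun N hN K => by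
    haveI := hN
    exact Subgroup.normalizer_eq_top (H := N) ▸ le_top
  obtain ⟨hQ4, hX3⟩ : Cfsg.iterCommutator (Data.Q p X) A 4 ≤ X ∧
      ∀ U V : Subgroup G, Cfsg.IsChiefFactor U V → U ≤ X → Cfsg.iterCommutator U A 3 ≤ V := by
    refine ⟨?_, fun U V hUV hUX => hd.chief_three hUV hUX⟩
    by_cases hq : ∀ v ∈ X, gcl A v ≤ A
    · exact hd.Q_four_quad (by omega) hq
    · push Not at hq
      exact hd.Q_four hq
  -- the `p'`-elements centralize `Q`
  obtain ⟨k, hk, hk1⟩ := exists_coprime_ne_one h.not_hasComplement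
  have hQP : Data.Q p X ≤ Cfsg.pCore p G := inf_le_left.trans inf_le_left
  have hQc : ∀ q ∈ Data.Q p X, k * q = q * k := by
    by_contra hno
    obtain ⟨U, ⟨hUn, hUQ, hUk⟩, hmin⟩ := Set.Finite.exists_minimal
      (Set.toFinite {U : Subgroup G | U.Normal ∧ U ≤ Data.Q p X ∧ ¬ ∀ q ∈ U, k * q = q * k})
      ⟨Data.Q p X, inferInstance, le_rfl, hno⟩
    haveI := hUn
    obtain ⟨V, hV⟩ := exists_chiefFactor_below (X := U) fun e => hUk fun q hq => by
      rw [e, Subgroup.mem_bot] at hq; rw [hq, mul_one, one_mul]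
    haveI := hV.2.2.1
    have hsub : ∀ W : Subgroup G, W.Normal → W < U → ∀ q ∈ W, k * q = q * k := fun W hWn hW => by
      by_contra hc
      exact hW.not_ge (hmin ⟨hWn, hW.le.trans hUQ, hc⟩ hW.le)
    have hdeg : Cfsg.iterCommutator U (Subgroup.zpowers g) (p - 1) ≤ V := by
      refine ((iterCommutator_antitone (hn U hUn _) (show 4 ≤ p - 1 by omega)).trans
        (iterCommutator_mono le_rfl hgle 4)).trans ?_
      by_cases hle : U ≤ V ⊔ X
      · obtain ⟨h1, h2⟩ := isChiefFactor_inf hV hle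
        exact (iterCommutator_le_sup h2 ((iterCommutator_antitone (hn (U ⊓ X) inferInstance A)
          (show 3 ≤ 4 by norm_num)).trans (hX3 _ _ h1 inf_le_right))).trans (sup_le le_rfl inf_le_left)
      · have hint : U ⊓ X ≤ V := by
          rcases hV.2.2.2 (V ⊔ U ⊓ X) inferInstance le_sup_left (sup_le hV.1.le inf_le_left) with e | e
          · exact le_sup_right.trans e.le
          · exact absurd (e.ge.trans (sup_le_sup_left inf_le_right V)) hle
        exact (le_inf (iterCommutator_le_start (hn U hUn A) 4)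
          ((iterCommutator_mono hUQ le_rfl 4).trans hQ4)).trans hint
    have hcen := commutator_le_of_engel S h.maximal hV (hUQ.trans hQP) hgS hgP hdeg
    refine hUk fun q hq => fixed_of_coprime ((Cores.isPGroup_pCore p G).to_le (hV.1.le.trans (hUQ.trans hQP)))
      hk (hsub V inferInstance hV.1) ?_
    have h1 := hcen (Subgroup.commutator_mem_commutator (U.inv_mem hq) (Subgroup.mem_top k))
    simpa [commutatorElement_def, mul_assoc] using h1
  -- hence `O_p(G)`
  have hPc : ∀ x ∈ Cfsg.pCore p G, k * x = x * k := by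
    intro x hx
    refine fixed_of_coprime ((Cores.isPGroup_pCore p G).to_le hd.le) hk
      (fun z hz => hQc z (hd.X_le_Q hz)) (hd.inf_centralizer_Q_le ⟨?_, Subgroup.mem_centralizer_iff.2 fun q hq => ?_⟩)
    · exact Subgroup.mul_mem _ (Subgroup.inv_mem _ hx) ((inferInstance : (Cfsg.pCore p G).Normal).conj_mem x hx k)
    have hz : ⁅x, q⁆ ∈ X := hd.mem_Q_X hx hq
    have h1 : k * ⁅x, q⁆ * k⁻¹ = ⁅x, q⁆ := by rw [hQc _ (hd.X_le_Q hz), mul_inv_cancel_right]
    have h2 : k * q * k⁻¹ = q := by rw [hQc q hq, mul_inv_cancel_right]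
    have h3 : k * x * k⁻¹ * q * (k * x * k⁻¹)⁻¹ = x * q * x⁻¹ := by
      calc k * x * k⁻¹ * q * (k * x * k⁻¹)⁻¹ = k * x * k⁻¹ * (k * q * k⁻¹) * (k * x * k⁻¹)⁻¹ := by rw [h2]
        _ = k * ⁅x, q⁆ * k⁻¹ * (k * q * k⁻¹) := by simp only [commutatorElement_def]; group
        _ = _ := by rw [h1, h2]; simp only [commutatorElement_def]; group
    calc q * (x⁻¹ * (k * x * k⁻¹)) = x⁻¹ * (x * q * x⁻¹) * (k * x * k⁻¹) := by group
      _ = x⁻¹ * (k * x * k⁻¹ * q * (k * x * k⁻¹)⁻¹) * (k * x * k⁻¹) := by rw [h3]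
      _ = x⁻¹ * (k * x * k⁻¹) * q := by group
  have hkP : k ∈ Cfsg.pCore p G :=
    h.centralizer_le (Subgroup.mem_centralizer_iff.2 fun x hx => (hPc x hx).symm)
  obtain ⟨j, hj⟩ := IsPGroup.iff_orderOf.mp (Cores.isPGroup_pCore p G) ⟨k, hkP⟩
  rw [Subgroup.orderOf_mk] at hj
  exact hk1 (orderOf_eq_one_iff.1 (Nat.eq_one_of_dvd_coprimes (hk.pow_right j) dvd_rfl hj.dvd))

/-- If the `p'`-elements normalizing `J(S)` centralize it, `N(J(S))` is `p`-nilpotent. -/
theorem hasNormalPComplement_normalizer {G : Type u} [Group G] [Finite G] (S : Sylow p G)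
    (h : ∀ g ∈ Subgroup.normalizer (Cfsg.thompsonSubgroupAOf (S : Subgroup G) : Set G), (orderOf g).Coprime p →
        g ∈ Subgroup.centralizer (Cfsg.thompsonSubgroupAOf (S : Subgroup G) : Set G)) :
    Cfsg.HasNormalPComplement p
      ↥(Subgroup.normalizer (Cfsg.thompsonSubgroupAOf (S : Subgroup G) : Set G)) := by
  set J := Cfsg.thompsonSubgroupAOf (S : Subgroup G) with hJ
  set M := Subgroup.normalizer (J : Set G) with hM
  have hSM : (S : Subgroup G) ≤ M :=
    Subgroup.le_normalizer.trans (normalizer_le_normalizer_thompsonSubgroupAOf _)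
  have hJS : J ≤ (S : Subgroup G) := thompsonSubgroupAOf_le _
  obtain ⟨A, hA⟩ := exists_isMaxAbelian (S : Subgroup G)
  have hCJ : ∀ x : G, x ∈ (S : Subgroup G) → x ∈ Subgroup.centralizer (J : Set G) → x ∈ J := by
    intro x hxS hxJ
    refine le_thompsonSubgroupAOf hA ?_
    have hAJ : A ≤ J := le_thompsonSubgroupAOf hA
    have hc : IsMulCommutative ↥(A ⊔ Subgroup.zpowers x) := by
      refine isMulCommutative_sup (fun a ha b hb => comm_of_isMulCommutative hA.comm ha hb)
        (fun a ha b hb => comm_of_isMulCommutative inferInstance ha hb) ?_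
      rintro a ha _ ⟨i, rfl⟩
      exact Commute.zpow_right (Subgroup.mem_centralizer_iff.1 hxJ a (hAJ ha)) i
    have := Subgroup.eq_of_le_of_card_ge (le_sup_left : A ≤ A ⊔ Subgroup.zpowers x)
      (hA.card_le _ (sup_le hA.le (Subgroup.zpowers_le.2 hxS)) hc)
    exact this ▸ Subgroup.mem_sup_right (Subgroup.mem_zpowers x)
  refine hasNormalPComplement_of_frobeniusCondition fun D hD g hg hgp => ?_
  refine Subgroup.mem_centralizer_iff.2 fun d hd => Subtype.ext (Eq.symm ?_)
  have hgc : ∀ y ∈ J, (g : G) * y = y * g := fun y hy =>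
    (Subgroup.mem_centralizer_iff.1 (h g g.2 (by rwa [Subgroup.orderOf_coe])) y hy).symm
  refine fixed_of_coprime (S.2.to_le hJS) (by rwa [Subgroup.orderOf_coe]) hgc ?_
  -- the commutator is a `p`-element of `M` centralizing `J`
  set e : M := d⁻¹ * (g * d * g⁻¹) with he
  have heD : e ∈ D := D.mul_mem (D.inv_mem hd) ((Subgroup.mem_normalizer_iff.1 hg d).1 hd)
  show (e : G) ∈ J
  have hec : (e : G) ∈ Subgroup.centralizer (J : Set G) := by
    refine Subgroup.mem_centralizer_iff.2 fun y hy => ?_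
    have hy' : (d : G) * y * (d : G)⁻¹ ∈ J := (Subgroup.mem_normalizer_iff.1 d.2 y).1 hy
    have h1 := hgc _ hy'
    have h2 := hgc _ hy
    show y * ((d : G)⁻¹ * ((g : G) * d * (g : G)⁻¹)) = (d : G)⁻¹ * ((g : G) * d * (g : G)⁻¹) * y
    calc y * ((d : G)⁻¹ * ((g : G) * d * (g : G)⁻¹))
        = (d : G)⁻¹ * (((d : G) * y * (d : G)⁻¹) * g) * d * (g : G)⁻¹ := by group
      _ = (d : G)⁻¹ * ((g : G) * ((d : G) * y * (d : G)⁻¹)) * d * (g : G)⁻¹ := by rw [h1]
      _ = (d : G)⁻¹ * g * d * (y * (g : G)⁻¹) := by group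
      _ = (d : G)⁻¹ * g * d * ((g : G)⁻¹ * ((g : G) * y) * (g : G)⁻¹) := by group
      _ = (d : G)⁻¹ * g * d * ((g : G)⁻¹ * (y * g) * (g : G)⁻¹) := by rw [h2]
      _ = _ := by group
  obtain ⟨T, hT⟩ := (IsPGroup.to_le hD (Subgroup.zpowers_le.2 heD)).exists_le_sylow
  obtain ⟨m, hm⟩ := MulAction.exists_smul_eq M T (S.subtype hSM)
  have h3 : m * e * m⁻¹ ∈ ((S.subtype hSM : Sylow p M) : Subgroup M) := by
    rw [← hm, Sylow.coe_subgroup_smul]
    exact ⟨e, hT (Subgroup.mem_zpowers e), rfl⟩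
  have h4 : (m : G) * e * (m : G)⁻¹ ∈ J := by
    refine hCJ _ h3 (Subgroup.mem_centralizer_iff.2 fun y hy => ?_)
    have hy' : (m : G)⁻¹ * y * m ∈ J := (Subgroup.mem_normalizer_iff''.1 m.2 y).1 hy
    have := Subgroup.mem_centralizer_iff.1 hec _ hy'
    calc y * ((m : G) * e * (m : G)⁻¹) = (m : G) * (((m : G)⁻¹ * y * m) * e) * (m : G)⁻¹ := by group
      _ = (m : G) * ((e : G) * ((m : G)⁻¹ * y * m)) * (m : G)⁻¹ := by rw [this]
      _ = _ := by group
  exact (Subgroup.mem_normalizer_iff.1 m.2 _).2 h4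

/-- For `p ≥ 5`: a normal `p`-complement exists iff the `p'`-elements normalizing `J(S)` centralize it. -/
theorem hasNormalPComplement_iff {G : Type u} [Group G] [Finite G] (hp : 5 ≤ p) (S : Sylow p G) :
    Cfsg.HasNormalPComplement p G ↔
      ∀ g ∈ Subgroup.normalizer (Cfsg.thompsonSubgroupAOf (S : Subgroup G) : Set G), (orderOf g).Coprime p →
        g ∈ Subgroup.centralizer (Cfsg.thompsonSubgroupAOf (S : Subgroup G) : Set G) := by
  constructor
  · intro h g hg hgp
    refine Subgroup.mem_centralizer_iff.2 fun y hy => ?_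
    have h1 : g * y * g⁻¹ * y⁻¹ ∈ Cfsg.thompsonSubgroupAOf (S : Subgroup G) :=
      Subgroup.mul_mem _ ((Subgroup.mem_normalizer_iff.1 hg y).1 hy) (Subgroup.inv_mem _ hy)
    have hgK : g ∈ Cfsg.pPrimeCore p G := mem_pPrimeCore_of_coprime h hgp
    have h2 : g * y * g⁻¹ * y⁻¹ ∈ Cfsg.pPrimeCore p G := by
      rw [mul_assoc, mul_assoc, ← mul_assoc y]
      exact Subgroup.mul_mem _ hgK ((inferInstance : (Cfsg.pPrimeCore p G).Normal).conj_mem _ (Subgroup.inv_mem _ hgK) y)
    obtain ⟨j, hj⟩ := IsPGroup.iff_orderOf.mp S.2 ⟨_, thompsonSubgroupAOf_le _ h1⟩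
    rw [Subgroup.orderOf_mk] at hj
    have h3 : g * y * g⁻¹ * y⁻¹ = 1 := orderOf_eq_one_iff.1 (Nat.eq_one_of_dvd_coprimes
      ((Cores.card_pPrimeCore_coprime p).pow_right j) (Subgroup.orderOf_dvd_natCard _ h2) hj.dvd)
    exact (mul_inv_eq_iff_eq_mul.1 (mul_inv_eq_one.1 h3)).symm
  · intro h
    refine hasNormalPComplement_of_thompsonHyp isPFunctor_thompsonSubgroupAOf isPFunctor_thompsonSubgroupAOf
      (fun H _ _ T hc hT => isCritical_false hp hc hT.1) S
      ⟨hasNormalPComplement_normalizer S h, hasNormalPComplement_of_le (Subgroup.centralizer_le_normalizer _)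
        (hasNormalPComplement_normalizer S h)⟩

end CfsgLib.Replacement.JEngel
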