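import Cfsg.Agent.Lib.RankTwoP.Noncentral
import Cfsg.Agent.Lib.PGroups.ClassTwo
import Cfsg.Agent.Lib.BGAppendix.Basic

/-!
The 3-groups of rank two with a self-centralizing element: the abelian-by-C₃ structure.
-/

set_option autoImplicit false
set_option linter.style.haveILetI false
set_option linter.unusedSectionVars false

namespace CfsgLib.Replacement.RankTwoMaximal

open CfsgLib RankTwoP
open scoped commutatorElement

variable {T : Type*} [Group T] [Finite T] {p : ℕ} [hp : Fact p.Prime] {E C : Subgroup T}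

/-- Hypotheses: `w` central of order `p`, `x ∉ C` with `C_C(x) ≤ E`. -/
structure Hyp (p : ℕ) (E C : Subgroup T) (w x : T) : Prop where
  base : Base p E C
  hidx : C.index = p
  h2 : p ≠ 2
  hT : IsPGroup p T
  hwc : w ∈ Subgroup.center T
  hwp : w ^ p = 1
  hw1 : w ≠ 1
  hx : x ∉ C
  hcx : ∀ g ∈ C, g * x = x * g → g ∈ E

variable {w x : T}

theorem Hyp.w_mem (H : Hyp p E C w x) : w ∈ E := by
  refine H.base.small w ?_ H.hwp
  rw [H.base.cent]
  exact Subgroup.mem_centralizer_iff.2 fun e _ => Subgroup.mem_center_iff.1 H.hwc e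

theorem Hyp.center_le (H : Hyp p E C w x) {e : T} (he : e ∈ E) (hec : e ∈ Subgroup.center T) :
    e ∈ Subgroup.zpowers w :=
  Subgroup.mem_zpowers_iff.2 (exists_zpow_eq H.base H.hidx H.hT H.w_mem H.hwc H.hw1 he hec)

theorem Hyp.zpowers_le_center (H : Hyp p E C w x) : Subgroup.zpowers w ≤ Subgroup.center T :=
  Subgroup.zpowers_le.2 H.hwc

/-- An element of `C` fixed by `x` modulo `⟨w⟩` lies in `E`. -/
theorem Hyp.mem_of_fixed_mod (H : Hyp p E C w x) {d : T} (hd : d ∈ C)
    (hdx : d⁻¹ * (x⁻¹ * d * x) ∈ Subgroup.zpowers w) : d ∈ E := by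
  haveI := H.base.normal
  obtain ⟨e0, he0, hne⟩ := exists_not_commute H.base H.hx
  obtain ⟨hmE, hmZ⟩ := step_mem_center H.base H.hT he0 x
  have hm := H.center_le hmE hmZ
  obtain ⟨i, hi⟩ := Subgroup.mem_zpowers_iff.1 hm
  obtain ⟨j, hj⟩ := Subgroup.mem_zpowers_iff.1 hdx
  have hi' : ¬ (p : ℤ) ∣ i := fun ⟨l, hl⟩ => hne (by
    rw [hl, zpow_mul, zpow_natCast, H.hwp, one_zpow] at hi
    calc e0 * x = x * e0 * (e0⁻¹ * (x⁻¹ * e0 * x)) := by group
      _ = x * e0 := by rw [← hi, mul_one])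
  obtain ⟨s, s', hs⟩ :=
    ((Nat.prime_iff_prime_int.1 hp.out).irreducible.coprime_iff_not_dvd).2 hi'
  set l := - (j * s') with hl
  set d' := d * e0 ^ l with hd'
  have hd'C : d' ∈ C := mul_mem hd (H.base.le (zpow_mem he0 l))
  have hwl : ∀ k : ℤ, ∀ t : T, Commute (w ^ k) t := fun k t =>
    (Subgroup.mem_center_iff.1 (Subgroup.zpow_mem _ H.hwc k) t).symm
  have h1 : x⁻¹ * d * x = d * w ^ j := by rw [hj]; group
  have h2 : x⁻¹ * e0 * x = e0 * w ^ i := by rw [hi]; group
  have h3 : x⁻¹ * d' * x = d' * w ^ (j + i * l) := by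
    have := map_zpow (MulAut.conj x⁻¹) e0 l
    simp only [MulAut.conj_apply, inv_inv] at this
    rw [hd', show x⁻¹ * (d * e0 ^ l) * x = (x⁻¹ * d * x) * (x⁻¹ * e0 ^ l * x) by group, this, h1, h2,
      ((hwl i e0).symm).mul_zpow, ← zpow_mul, zpow_add]
    calc d * w ^ j * (e0 ^ l * w ^ (i * l)) = d * (w ^ j * e0 ^ l) * w ^ (i * l) := by group
      _ = d * (e0 ^ l * w ^ j) * w ^ (i * l) := by rw [(hwl j _).eq]
      _ = _ := by group
  have h4 : w ^ (j + i * l) = 1 := by
    have : j + i * l = (p : ℤ) * (j * s) := by rw [hl]; linear_combination -j * hs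
    rw [this, zpow_mul, zpow_natCast, H.hwp, one_zpow]
  rw [h4, mul_one] at h3
  have h5 : d' ∈ E := H.hcx d' hd'C (by
    calc d' * x = x * (x⁻¹ * d' * x) := by group
      _ = x * d' := by rw [h3])
  have := mul_mem h5 (inv_mem (zpow_mem he0 l))
  rwa [hd', mul_inv_cancel_right] at this

/-- The derived group of `C` lies in `⟨w⟩`. -/
theorem Hyp.commutator_mem (H : Hyp p E C w x) {a b : T} (ha : a ∈ C) (hb : b ∈ C) :
    ⁅a, b⁆ ∈ Subgroup.zpowers w := by
  haveI := H.base.normal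
  haveI hCn := H.base.normalC
  have hEn := H.base.normal
  set E' := E.subgroupOf C
  have hC' : Base p E' (⊤ : Subgroup C) := by
    refine ⟨inferInstance, fun u hu v hv => Subtype.ext (H.base.comm _ hu _ hv),
      fun u hu => Subtype.ext (H.base.exp _ hu), ?_, ?_, fun g _ hg => ?_⟩
    · rw [Nat.card_congr (Subgroup.subgroupOfEquivOfLe H.base.le).toEquiv, H.base.card]
    · refine le_antisymm (fun u _ => ?_) le_top
      exact Subgroup.mem_centralizer_iff.2 fun v hv => Subtype.ext (H.base.commute hv u.2).eq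
    · exact H.base.small g g.2 (congrArg Subtype.val hg)
  obtain ⟨N, hN, hNc, hNq⟩ := isMetacyclic_of_central H.h2 _ rfl (H.hT.to_subgroup C) E' hC'
  haveI := hN; haveI := hNc; haveI := hNq
  have hle : commutator C ≤ N := by
    letI : CommGroup (C ⧸ N) := IsCyclic.commGroup
    refine le_trans (Abelianization.commutator_subset_ker (QuotientGroup.mk' N)) ?_
    rw [QuotientGroup.ker_mk']
  haveI : IsCyclic (commutator C) := isCyclic_of_injective (Subgroup.inclusion hle) (Subgroup.inclusion_injective hle)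
  set D := (commutator C).map C.subtype with hD
  haveI hDn : D.Normal := by
    have : D = ⁅C, C⁆ := by rw [hD, Subgroup.map_subtype_commutator]
    rw [this]; infer_instance
  haveI hDc : IsCyclic D := isCyclic_of_surjective _
    (Subgroup.equivMapOfInjective _ C.subtype C.subtype_injective).surjective
  have hmem : ⁅a, b⁆ ∈ D := ⟨⁅(⟨a, ha⟩ : C), ⟨b, hb⟩⁆, Subgroup.commutator_mem_commutator (Subgroup.mem_top _) (Subgroup.mem_top _), rfl⟩
  suffices h : D ≤ Subgroup.zpowers w from h hmem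
  obtain ⟨g, hg⟩ := hDc.exists_generator
  have hgC : (g : T) ∈ C := Subgroup.map_subtype_le _ g.2
  have hDz : D = Subgroup.zpowers (g : T) := le_antisymm (fun d hd => by
      obtain ⟨i, hi⟩ := hg ⟨d, hd⟩
      exact ⟨i, congrArg Subtype.val hi⟩) (Subgroup.zpowers_le.2 g.2)
  obtain ⟨k, hk⟩ := IsPGroup.iff_orderOf.1 H.hT (g : T)
  rcases k with _ | k
  · rw [pow_zero, orderOf_eq_one_iff] at hk
    rw [hDz, hk, Subgroup.zpowers_one_eq_bot]
    exact bot_le
  -- every element of order `p` of `D` is central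
  have hcent : ∀ d ∈ D, d ^ p = 1 → d ∈ Subgroup.zpowers w := by
    intro d hd hdp
    refine H.center_le (H.base.small d (Subgroup.map_subtype_le _ hd) hdp) ?_
    have hdz : Subgroup.zpowers d ≤ D := Subgroup.zpowers_le.2 hd
    rcases eq_or_ne d 1 with rfl | hd1
    · exact one_mem _
    have hnd : (Subgroup.zpowers d).Normal := ⟨fun u hu t => by
      have huD := hdz hu
      have hvD : t * u * t⁻¹ ∈ D := hDn.conj_mem u huD t
      have hu' : u ^ p = 1 := by
        obtain ⟨i, rfl⟩ := Subgroup.mem_zpowers_iff.1 hu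
        rw [← zpow_natCast, ← zpow_mul, mul_comm, zpow_mul, zpow_natCast, hdp, one_zpow]
      rcases eq_or_ne u 1 with rfl | hu1
      · simp
      have hU : TwoGroups.UniqueOrderP p D := by
        intro a' b' ha' hb'
        have : Subgroup.zpowers a' = Subgroup.zpowers b' :=
          BGAppendix.eq_of_card_eq_of_le_cyclic ⊤ _ _ (Subgroup.topEquiv.isCyclic.mpr hDc) le_top le_top
            (by rw [Nat.card_zpowers, Nat.card_zpowers, ha', hb'])
        rw [this]; exact Subgroup.mem_zpowers b'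
      obtain ⟨i, hi⟩ := Subgroup.mem_zpowers_iff.1 (hU ⟨d, hd⟩ ⟨t * u * t⁻¹, hvD⟩
        (by rw [Subgroup.orderOf_mk]; exact orderOf_eq_prime hdp hd1)
        (by rw [Subgroup.orderOf_mk]; exact orderOf_eq_prime (by rw [conj_pow, hu', mul_one, mul_inv_cancel])
              (fun h0 => hu1 (conj_eq_one_iff.1 h0))))
      exact ⟨i, congrArg Subtype.val hi⟩⟩
    exact PGroups.le_center_of_card_eq_prime H.hT (N := Subgroup.zpowers d)
      (by rw [Nat.card_zpowers, orderOf_eq_prime hdp hd1]) (Subgroup.mem_zpowers d)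
  rcases k with _ | k
  · rw [hDz]
    refine Subgroup.zpowers_le.2 (hcent _ g.2 ?_)
    rw [← pow_one p, ← hk, pow_orderOf_eq_one]
  exfalso
  set a' := (g : T) ^ p ^ k with ha'
  have hap : a' ^ p ^ 2 = 1 := by rw [ha', ← pow_mul, ← pow_add, ← hk, pow_orderOf_eq_one]
  have hap1 : a' ^ p ≠ 1 := by
    intro h1
    rw [ha', ← pow_mul, ← pow_succ] at h1
    have := orderOf_dvd_of_pow_eq_one h1
    rw [hk, Nat.pow_dvd_pow_iff_le_right hp.out.one_lt] at this
    omega
  have ha'D : a' ∈ D := pow_mem g.2 _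
  have hapD : a' ^ p ∈ Subgroup.zpowers w := hcent _ (pow_mem ha'D p) (by
    rw [← pow_mul, ← pow_two, hap])
  -- `x` fixes `a'` modulo `⟨w⟩`
  obtain ⟨i, hi⟩ : ∃ i : ℤ, x⁻¹ * (g : T) * x = (g : T) ^ i := by
    have : x⁻¹ * (g : T) * x ∈ D := by simpa using hDn.conj_mem _ g.2 x⁻¹
    have this : x⁻¹ * (g : T) * x ∈ Subgroup.zpowers (g : T) := hDz.le this
    obtain ⟨i, hi⟩ := Subgroup.mem_zpowers_iff.1 this
    exact ⟨i, hi.symm⟩
  have hia : x⁻¹ * a' * x = a' ^ i := by
    have := map_pow (MulAut.conj x⁻¹) (g : T) (p ^ k)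
    simp only [MulAut.conj_apply, inv_inv] at this
    rw [ha', this, hi, ← zpow_natCast, ← zpow_natCast, ← zpow_mul, ← zpow_mul, mul_comm]
  have hip : (p : ℤ) ∣ i - 1 := by
    have h1 : (a' ^ p) ^ (i - 1) = 1 := by
      have h2 : x⁻¹ * a' ^ p * x = a' ^ p := by
        rw [mul_assoc, ← Subgroup.mem_center_iff.1 (H.zpowers_le_center hapD) x, inv_mul_cancel_left]
      have h3 := map_pow (MulAut.conj x⁻¹) a' p
      simp only [MulAut.conj_apply, inv_inv] at h3
      rw [zpow_sub, zpow_one, ← zpow_natCast, ← zpow_mul, mul_comm, zpow_mul, ← hia, zpow_natCast,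
        ← h3, h2, zpow_natCast, mul_inv_cancel]
    rw [← orderOf_dvd_iff_zpow_eq_one, orderOf_eq_prime (by rw [← pow_mul, ← pow_two, hap]) hap1] at h1
    exact h1
  have ha'E : a' ∈ E := H.mem_of_fixed_mod (Subgroup.map_subtype_le _ ha'D) (by
    obtain ⟨l, hl⟩ := hip
    rw [hia, show a'⁻¹ * a' ^ i = a' ^ (i - 1) by group, hl, zpow_mul, zpow_natCast]
    exact zpow_mem hapD l)
  exact hap1 (H.base.exp _ ha'E)

/-- Outside `C` nothing in `C ∖ E` is fixed modulo `⟨w⟩`. -/
theorem Hyp.mem_of_fixed_mod_outside (H : Hyp p E C w x) {g d : T} (hg : g ∉ C) (hd : d ∈ C)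
    (hdg : d⁻¹ * (g⁻¹ * d * g) ∈ Subgroup.zpowers w) : d ∈ E := by
  haveI : (Subgroup.zpowers w).Normal := ⟨fun u hu t => by
    rw [Subgroup.mem_center_iff.1 (H.zpowers_le_center hu) t, mul_inv_cancel_right]; exact hu⟩
  set π := QuotientGroup.mk' (Subgroup.zpowers w)
  have key : ∀ t : T, d⁻¹ * (t⁻¹ * d * t) ∈ Subgroup.zpowers w ↔ t ∈ (Subgroup.centralizer {π d}).comap π := by
    intro t
    rw [Subgroup.mem_comap, Subgroup.mem_centralizer_singleton_iff, ← QuotientGroup.eq_one_iff]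
    show π (d⁻¹ * (t⁻¹ * d * t)) = 1 ↔ _
    rw [map_mul, map_mul, map_mul, map_inv, map_inv, inv_mul_eq_one]
    constructor
    · intro h1
      calc π t * π d = π t * ((π t)⁻¹ * π d * π t) := by rw [← h1]
        _ = _ := by group
    · intro h1
      rw [mul_assoc, ← h1, inv_mul_cancel_left]
  have hle : C ≤ (Subgroup.centralizer {π d}).comap π := fun c hc => (key c).1 (by
    have := H.commutator_mem (inv_mem hd) (inv_mem hc)
    rw [commutatorElement_def, inv_inv, inv_inv] at this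
    simpa [mul_assoc] using this)
  have htop : (Subgroup.centralizer {π d}).comap π = ⊤ :=
    (isCoatom_C H.hidx).2 _ (lt_of_le_of_ne hle fun h => hg (h.symm ▸ (key g).1 hdg))
  exact H.mem_of_fixed_mod hd ((key x).2 (htop ▸ Subgroup.mem_top x))

theorem Hyp.pow_mem (H : Hyp p E C w x) {g : T} (hg : g ∉ C) : g ^ p ∈ Subgroup.zpowers w := by
  have hgC := pow_prime_mem H.hidx H.base.normalC g
  have hE := H.mem_of_fixed_mod_outside hg hgC (by
    rw [mul_assoc g⁻¹, ((Commute.refl g).pow_left p).eq, inv_mul_cancel_left, inv_mul_cancel]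
    exact one_mem _)
  exact H.center_le hE (mem_center_of_commute H.base H.hidx hE hg ((Commute.refl g).pow_left p).eq)

theorem Hyp.fixed_mem (H : Hyp p E C w x) {g d : T} (hg : g ∉ C) (hd : d ∈ C) (hdg : d * g = g * d) :
    d ∈ Subgroup.zpowers w := by
  have hE := H.mem_of_fixed_mod_outside hg hd (by
    rw [mul_assoc g⁻¹, hdg, inv_mul_cancel_left, inv_mul_cancel]; exact one_mem _)
  exact H.center_le hE (mem_center_of_commute H.base H.hidx hE hg hdg)

theorem Hyp.mul_pow (H : Hyp p E C w x) {u v : T} (hu : u ∈ C) (hv : v ∈ C) (i : ℕ) :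
    (u * v) ^ p ^ i = u ^ p ^ i * v ^ p ^ i := by
  induction i generalizing u v with
  | zero => simp
  | succ i ih =>
    have hm := H.commutator_mem hv hu
    have hc : ∀ t : T, Commute ⁅v, u⁆ t := fun t =>
      (Subgroup.mem_center_iff.1 (H.zpowers_le_center hm) t).symm
    have hwp : ⁅v, u⁆ ^ p = 1 := by
      obtain ⟨k, hk⟩ := Subgroup.mem_zpowers_iff.1 hm
      rw [← hk, ← zpow_natCast, ← zpow_mul, mul_comm, zpow_mul, zpow_natCast, H.hwp, one_zpow]
    have h1 : (u * v) ^ p = u ^ p * v ^ p := by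
      rw [PGroups.mul_pow_of_commute (hc u) (hc v), pow_choose_two_eq_one (PGroups.odd_prime H.h2) hwp,
        mul_one]
    rw [pow_succ', pow_mul, h1, ih (_root_.pow_mem hu p) (_root_.pow_mem hv p), ← pow_mul, ← pow_mul]

/-- The `p ^ i`-th powers in `C`. -/
noncomputable def Hyp.powRange (H : Hyp p E C w x) (i : ℕ) : Subgroup T :=
  ((MonoidHom.mk' (fun u : C => (u : T) ^ p ^ i) fun u v => H.mul_pow u.2 v.2 i).range)

theorem Hyp.mem_powRange (H : Hyp p E C w x) (i : ℕ) {t : T} :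
    t ∈ H.powRange i ↔ ∃ u ∈ C, u ^ p ^ i = t := by
  constructor
  · rintro ⟨u, rfl⟩; exact ⟨u, u.2, rfl⟩
  · rintro ⟨u, hu, rfl⟩; exact ⟨⟨u, hu⟩, rfl⟩

theorem Hyp.powRange_le (H : Hyp p E C w x) (i : ℕ) : H.powRange i ≤ C := by
  intro t ht
  obtain ⟨u, hu, rfl⟩ := (H.mem_powRange i).1 ht
  exact _root_.pow_mem hu _

theorem Hyp.card_step (H : Hyp p E C w x) (i : ℕ) (hE : E ≤ H.powRange i) :
    Nat.card (H.powRange i) = p ^ 2 * Nat.card (H.powRange (i + 1)) := by
  set S := H.powRange i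
  let q : S →* T := MonoidHom.mk' (fun u : S => (u : T) ^ p) fun u v => by
    have := H.mul_pow (H.powRange_le i u.2) (H.powRange_le i v.2) 1
    rw [pow_one] at this
    exact this
  have hr : q.range = H.powRange (i + 1) := by
    ext t
    rw [H.mem_powRange]
    constructor
    · rintro ⟨u, rfl⟩
      obtain ⟨v, hv, hvu⟩ := (H.mem_powRange i).1 u.2
      exact ⟨v, hv, by rw [pow_succ, pow_mul, hvu]; rfl⟩
    · rintro ⟨v, hv, rfl⟩
      exact ⟨⟨v ^ p ^ i, (H.mem_powRange i).2 ⟨v, hv, rfl⟩⟩, by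
        show (v ^ p ^ i) ^ p = _; rw [pow_succ, pow_mul]⟩
  have hk : q.ker = E.subgroupOf S := by
    ext u
    rw [MonoidHom.mem_ker, Subgroup.mem_subgroupOf]
    exact ⟨fun h => H.base.small u (H.powRange_le i u.2) h, fun h => H.base.exp u h⟩
  have := q.ker.card_mul_index
  rw [Subgroup.index_ker, hr, hk, Nat.card_congr (Subgroup.subgroupOfEquivOfLe hE).toEquiv,
    H.base.card] at this
  exact this.symm

/-- Either `|T| = p ^ (2k+1)` or the top powers in `C` are powers of `w`. -/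
theorem Hyp.dichotomy (H : Hyp p E C w x) (hCE : C ≠ E) :
    (∃ k : ℕ, 2 ≤ k ∧ Nat.card T = p ^ (2 * k + 1)) ∨
    ∃ m : ℕ, (∀ u ∈ C, u ^ p ^ (m + 1) ∈ Subgroup.zpowers w) ∧ ∃ u ∈ C, u ^ p ^ (m + 1) ≠ 1 := by
  obtain ⟨N, hN⟩ : ∃ N, ∀ u ∈ C, u ^ p ^ N = 1 := by
    obtain ⟨n, hn⟩ := IsPGroup.iff_card.1 (H.hT.to_subgroup C)
    exact ⟨n, fun u hu => congrArg Subtype.val
      (hn ▸ pow_card_eq_one' : (⟨u, hu⟩ : C) ^ p ^ n = 1)⟩
  classical
  have hex : ∃ N, ∀ u ∈ C, u ^ p ^ N = 1 := ⟨N, hN⟩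
  set k := Nat.find hex with hk
  have hk2 : 2 ≤ k := by
    by_contra hlt
    refine hCE (le_antisymm (fun u hu => H.base.small u hu ?_) H.base.le)
    have h1 := Nat.find_spec hex u hu
    rw [← hk] at h1
    obtain h0 | h0 : k = 0 ∨ k = 1 := by omega
    · rw [h0, pow_zero, pow_one] at h1; rw [h1, one_pow]
    · rwa [h0, pow_one] at h1
  obtain ⟨m, hm⟩ : ∃ m, k = m + 2 := ⟨k - 2, by omega⟩
  have hspec : ∀ u ∈ C, u ^ p ^ (m + 2) = 1 := hm ▸ Nat.find_spec hex
  have hne : ∃ u ∈ C, u ^ p ^ (m + 1) ≠ 1 := by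
    by_contra hc
    push Not at hc
    exact Nat.find_min hex (show m + 1 < k by omega) hc
  have hRE : H.powRange (m + 1) ≤ E := by
    intro t ht
    obtain ⟨u, hu, rfl⟩ := (H.mem_powRange _).1 ht
    exact H.base.small _ (_root_.pow_mem hu _) (by rw [← pow_mul, ← pow_succ]; exact hspec u hu)
  by_cases hW : ∀ u ∈ C, u ^ p ^ (m + 1) ∈ Subgroup.zpowers w
  · exact Or.inr ⟨m, hW, hne⟩
  left
  push Not at hW
  have hRn : (H.powRange (m + 1)).Normal := ⟨fun t ht g => by
    obtain ⟨u, hu, rfl⟩ := (H.mem_powRange _).1 ht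
    exact (H.mem_powRange _).2 ⟨g * u * g⁻¹, H.base.normalC.conj_mem u hu g, conj_pow⟩⟩
  have hfull : H.powRange (m + 1) = E := by
    refine Subgroup.eq_of_le_of_card_ge hRE ?_
    rw [H.base.card]
    obtain ⟨j, hj, hj'⟩ := (Nat.dvd_prime_pow hp.out).1
      (H.base.card ▸ Subgroup.card_dvd_of_le hRE : Nat.card (H.powRange (m + 1)) ∣ p ^ 2)
    obtain rfl | rfl | rfl : j = 0 ∨ j = 1 ∨ j = 2 := by omega
    · exfalso
      obtain ⟨u, hu, hu1⟩ := hne
      rw [pow_zero, Subgroup.card_eq_one] at hj'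
      exact hu1 (Subgroup.mem_bot.1 (hj' ▸ (H.mem_powRange _).2 ⟨u, hu, rfl⟩))
    · exfalso
      obtain ⟨u, hu, hu1⟩ := hW
      refine hu1 (H.center_le (hRE ((H.mem_powRange _).2 ⟨u, hu, rfl⟩)) ?_)
      exact PGroups.le_center_of_card_eq_prime H.hT (by rw [hj', pow_one]) ((H.mem_powRange _).2 ⟨u, hu, rfl⟩)
    · rw [hj']
  have hcount : ∀ j : ℕ, j ≤ m + 2 → Nat.card (H.powRange (m + 2 - j)) = p ^ (2 * j) := by
    intro j
    induction j with
    | zero =>
      intro _
      rw [Nat.sub_zero, mul_zero, pow_zero, Subgroup.card_eq_one, eq_bot_iff]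
      intro t ht
      obtain ⟨u, hu, rfl⟩ := (H.mem_powRange _).1 ht
      exact Subgroup.mem_bot.2 (hspec u hu)
    | succ j ih =>
      intro hj
      have hle : E ≤ H.powRange (m + 2 - (j + 1)) := by
        refine hfull.ge.trans ?_
        intro t ht
        obtain ⟨u, hu, rfl⟩ := (H.mem_powRange _).1 ht
        exact (H.mem_powRange _).2 ⟨u ^ p ^ j, _root_.pow_mem hu _, by
          rw [← pow_mul, ← pow_add]; congr 2; omega⟩
      rw [H.card_step _ hle, show m + 2 - (j + 1) + 1 = m + 2 - j by omega, ih (by omega), ← pow_add]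
      congr 1
      omega
  refine ⟨m + 2, by omega, ?_⟩
  have h0 : H.powRange 0 = C := by
    refine le_antisymm (H.powRange_le 0) fun t ht => (H.mem_powRange 0).2 ⟨t, ht, by simp⟩
  have h1 := hcount (m + 2) le_rfl
  rw [Nat.sub_self, h0] at h1
  rw [← C.card_mul_index, h1, H.hidx, ← pow_succ]

/-- An element of `C` of order `p ^ 2` cannot be moved out of `C` inside a subgroup `D`. -/
theorem Hyp.card_centralizer_lt (H : Hyp p E C w x) (D : Subgroup T) {a b : T} (haD : a ∈ D)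
    (hbD : b ∈ D) (ha : a ∈ C) (hb : b ∉ C) (hap : a ^ p ∈ Subgroup.zpowers w) (hap1 : a ^ p ≠ 1) :
    Nat.card ↥(D ⊓ Subgroup.centralizer {b}) < Nat.card ↥(D ⊓ Subgroup.centralizer {a}) := by
  have hCn := H.base.normalC
  have hwo : orderOf w = p := orderOf_eq_prime H.hwp H.hw1
  have happ : (a ^ p) ^ p = 1 := by
    obtain ⟨k, hk⟩ := Subgroup.mem_zpowers_iff.1 hap
    rw [← hk, ← zpow_natCast, ← zpow_mul, mul_comm, zpow_mul, zpow_natCast, H.hwp, one_zpow]
  have hao : orderOf a = p ^ 2 := orderOf_eq_prime_pow (n := 1) (by rwa [pow_one]) (by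
    rw [pow_two, pow_mul]; exact happ)
  have hb2 : Nat.card ↥(D ⊓ Subgroup.centralizer {b}) ≤ p ^ 2 := by
    refine (Subgroup.card_le_of_le inf_le_right).trans ?_
    set K := Subgroup.centralizer ({b} : Set T)
    have h1 : Nat.card ↥(C ⊓ K) ≤ p := by
      refine (Subgroup.card_le_of_le (K := Subgroup.zpowers w) fun d hd => ?_).trans ?_
      · exact H.fixed_mem hb hd.1 (Subgroup.mem_centralizer_singleton_iff.1 hd.2)
      · rw [Nat.card_zpowers, hwo]
    have h2 := Subgroup.relIndex_mul_relIndex ⊥ (C ⊓ K) K bot_le inf_le_right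
    rw [Subgroup.relIndex_bot_left, Subgroup.relIndex_bot_left, Subgroup.inf_relIndex_right] at h2
    have h3 : C.relIndex K ≤ p := by
      haveI := hCn
      exact H.hidx ▸ Nat.le_of_dvd (H.hidx ▸ hp.out.pos) (C.relIndex_dvd_index_of_normal K)
    rw [← h2, pow_two]
    exact Nat.mul_le_mul h1 h3
  refine hb2.trans_lt ?_
  by_contra hle
  push Not at hle
  have haz : Subgroup.zpowers a ≤ D ⊓ Subgroup.centralizer {a} :=
    Subgroup.zpowers_le.2 ⟨haD, Subgroup.mem_centralizer_singleton_iff.2 rfl⟩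
  have heq : Subgroup.zpowers a = D ⊓ Subgroup.centralizer {a} :=
    Subgroup.eq_of_le_of_card_ge haz (hle.trans_eq (by rw [Nat.card_zpowers, hao]))
  set M := D ⊓ C with hM
  -- the only subgroup of order `p` of `M`
  have hME : ∀ e ∈ M, e ^ p = 1 → e ∈ Subgroup.zpowers w := by
    intro e he hep
    have heE := H.base.small e he.2 hep
    have h1 : e ∈ Subgroup.zpowers a := heq ▸ ⟨he.1, Subgroup.mem_centralizer_singleton_iff.2
      (H.base.commute heE ha).eq⟩
    obtain ⟨i, rfl⟩ := Subgroup.mem_zpowers_iff.1 h1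
    have h2 : ((p : ℤ) ^ 2) ∣ i * p := by
      rw [← zpow_natCast, ← zpow_mul, ← orderOf_dvd_iff_zpow_eq_one, hao] at hep
      exact_mod_cast hep
    rw [pow_two] at h2
    obtain ⟨l, rfl⟩ := Int.dvd_of_mul_dvd_mul_right (by exact_mod_cast hp.out.ne_zero) h2
    rw [zpow_mul, zpow_natCast]
    exact zpow_mem hap l
  have hMc : IsCyclic M := by
    refine (TwoGroups.isCyclic_or_quaternion (H.hT.to_subgroup M) (TwoGroups.uniqueOrderP_of_subgroup
      fun H₁ H₂ h₁ h₂ => ?_)).resolve_right (fun h => H.h2 h.1)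
    have key : ∀ K : Subgroup M, Nat.card K = p → K.map M.subtype = Subgroup.zpowers w := by
      intro K hK
      refine Subgroup.eq_of_le_of_card_ge (fun e he => ?_) ?_
      · obtain ⟨u, hu, rfl⟩ := he
        refine hME _ u.2 ?_
        have : (⟨u, hu⟩ : K) ^ p = 1 := hK ▸ pow_card_eq_one'
        exact congrArg (fun v : K => ((v : M) : T)) this
      · rw [Nat.card_zpowers, hwo, Subgroup.card_map_of_injective M.subtype_injective, hK]
    exact Subgroup.map_injective M.subtype_injective ((key H₁ h₁).trans (key H₂ h₂).symm)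
  have hMa : M ≤ Subgroup.zpowers a := by
    intro e he
    rw [heq]
    refine ⟨he.1, Subgroup.mem_centralizer_singleton_iff.2 ?_⟩
    letI : CommGroup M := IsCyclic.commGroup
    exact congrArg Subtype.val (mul_comm (⟨e, he⟩ : M) ⟨a, haD, ha⟩)
  obtain ⟨i, hi⟩ := Subgroup.mem_zpowers_iff.1 (hMa (show b⁻¹ * a * b ∈ M from
    Subgroup.mem_inf.2 ⟨mul_mem (mul_mem (inv_mem hbD) haD) hbD, by simpa using hCn.conj_mem a ha b⁻¹⟩))
  have hip : (p : ℤ) ∣ i - 1 := by
    have h2 : b⁻¹ * a ^ p * b = a ^ p := by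
      rw [mul_assoc, ← Subgroup.mem_center_iff.1 (H.zpowers_le_center hap) b, inv_mul_cancel_left]
    have h3 := map_pow (MulAut.conj b⁻¹) a p
    simp only [MulAut.conj_apply, inv_inv] at h3
    rw [← hi, h2] at h3
    have h1 : (a ^ p) ^ (i - 1) = 1 := by
      rw [zpow_sub, zpow_one, ← zpow_natCast, ← zpow_mul, mul_comm, zpow_mul, zpow_natCast,
        zpow_natCast, ← h3, mul_inv_cancel]
    rw [← orderOf_dvd_iff_zpow_eq_one, orderOf_eq_prime happ hap1] at h1
    exact h1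
  refine hap1 (H.base.exp a (H.mem_of_fixed_mod_outside hb ha ?_))
  obtain ⟨l, hl⟩ := hip
  rw [← hi, show a⁻¹ * a ^ i = a ^ (i - 1) by group, hl, zpow_mul, zpow_natCast]
  exact zpow_mem hap l

end CfsgLib.Replacement.RankTwoMaximal
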