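import Cfsg.Agent.Lib.RankTwoP.Noncentral
import Cfsg.Agent.Lib.PGroups.ClassTwo

/-!
Top power maps on the p-groups of rank two (p odd) with a given central element of order `p`.
-/

set_option autoImplicit false
set_option linter.style.haveILetI false
set_option linter.unusedSectionVars false

namespace CfsgLib.Replacement.RankTwoPower

open CfsgLib RankTwoP

variable {T : Type*} [Group T] [Finite T] {p : ℕ} [hp : Fact p.Prime] {E C : Subgroup T}

theorem mem_zpowers_of_center (h : Base p E C) (hidx : C.index = p) (hT : IsPGroup p T) {w : T}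
    (hw : w ∈ E) (hwc : w ∈ Subgroup.center T) (hw1 : w ≠ 1) {e : T} (he : e ∈ E)
    (hec : e ∈ Subgroup.center T) : e ∈ Subgroup.zpowers w :=
  Subgroup.mem_zpowers_iff.2 (exists_zpow_eq h hidx hT hw hwc hw1 he hec)

theorem center_mem_base (h : Base p E C) {w : T} (hwc : w ∈ Subgroup.center T) (hwp : w ^ p = 1) :
    w ∈ E := by
  refine h.small w ?_ hwp
  rw [h.cent]
  exact Subgroup.mem_centralizer_iff.2 fun e _ => Subgroup.mem_center_iff.1 hwc e

/-- Split case: extraspecial, or a top power map into the centre, or a self-centralizing element. -/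
theorem split_case (h : Base p E C) (hidx : C.index = p) (h2 : p ≠ 2) (hT : IsPGroup p T)
    {w : T} (hwc : w ∈ Subgroup.center T) (hwp : w ^ p = 1) (hw1 : w ≠ 1)
    {x c : T} (hx : x ∉ C) (hxp : x ^ p = 1) (hcC : c ∈ C) (hC : C = E ⊔ Subgroup.zpowers c)
    (hd : c⁻¹ * (x⁻¹ * c * x) ∈ E) :
    (Nat.card T = p ^ 3 ∧ ∀ t : T, t ^ p = 1) ∨
    (p = 3 ∧ C ≠ E ∧ ∀ g ∈ C, g * x = x * g → g ∈ E) ∨
    ∃ m : ℕ, (∀ s t : T, (s * t) ^ p ^ m = s ^ p ^ m * t ^ p ^ m) ∧
      (∀ t : T, t ^ p ^ m ∈ Subgroup.zpowers w) ∧ ∃ t : T, t ^ p ^ m ≠ 1 := by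
  haveI := h.normal
  haveI := h.normalC
  have hodd := PGroups.odd_prime h2
  have hwE := center_mem_base h hwc hwp
  have hCab : ∀ a ∈ C, ∀ b ∈ C, Commute a b := by
    have hcomm : IsMulCommutative C := by
      refine Subgroup.le_centralizer_iff_isMulCommutative.1 ?_
      conv_lhs => rw [hC]
      refine sup_le (fun e he => Subgroup.mem_centralizer_iff.2 fun d hd' =>
        ((h.commute he hd').eq).symm) (Subgroup.zpowers_le.2 ?_)
      have hle : C ≤ Subgroup.centralizer {c} := by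
        rw [hC]
        exact sup_le (fun e he => Subgroup.mem_centralizer_singleton_iff.2 (h.commute he hcC).eq)
          (Subgroup.zpowers_le.2 (Subgroup.mem_centralizer_singleton_iff.2 rfl))
      exact Subgroup.mem_centralizer_iff.2 fun d hd' =>
        Subgroup.mem_centralizer_singleton_iff.1 (hle hd')
    exact fun a ha b hb => congrArg Subtype.val (hcomm.is_comm.comm ⟨a, ha⟩ ⟨b, hb⟩)
  set e := c⁻¹ * (x⁻¹ * c * x) with he
  have hcx : x⁻¹ * c * x = c * e := by rw [he]; group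
  -- every element of `C` moves inside `E`
  have hmoveE : ∀ a ∈ E, a⁻¹ * (x⁻¹ * a * x) ∈ E ∧ a⁻¹ * (x⁻¹ * a * x) ∈ Subgroup.center T :=
    fun a ha => step_mem_center h hT ha x
  have hCdec : ∀ d ∈ C, ∃ a ∈ E, ∃ i : ℤ, d = a * c ^ i := by
    intro d hd'
    obtain ⟨a, ha, b, hb, hab⟩ := Subgroup.mem_sup_of_normal_left.1 (hC ▸ hd')
    obtain ⟨i, rfl⟩ := Subgroup.mem_zpowers_iff.1 hb
    exact ⟨a, ha, i, hab.symm⟩
  have hmoveC : ∀ d ∈ C, d⁻¹ * (x⁻¹ * d * x) ∈ E := by
    intro d hd'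
    obtain ⟨a, ha, i, rfl⟩ := hCdec d hd'
    have h1 : x⁻¹ * (a * c ^ i) * x = (x⁻¹ * a * x) * (c ^ i * e ^ i) := by
      rw [← (hCab c hcC e (h.le hd)).mul_zpow, ← hcx]
      have := map_zpow (MulAut.conj x⁻¹) c i
      simp only [MulAut.conj_apply, inv_inv] at this
      rw [← this]; group
    rw [h1, show (a * c ^ i)⁻¹ * ((x⁻¹ * a * x) * (c ^ i * e ^ i))
      = (c ^ i)⁻¹ * (a⁻¹ * (x⁻¹ * a * x)) * c ^ i * e ^ i by group]
    refine mul_mem ?_ (zpow_mem hd i)
    simpa using h.normal.conj_mem _ (hmoveE a ha).1 (c ^ i)⁻¹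
  by_cases hk : c ^ p = 1
  · -- `C = E`
    left
    have hCE : C = E := le_antisymm (hC.le.trans (sup_le le_rfl
      (Subgroup.zpowers_le.2 (h.small c hcC hk)))) h.le
    refine ⟨?_, fun t => ?_⟩
    · rw [← C.card_mul_index, hidx, hCE, h.card]; ring
    · by_cases htC : t ∈ C
      · exact h.exp t (hCE ▸ htC)
      have hgen : ∀ i : ℕ, ∀ d ∈ C, (x ^ i * d) ^ p = 1 := by
        intro i d hd'
        have hdE : d ∈ E := hCE ▸ hd'
        obtain ⟨hfE, hfZ⟩ := step_mem_center h hT hdE (x ^ i)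
        have := mul_pow_chain (x := x ^ i) (v := d) (f := d⁻¹ * ((x ^ i)⁻¹ * d * x ^ i)) (g := 1)
          (by group) (by rw [mul_one, mul_assoc _ _ (x ^ i), ← Subgroup.mem_center_iff.1 hfZ (x ^ i),
            inv_mul_cancel_left]) (by group) (hCab d hd' _ (h.le hfE))
          (Commute.one_right _) (Commute.one_right _) p
        rw [this, ← pow_mul, mul_comm i, pow_mul, hxp, one_pow, one_mul, h.exp d hdE, one_mul,
          pow_choose_two_eq_one hodd (h.exp _ hfE), one_mul, one_pow]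
      obtain ⟨i, d, hd', rfl⟩ : ∃ (i : ℕ) (d : T), d ∈ C ∧ t = x ^ i * d := by
        have htop : Subgroup.zpowers x ⊔ C = ⊤ := (isCoatom_C hidx).2 _ (lt_of_le_of_ne le_sup_right
          fun e' => hx (e' ▸ Subgroup.mem_sup_left (Subgroup.mem_zpowers x)))
        obtain ⟨b, hb, d, hd', rfl⟩ := Subgroup.mem_sup_of_normal_right.1 (htop ▸ Subgroup.mem_top t)
        rw [← mem_powers_iff_mem_zpowers] at hb
        obtain ⟨i, rfl⟩ := hb
        exact ⟨i, d, hd', rfl⟩
      exact hgen i d hd'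
  right
  -- the order of `c` is `p ^ (m + 2)`
  obtain ⟨k, hkc⟩ := IsPGroup.iff_orderOf.1 hT c
  obtain ⟨m, rfl⟩ : ∃ m, k = m + 2 := ⟨k - 2, (Nat.sub_add_cancel (by
    by_contra hk2
    refine hk (orderOf_dvd_iff_pow_eq_one.1 (hkc.dvd.trans ((pow_dvd_pow p (?_ : k ≤ 1)).trans (by rw [pow_one]))))
    omega)).symm⟩
  have htopord : (c ^ p ^ (m + 1)) ^ p = 1 := by
    rw [← pow_mul, ← pow_succ, ← hkc, pow_orderOf_eq_one]
  have hztE : c ^ p ^ (m + 1) ∈ E := h.small _ (pow_mem hcC _) htopord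
  have hzt1 : c ^ p ^ (m + 1) ≠ 1 := by
    intro h1
    have := orderOf_dvd_of_pow_eq_one h1
    rw [hkc, Nat.pow_dvd_pow_iff_le_right hp.out.one_lt] at this
    omega
  have hkillE : ∀ a ∈ E, ∀ j : ℕ, a ^ p ^ (j + 1) = 1 := fun a ha j => by
    rw [pow_succ', pow_mul, h.exp a ha, one_pow]
  have hztZ : c ^ p ^ (m + 1) ∈ Subgroup.center T := by
    refine mem_center_of_commute h hidx hztE hx ?_
    have h1 : x⁻¹ * c ^ p ^ (m + 1) * x = c ^ p ^ (m + 1) := by
      have := map_pow (MulAut.conj x⁻¹) c (p ^ (m + 1))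
      simp only [MulAut.conj_apply, inv_inv] at this
      rw [this, hcx, (hCab c hcC e (h.le hd)).mul_pow, hkillE e hd, mul_one]
    calc c ^ p ^ (m + 1) * x = x * (x⁻¹ * c ^ p ^ (m + 1) * x) := by group
      _ = _ := by rw [h1]
  by_cases hspecial : p = 3 ∧ m = 0 ∧ e ∉ Subgroup.center T
  · obtain ⟨h3, hm0, hec⟩ := hspecial
    refine Or.inl ⟨h3, fun hCE => hk (h.exp c (hCE ▸ hcC)), fun g hg hgx => ?_⟩
    obtain ⟨a, ha, i, rfl⟩ := hCdec g hg
    have hcp : c ^ p ∈ E := by
      have := hztE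
      rwa [hm0, zero_add, pow_one] at this
    by_cases hi : (p : ℤ) ∣ i
    · obtain ⟨j, rfl⟩ := hi
      rw [zpow_mul, zpow_natCast]
      exact mul_mem ha (zpow_mem hcp j)
    exfalso
    apply hec
    have h1 : x⁻¹ * (a * c ^ i) * x = a * c ^ i := by rw [mul_assoc, hgx, inv_mul_cancel_left]
    have h2' : x⁻¹ * c ^ i * x = c ^ i * e ^ i := by
      rw [← (hCab c hcC e (h.le hd)).mul_zpow, ← hcx]
      have := map_zpow (MulAut.conj x⁻¹) c i
      simp only [MulAut.conj_apply, inv_inv] at this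
      exact this
    have h3' : e ^ i = (a⁻¹ * (x⁻¹ * a * x))⁻¹ := by
      have hm1 : x⁻¹ * a * x ∈ C := h.le (by simpa using h.normal.conj_mem a ha x⁻¹)
      have h4 : (x⁻¹ * a * x) * (c ^ i * e ^ i) = a * c ^ i := by
        rw [← h2', ← h1]; group
      rw [← mul_assoc, (hCab _ hm1 _ (zpow_mem hcC i)).eq, (hCab _ (h.le ha) _ (zpow_mem hcC i)).eq,
        mul_assoc] at h4
      have h5 := mul_left_cancel h4
      calc e ^ i = (x⁻¹ * a * x)⁻¹ * ((x⁻¹ * a * x) * e ^ i) := by group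
        _ = (x⁻¹ * a * x)⁻¹ * a := by rw [h5]
        _ = _ := by group
    obtain ⟨s, s', hs⟩ :=
      ((Nat.prime_iff_prime_int.1 hp.out).irreducible.coprime_iff_not_dvd).2 hi
    rw [show e = (e ^ i) ^ s' by
      rw [← zpow_mul, mul_comm i, ← one_mul (e ^ (s' * i)), ← one_zpow s, ← h.exp _ hd,
        ← zpow_natCast, ← zpow_mul, ← zpow_add, mul_comm (p : ℤ), hs, zpow_one], h3']
    exact zpow_mem (inv_mem (hmoveE a ha).2) _
  right
  -- the top power is a homomorphism
  have hmain : ∀ (i : ℕ) (d : T), d ∈ C → (x ^ i * d) ^ p ^ (m + 1) = d ^ p ^ (m + 1) := by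
    intro i d hd'
    set f := d⁻¹ * ((x ^ i)⁻¹ * d * x ^ i) with hf
    have hfE : f ∈ E := by
      have : ∀ i : ℕ, d⁻¹ * ((x ^ i)⁻¹ * d * x ^ i) ∈ E := by
        intro i
        induction i with
        | zero => simp
        | succ i ih =>
          set d₁ := (x ^ i)⁻¹ * d * x ^ i with hd₁
          have hd₁C : d₁ ∈ C := by simpa [hd₁] using h.normalC.conj_mem d hd' (x ^ i)⁻¹
          have := mul_mem ih (hmoveC d₁ hd₁C)
          rw [pow_succ]
          convert this using 1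
          rw [hd₁]; group
      exact this i
    obtain ⟨hgE, hgZ⟩ := step_mem_center h hT hfE (x ^ i)
    set g := f⁻¹ * ((x ^ i)⁻¹ * f * x ^ i) with hg
    have := mul_pow_chain (x := x ^ i) (v := d) (f := f) (g := g) (by rw [hf]; group)
      (by rw [hg]; group) (by rw [mul_assoc, ← Subgroup.mem_center_iff.1 hgZ (x ^ i), inv_mul_cancel_left])
      (hCab d hd' f (h.le hfE)) (hCab d hd' g (h.le hgE)) (hCab f (h.le hfE) g (h.le hgE)) p
    rw [← pow_mul, mul_comm i, pow_mul, hxp, one_pow, one_mul, pow_choose_two_eq_one hodd (h.exp _ hfE),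
      mul_one] at this
    rw [pow_succ', pow_mul, this, pow_mul,
      ((hCab d hd' g (h.le hgE)).pow_pow p (p.choose 3)).mul_pow]
    rcases Nat.eq_zero_or_pos m with hm | hm
    swap
    · obtain ⟨j, rfl⟩ : ∃ j, m = j + 1 := ⟨m - 1, by omega⟩
      rw [← pow_mul g, mul_comm, pow_mul g, hkillE g hgE j, one_pow, mul_one]
    · subst hm
      rw [pow_zero, pow_one, pow_one]
      by_cases h3 : p = 3
      · have hec : e ∈ Subgroup.center T := by
          by_contra hec; exact hspecial ⟨h3, rfl, hec⟩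
        have hfZ : f ∈ Subgroup.center T := by
          have hall : ∀ d' ∈ C, d'⁻¹ * (x⁻¹ * d' * x) ∈ Subgroup.center T := by
            intro d' hd''
            obtain ⟨a, ha, l, rfl⟩ := hCdec d' hd''
            have h1 : x⁻¹ * (a * c ^ l) * x = (x⁻¹ * a * x) * (c ^ l * e ^ l) := by
              rw [← (hCab c hcC e (h.le hd)).mul_zpow, ← hcx]
              have := map_zpow (MulAut.conj x⁻¹) c l
              simp only [MulAut.conj_apply, inv_inv] at this
              rw [← this]; group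
            rw [h1, show (a * c ^ l)⁻¹ * ((x⁻¹ * a * x) * (c ^ l * e ^ l))
              = (c ^ l)⁻¹ * (a⁻¹ * (x⁻¹ * a * x)) * c ^ l * e ^ l by group]
            refine mul_mem ?_ (zpow_mem hec l)
            rw [mul_assoc, ← Subgroup.mem_center_iff.1 (hmoveE a ha).2, inv_mul_cancel_left]
            exact (hmoveE a ha).2
          have : ∀ i : ℕ, d⁻¹ * ((x ^ i)⁻¹ * d * x ^ i) ∈ Subgroup.center T := by
            intro i
            induction i with
            | zero => simp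
            | succ i ih =>
              set d₁ := (x ^ i)⁻¹ * d * x ^ i with hd₁
              have hd₁C : d₁ ∈ C := by simpa [hd₁] using h.normalC.conj_mem d hd' (x ^ i)⁻¹
              have := mul_mem ih (hall d₁ hd₁C)
              rw [pow_succ]
              convert this using 1
              rw [hd₁]; group
          exact this i
        have hg1 : g = 1 := by
          rw [hg, mul_assoc _ f, ← Subgroup.mem_center_iff.1 hfZ (x ^ i), inv_mul_cancel_left,
            inv_mul_cancel]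
        rw [hg1, one_pow, mul_one]
      · rw [pow_choose_three_eq_one (by have := hp.out.two_le; omega) (h.exp _ hgE), mul_one]
  have hdecT : ∀ t : T, ∃ (i : ℕ) (d : T), d ∈ C ∧ t = x ^ i * d := by
    intro t
    have htop : Subgroup.zpowers x ⊔ C = ⊤ := (isCoatom_C hidx).2 _ (lt_of_le_of_ne le_sup_right
      fun e' => hx (e' ▸ Subgroup.mem_sup_left (Subgroup.mem_zpowers x)))
    obtain ⟨b, hb, d, hd', rfl⟩ := Subgroup.mem_sup_of_normal_right.1 (htop ▸ Subgroup.mem_top t)
    rw [← mem_powers_iff_mem_zpowers] at hb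
    obtain ⟨i, rfl⟩ := hb
    exact ⟨i, d, hd', rfl⟩
  have hcentral : ∀ d ∈ C, d ^ p ^ (m + 1) ∈ Subgroup.zpowers w := by
    intro d hd'
    obtain ⟨a, ha, i, rfl⟩ := hCdec d hd'
    rw [(hCab a (h.le ha) _ (zpow_mem hcC i)).mul_pow, hkillE a ha, one_mul,
      show (c ^ i) ^ p ^ (m + 1) = (c ^ p ^ (m + 1)) ^ i by
        rw [← zpow_natCast, ← zpow_mul, mul_comm, zpow_mul, zpow_natCast]]
    exact zpow_mem (mem_zpowers_of_center h hidx hT hwE hwc hw1 hztE hztZ) i
  refine ⟨m + 1, fun s t => ?_, fun t => ?_, c, hzt1⟩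
  · obtain ⟨i, a, ha, rfl⟩ := hdecT s
    obtain ⟨j, b, hb, rfl⟩ := hdecT t
    have ha' : (x ^ j)⁻¹ * a * x ^ j ∈ C := by simpa using h.normalC.conj_mem a ha (x ^ j)⁻¹
    rw [show x ^ i * a * (x ^ j * b) = x ^ (i + j) * ((x ^ j)⁻¹ * a * x ^ j * b) by
      rw [pow_add]; group, hmain _ _ (mul_mem ha' hb), hmain _ _ ha, hmain _ _ hb,
      (hCab _ ha' b hb).mul_pow]
    congr 1
    have := map_pow (MulAut.conj (x ^ j)⁻¹) a (p ^ (m + 1))
    simp only [MulAut.conj_apply, inv_inv] at this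
    rw [← this]
    have hz : a ^ p ^ (m + 1) ∈ Subgroup.center T :=
      (Subgroup.zpowers_le.2 hwc) (hcentral a ha)
    rw [mul_assoc, ← Subgroup.mem_center_iff.1 hz, inv_mul_cancel_left]
  · obtain ⟨i, d, hd', rfl⟩ := hdecT t
    rw [hmain _ _ hd']
    exact hcentral d hd'

end CfsgLib.Replacement.RankTwoPower
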