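import Cfsg.Agent.Lib.Goldschmidt.Conjugation
import Cfsg.Agent.Lib.PSolvable.HallHigman
import Cfsg.Agent.Lib.FusionBasics.Focal
import Cfsg.Agent.Lib.Transfer.Residual
import Cfsg.Agent.S3056
import Cfsg.Agent.S3057

/-!
The strong form of the conjugation theorem of Alperin and Goldschmidt: only normalizers with a
strongly `p`-embedded quotient are needed, and in them only `O^p` of the least relevant normal
subgroup.
-/

set_option autoImplicit false
set_option linter.style.haveILetI false

namespace CfsgLib.Replacement.StrongFusion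

open Cfsg
open Cfsg.Agent.S3056 (Linked chainConnected_iff)

variable {G : Type*} [Group G] {p : ℕ}

/-- The conditions on one link of a strong conjugation chain. -/
def Spec (P : Sylow p G) (H X : Subgroup G) (x : G) : Prop :=
  H ≤ (P : Subgroup G) ∧
    ¬ p ∣ ((P : Subgroup G) ⊓ Subgroup.normalizer (H : Set G)).relIndex (Subgroup.normalizer (H : Set G)) ∧
    (P : Subgroup G) ⊓ Subgroup.centralizer (H : Set G) ≤ H ∧
    (pPrimePCore p ↥(Subgroup.normalizer (H : Set G))).map (Subgroup.normalizer (H : Set G)).subtype =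
      H ⊔ Subgroup.centralizer (H : Set G) ∧
    ¬ IsSylowChainConnected p
        (↥(Subgroup.normalizer (H : Set G)) ⧸ H.subgroupOf (Subgroup.normalizer (H : Set G))) ∧
    (H ≤ X ∧ X ≤ Subgroup.normalizer (H : Set G) ∧
      (X.subgroupOf (Subgroup.normalizer (H : Set G))).Normal ∧ p ∣ H.relIndex X ∧
      ∀ Y : Subgroup G, H ≤ Y → Y ≤ Subgroup.normalizer (H : Set G) →
        (Y.subgroupOf (Subgroup.normalizer (H : Set G))).Normal → p ∣ H.relIndex Y → X ≤ Y) ∧
    x ∈ (pResidual p ↥X).map X.subtype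

/-- `g` moves `A` by a strong conjugation chain followed by an element of `N(P)`. -/
inductive Dec (P : Sylow p G) : Set G → G → Prop
  | base (A : Set G) (c y : G) (hc : c ∈ Subgroup.centralizer A)
      (hy : y ∈ Subgroup.normalizer ((P : Subgroup G) : Set G)) : Dec P A (c * y)
  | step (A : Set G) (H X : Subgroup G) (x g : G) (hA : A ⊆ (H : Set G)) (hs : Spec P H X x)
      (h : Dec P ((fun a => x⁻¹ * a * x) '' A) g) : Dec P A (x * g)

theorem Dec.mul_left {P : Sylow p G} {A : Set G} {g : G} (h : Dec P A g) :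
    ∀ c ∈ Subgroup.centralizer A, Dec P A (c * g) := by
  induction h with
  | base A d y hd hy =>
    intro c hc
    rw [← mul_assoc]
    exact .base A _ y (mul_mem hc hd) hy
  | step A H X x g hA hs _ ih =>
    intro c hc
    rw [show c * (x * g) = x * ((x⁻¹ * c * x) * g) by group]
    exact .step A H X x _ hA hs (ih _ (CfsgLib.Goldschmidt.conj_mem_centralizer hc))

theorem Dec.mono {P : Sylow p G} {A : Set G} {g : G} (h : Dec P A g) :
    ∀ B : Set G, B ⊆ A → Dec P B g := by
  induction h with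
  | base A c y hc hy => exact fun B hB => .base B c y (fun b hb => hc b (hB hb)) hy
  | step A H X x g hA hs _ ih =>
    exact fun B hB => .step B H X x g (hB.trans hA) hs (ih _ (Set.image_mono hB))

section Linked

variable {A B : Type*} [Group A] [Group B] [Finite A]

theorem chainConnected_of_equiv [Fact p.Prime] [Finite B] (e : A ≃* B)
    (h : IsSylowChainConnected p A) : IsSylowChainConnected p B := by
  rw [chainConnected_iff] at h ⊢
  have hmap : ∀ T : Sylow p B, (T.mapSurjective e.symm.surjective (f := e.symm.toMonoidHom)).mapSurjective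
      (f := e.toMonoidHom) e.surjective = T := by
    intro T
    refine Sylow.ext ?_
    show ((T : Subgroup B).map e.symm.toMonoidHom).map e.toMonoidHom = _
    rw [Subgroup.map_map]
    convert Subgroup.map_id (T : Subgroup B)
    ext x
    simp
  intro S T
  rw [← hmap S, ← hmap T]
  refine Relation.ReflTransGen.lift (fun U : Sylow p A => U.mapSurjective (f := e.toMonoidHom) e.surjective) ?_
    _ _ (h _ _)
  intro U V hUV
  show (U : Subgroup A).map e.toMonoidHom ⊓ (V : Subgroup A).map e.toMonoidHom ≠ ⊥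
  rw [← Subgroup.map_inf _ _ _ e.injective]
  exact fun h0 => hUV ((Subgroup.map_eq_bot_iff_of_injective _ e.injective).1 h0)

end Linked

theorem map_centralizer_equiv (e : G ≃* G) (H : Subgroup G) :
    (Subgroup.centralizer (H : Set G)).map e.toMonoidHom =
      Subgroup.centralizer ((H.map e.toMonoidHom : Subgroup G) : Set G) := by
  ext x
  rw [Subgroup.mem_map_equiv, Subgroup.mem_centralizer_iff, Subgroup.mem_centralizer_iff]
  constructor
  · rintro h _ ⟨k, hk, rfl⟩
    simpa using congrArg e (h k hk)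
  · intro h k hk
    simpa using congrArg e.symm (h (e k) ⟨k, hk, rfl⟩)

theorem map_normalizer_equiv (e : G ≃* G) (H : Subgroup G) :
    (Subgroup.normalizer (H : Set G)).map e.toMonoidHom =
      Subgroup.normalizer ((H.map e.toMonoidHom : Subgroup G) : Set G) :=
  Subgroup.map_equiv_normalizer_eq H e

variable [Finite G] [hp : Fact p.Prime]

/-- The link conditions are invariant under automorphisms fixing `P`. -/
theorem Spec.map {P : Sylow p G} {H X : Subgroup G} {x : G} (e : G ≃* G)
    (heP : (P : Subgroup G).map e.toMonoidHom = P) (h : Spec P H X x) :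
    Spec P (H.map e.toMonoidHom) (X.map e.toMonoidHom) (e x) := by
  obtain ⟨hHP, htame, hcen, hcore, hchain, ⟨hHX, hXN, hXn, hXp, hXmin⟩, hx⟩ := h
  set N := Subgroup.normalizer (H : Set G) with hN
  have hN' : N.map e.toMonoidHom = Subgroup.normalizer ((H.map e.toMonoidHom : Subgroup G) : Set G) :=
    map_normalizer_equiv e H
  let eN : N ≃* ↥(Subgroup.normalizer ((H.map e.toMonoidHom : Subgroup G) : Set G)) :=
    (e.subgroupMap N).trans (MulEquiv.subgroupCongr hN')
  have heN : ∀ n : N, (eN n : G) = e (n : G) := fun n => rfl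
  have hsubN : ∀ L : Subgroup G, L ≤ N → (L.subgroupOf N).map eN.toMonoidHom =
      (L.map e.toMonoidHom).subgroupOf _ := by
    intro L hL
    ext z
    simp only [Subgroup.mem_map, Subgroup.mem_subgroupOf]
    constructor
    · rintro ⟨w, hw, rfl⟩
      exact ⟨w, hw, rfl⟩
    · rintro ⟨g, hg, hgz⟩
      exact ⟨⟨g, hL hg⟩, hg, Subtype.ext hgz⟩
  refine ⟨heP ▸ Subgroup.map_mono hHP, ?_, ?_, ?_, ?_, ⟨Subgroup.map_mono hHX, ?_, ?_, ?_, ?_⟩, ?_⟩
  · rw [← hN', ← heP, ← Subgroup.map_inf _ _ _ e.injective,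
      Subgroup.relIndex_map_map_of_injective _ _ e.injective]
    exact htame
  · rw [← map_centralizer_equiv, ← heP, ← Subgroup.map_inf _ _ _ e.injective]
    exact Subgroup.map_mono hcen
  · rw [← map_centralizer_equiv, ← Subgroup.map_sup, ← hcore,
      ← CfsgLib.PSolvable.map_pPrimePCore_equiv eN, Subgroup.map_map, Subgroup.map_map]
    rfl
  · intro hc
    refine hchain (chainConnected_of_equiv ?_ hc)
    exact (QuotientGroup.congr _ _ eN (hsubN H Subgroup.le_normalizer)).symm
  · exact hN' ▸ Subgroup.map_mono hXN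
  · rw [← hsubN X hXN]
    exact hXn.map _ eN.surjective
  · rw [Subgroup.relIndex_map_map_of_injective _ _ e.injective]
    exact hXp
  · intro Y hHY hYN hYn hYp
    have key := hXmin (Y.map e.symm.toMonoidHom) ?_ ?_ ?_ ?_
    · intro z hz
      obtain ⟨w, hw, rfl⟩ := hz
      obtain ⟨v, hv, hvw⟩ := key hw
      rw [← hvw]
      simpa using hv
    · intro z hz
      exact ⟨e z, hHY ⟨z, hz, rfl⟩, by simp⟩
    · rintro _ ⟨z, hz, rfl⟩
      obtain ⟨w, hw, hwz⟩ := (hN'.symm ▸ hYN hz : z ∈ N.map e.toMonoidHom)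
      rw [← hwz]
      simpa using hw
    · have h1 : (Y.map e.symm.toMonoidHom).subgroupOf N =
          (Y.subgroupOf _).comap eN.toMonoidHom := by
        ext z
        simp only [Subgroup.mem_subgroupOf, Subgroup.mem_comap, Subgroup.mem_map_equiv]
        rfl
      rw [h1]
      exact hYn.comap _
    · rw [← Subgroup.relIndex_map_map_of_injective H (Y.map e.symm.toMonoidHom) (f := e.toMonoidHom)
        e.injective, Subgroup.map_map]
      convert hYp
      convert Subgroup.map_id Y
      ext z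
      simp
  · obtain ⟨z, hz, rfl⟩ := hx
    refine ⟨e.subgroupMap X z, ?_, rfl⟩
    exact CfsgLib.Transfer.map_pResidual_le (e.subgroupMap X).toMonoidHom ⟨z, hz, rfl⟩

theorem Dec.conj_normalizer {P : Sylow p G} {A : Set G} {g : G} (h : Dec P A g) :
    ∀ y ∈ Subgroup.normalizer ((P : Subgroup G) : Set G),
      Dec P ((fun a => y * a * y⁻¹) '' A) (y * g) := by
  induction h with
  | base A c y' hc hy' =>
    intro y hy
    rw [show y * (c * y') = (y * c * y⁻¹) * (y * y') by group]
    refine .base _ _ _ ?_ (mul_mem hy hy')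
    rintro _ ⟨a, ha, rfl⟩
    calc y * a * y⁻¹ * (y * c * y⁻¹) = y * (a * c) * y⁻¹ := by group
      _ = y * (c * a) * y⁻¹ := by rw [hc a ha]
      _ = y * c * y⁻¹ * (y * a * y⁻¹) := by group
  | step A H X x g hA hs _ ih =>
    intro y hy
    rw [show y * (x * g) = (y * x * y⁻¹) * (y * g) by group]
    refine .step _ (H.map (MulAut.conj y).toMonoidHom) (X.map (MulAut.conj y).toMonoidHom) _ _ ?_ ?_ ?_
    · rintro _ ⟨a, ha, rfl⟩
      exact ⟨a, hA ha, rfl⟩
    · refine hs.map (MulAut.conj y) ?_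
      exact Subgroup.mem_normalizer_iff_map_conj_eq.mp hy
    · convert ih y hy using 1
      rw [Set.image_image, Set.image_image]
      exact Set.image_congr fun a _ => by group

theorem Dec.trans {P : Sylow p G} {A : Set G} {g : G} (h : Dec P A g) :
    ∀ k : G, Dec P ((fun a => g⁻¹ * a * g) '' A) k → Dec P A (g * k) := by
  induction h with
  | base A c y hc hy =>
    intro k hk
    rw [mul_assoc]
    refine Dec.mul_left ?_ c hc
    convert hk.conj_normalizer y hy using 1
    rw [Set.image_image]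
    conv_lhs => rw [← Set.image_id A]
    refine Set.image_congr fun a ha => ?_
    have hac : c⁻¹ * a * c = a := by rw [mul_assoc, hc a ha, inv_mul_cancel_left]
    calc id a = c⁻¹ * a * c := hac.symm
      _ = y * ((c * y)⁻¹ * a * (c * y)) * y⁻¹ := by group
  | step A H X x g hA hs _ ih =>
    intro k hk
    rw [mul_assoc]
    refine .step A H X x _ hA hs (ih k ?_)
    rwa [CfsgLib.PGroups.image_conj_image]

/-- In a group with a strongly `p`-embedded subgroup two normal subgroups of order divisible by `p`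
meet in such a subgroup. -/
theorem dvd_card_inf_normal {Q : Type*} [Group Q] [Finite Q] (h : ¬ IsSylowChainConnected p Q)
    (Y₁ Y₂ : Subgroup Q) [Y₁.Normal] [Y₂.Normal] (h₁ : p ∣ Nat.card Y₁) (h₂ : p ∣ Nat.card Y₂) :
    p ∣ Nat.card ↥(Y₁ ⊓ Y₂) := by
  by_contra hM
  obtain ⟨H, hH, hpH, hse⟩ := (Cfsg.Agent.S3056.result p).1 h
  have hspe := CfsgLib.StronglyPEmbedded.spe_of_forall_not_dvd hH hpH hse
  obtain ⟨S, hSH, -⟩ := CfsgLib.StronglyPEmbedded.exists_sylow_le hspe
  have hfind : ∀ Y : Subgroup Q, Y.Normal → p ∣ Nat.card Y →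
      ∃ x ∈ (S : Subgroup Q), x ∈ Y ∧ orderOf x = p := by
    intro Y hY hpY
    haveI := hY
    obtain ⟨R, hR⟩ := CfsgLib.Alperin.exists_sylow_inf_normal S Y
    have hpR : p ∣ Nat.card (R : Subgroup Y) := R.dvd_card_of_dvd_card hpY
    obtain ⟨z, hz⟩ := exists_prime_orderOf_dvd_card' p hpR
    refine ⟨((z : Y) : Q), ?_, (z : Y).2, ?_⟩
    · have hz' : (z : Y) ∈ ((S : Subgroup Q) ⊓ Y).subgroupOf Y := hR ▸ z.2
      exact (Subgroup.mem_subgroupOf.1 hz').1
    · rw [Subgroup.orderOf_coe, Subgroup.orderOf_coe, hz]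
  obtain ⟨x, hxS, hx1, hxo⟩ := hfind Y₁ inferInstance h₁
  obtain ⟨y, hyS, hy2, hyo⟩ := hfind Y₂ inferInstance h₂
  set M := Y₁ ⊓ Y₂ with hMdef
  have hMc : (Nat.card M).Coprime p := (hp.out.coprime_iff_not_dvd.2 hM).symm
  have hcomm : ∀ a ∈ Y₁, a * y * a⁻¹ * y⁻¹ ∈ M := fun a ha => by
    refine Subgroup.mem_inf.2 ⟨?_, ?_⟩
    · rw [show a * y * a⁻¹ * y⁻¹ = a * (y * a⁻¹ * y⁻¹) by group]
      exact mul_mem ha ((inferInstance : Y₁.Normal).conj_mem _ (inv_mem ha) y)
    · exact mul_mem ((inferInstance : Y₂.Normal).conj_mem _ hy2 a) (inv_mem hy2)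
  have hSM : ∀ z ∈ (S : Subgroup Q), z ∈ M → z = 1 := fun z hzS hzM => by
    obtain ⟨k, hk⟩ := IsPGroup.iff_orderOf.1 S.2 ⟨z, hzS⟩
    have h1 : orderOf z ∣ Nat.card M := Subgroup.orderOf_dvd_natCard M hzM
    rw [Subgroup.orderOf_mk] at hk
    have h3 := Nat.eq_one_of_dvd_coprimes (hMc.pow_right k) h1 hk.dvd
    exact orderOf_eq_one_iff.1 h3
  have hxy : x * y = y * x := by
    have h3 := hSM _ (mul_mem (mul_mem (mul_mem hxS hyS) (inv_mem hxS)) (inv_mem hyS)) (hcomm x hx1)
    calc x * y = (x * y * x⁻¹ * y⁻¹) * (y * x) := by group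
      _ = y * x := by rw [h3, one_mul]
  have hne : y ∉ Subgroup.zpowers x := fun hy => by
    have := hSM y hyS ⟨Subgroup.zpowers_le.2 hx1 hy, hy2⟩
    rw [this, orderOf_one] at hyo
    exact hp.out.ne_one hyo.symm
  have hMH : M ≤ H := Cfsg.Agent.S3057.pPrime_normal_le hspe hSH hMc hxS hyS hxo hyo hxy hne
  have hY1H : Y₁ ≤ H := by
    intro a ha
    by_contra haH
    refine hse a haH ?_
    have hay : a * y * a⁻¹ ∈ H := by
      have := mul_mem (hMH (hcomm a ha)) (hSH hyS)
      rwa [inv_mul_cancel_right] at this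
    have hmem : a * y * a⁻¹ ∈ H ⊓ H.map (MulAut.conj a).toMonoidHom :=
      ⟨hay, ⟨y, hSH hyS, rfl⟩⟩
    have := Subgroup.orderOf_dvd_natCard _ hmem
    rwa [← MulAut.conj_apply, MulEquiv.orderOf_eq, hyo] at this
  refine hH (eq_top_iff.2 fun g _ => ?_)
  by_contra hg
  refine hse g hg (h₁.trans (Subgroup.card_dvd_of_le (le_inf hY1H fun z hz => ?_)))
  exact ⟨g⁻¹ * z * g, hY1H (by simpa using Subgroup.Normal.conj_mem (H := Y₁) inferInstance z hz g⁻¹),
    by simp [mul_assoc]⟩

/-- One link: normalizers of good subgroups are covered. -/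
theorem dec_good (P : Sylow p G) {E : Subgroup G} (hE : CfsgLib.Goldschmidt.IsGood P E)
    (ih : ∀ T : Subgroup G, T ≤ (P : Subgroup G) → Nat.card E < Nat.card T → ∀ g : G,
      (fun a => g⁻¹ * a * g) '' (T : Set G) ⊆ (P : Set G) → Dec P (T : Set G) g)
    {x : G} (hx : x ∈ Subgroup.normalizer (E : Set G)) : Dec P (E : Set G) x := by
  obtain ⟨hEP, hcenle, hprod, htame⟩ := hE
  set N := Subgroup.normalizer (E : Set G) with hN
  have hEN : E ≤ N := Subgroup.le_normalizer
  have himg : ∀ n ∈ N, (fun a => n⁻¹ * a * n) '' (E : Set G) = (E : Set G) := by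
    intro n hn
    ext z
    constructor
    · rintro ⟨a, ha, rfl⟩
      have := (Subgroup.mem_normalizer_iff.1 (inv_mem hn) a).1 ha
      rwa [inv_inv] at this
    · intro hz
      exact ⟨n * z * n⁻¹, (Subgroup.mem_normalizer_iff.1 hn z).1 hz, by group⟩
  have hone : ∀ A : Set G, Dec P A 1 := fun A => by
    simpa using Dec.base (P := P) A 1 1 (one_mem _) (one_mem _)
  let W : Subgroup N :=
    { carrier := {n | Dec P (E : Set G) (n : G)}
      one_mem' := hone _
      mul_mem' := fun {a b} ha hb => ha.trans _ (by rw [himg _ a.2]; exact hb)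
      inv_mem' := fun {a} ha => by
        have hpow : ∀ k : ℕ, Dec P (E : Set G) ((a ^ k : N) : G) := fun k => by
          induction k with
          | zero => simpa using hone (E : Set G)
          | succ k hk =>
            rw [pow_succ, Subgroup.coe_mul]
            exact hk.trans _ (by rw [himg _ (a ^ k).2]; exact ha)
        have hinv : a⁻¹ = a ^ (orderOf a - 1) := by
          rw [inv_eq_iff_mul_eq_one, ← pow_succ', Nat.sub_add_cancel (orderOf_pos a),
            pow_orderOf_eq_one]
        show Dec P (E : Set G) ((a⁻¹ : N) : G)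
        rw [hinv]
        exact hpow _ }
  suffices hW : (⟨x, hx⟩ : N) ∈ W from hW
  set S : Sylow p N := (P.2.to_inf_left (K := N)).comap_subtype.toSylow htame with hS
  have hSc : (S : Subgroup N) = ((P : Subgroup G) ⊓ N).subgroupOf N := rfl
  have hbig : ∀ n : N, ∀ T : Subgroup G, T ≤ (P : Subgroup G) → E ≤ T → Nat.card E < Nat.card T →
      (fun a => (n : G)⁻¹ * a * n) '' (T : Set G) ⊆ (P : Set G) → n ∈ W :=
    fun n T hT hET hlt hconj => (ih T hT hlt n hconj).mono _ hET
  by_cases hdvd : p ∣ E.relIndex N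
  swap
  · -- `E` is all of `P`
    have hPE : (P : Subgroup G) ⊓ N ≤ E := by
      rw [← Subgroup.relIndex_eq_one]
      obtain ⟨e, he⟩ := IsPGroup.iff_card.1 (P.2.to_inf_left (K := N))
      have h1 : E.relIndex ((P : Subgroup G) ⊓ N) ∣ p ^ e := he ▸ Subgroup.relIndex_dvd_card _ _
      have h2 : E.relIndex ((P : Subgroup G) ⊓ N) ∣ E.relIndex N :=
        Dvd.intro _ (Subgroup.relIndex_mul_relIndex _ _ _ (le_inf hEP hEN) inf_le_right)
      exact Nat.eq_one_of_dvd_coprimes ((hp.out.coprime_iff_not_dvd.2 hdvd).pow_left e) h1 h2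
    have hEeq : E = (P : Subgroup G) := by
      refine le_antisymm hEP ?_
      by_contra hne
      have hnc : E.subgroupOf (P : Subgroup G) ≠ ⊤ := fun h =>
        hne (Subgroup.subgroupOf_eq_top.1 h)
      haveI : Group.IsNilpotent ↥(P : Subgroup G) := P.2.isNilpotent
      have hlt := normalizerCondition_of_isNilpotent (E.subgroupOf (P : Subgroup G)) (lt_top_iff_ne_top.2 hnc)
      obtain ⟨z, hz, hzE⟩ := SetLike.exists_of_lt hlt
      refine hzE (hPE ⟨z.2, Subgroup.mem_normalizer_iff.2 fun a => ?_⟩)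
      constructor
      · intro ha
        exact (Subgroup.mem_normalizer_iff.1 hz ⟨a, hEP ha⟩).1 ha
      · intro ha
        have h3 : a ∈ (P : Subgroup G) := by
          have := mul_mem (mul_mem (inv_mem z.2) (hEP ha)) z.2
          simpa [mul_assoc] using this
        exact (Subgroup.mem_normalizer_iff.1 hz ⟨a, h3⟩).2 ha
    show Dec P (E : Set G) x
    have hxP : x ∈ Subgroup.normalizer ((P : Subgroup G) : Set G) := hEeq ▸ hx
    simpa using Dec.base (P := P) (E : Set G) 1 x (one_mem _) hxP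
  haveI hE'n : (E.subgroupOf N).Normal := Subgroup.normal_subgroupOf_of_le_normalizer le_rfl
  set E' := E.subgroupOf N with hE'
  set π := QuotientGroup.mk' E' with hπ
  have hπs : Function.Surjective π := QuotientGroup.mk'_surjective _
  have hE'S : E' ≤ (S : Subgroup N) := fun z hz => ⟨hEP hz, z.2⟩
  have hE'W : E' ≤ W := by
    intro z hz
    show Dec P (E : Set G) (z : G)
    simpa using Dec.base (P := P) (E : Set G) 1 (z : G) (one_mem _) (Subgroup.le_normalizer (hEP hz))
  have hlink : ∀ n : N, ∀ s ∈ (S : Subgroup N), s ∉ E' → n⁻¹ * s * n ∈ (S : Subgroup N) → n ∈ W := by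
    intro n s hs hsE hsn
    set T := ((P : Subgroup G) ⊓ N) ⊓ ((P : Subgroup G) ⊓ N).map (MulAut.conj (n : G)).toMonoidHom with hT
    have hmemT : ∀ a, a ∈ T ↔ (a ∈ (P : Subgroup G) ⊓ N ∧ (n : G)⁻¹ * a * n ∈ (P : Subgroup G) ⊓ N) := by
      intro a
      rw [hT, Subgroup.mem_inf, Subgroup.mem_map_equiv, MulAut.conj_symm_apply]
    have hET : E ≤ T := by
      intro a ha
      rw [hmemT]
      refine ⟨⟨hEP ha, hEN ha⟩, ?_⟩
      have h1 : (n : G)⁻¹ * a * n ∈ E := by
        have := (Subgroup.mem_normalizer_iff.1 (inv_mem n.2) a).1 ha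
        rwa [inv_inv] at this
      exact ⟨hEP h1, hEN h1⟩
    have hsT : (s : G) ∈ T := (hmemT _).2 ⟨hs, hsn⟩
    refine hbig n T (fun a ha => ((hmemT a).1 ha).1.1) hET ?_ ?_
    · exact Set.Finite.card_lt_card (Set.toFinite _) (SetLike.coe_ssubset_coe.2
        (lt_of_le_of_ne hET fun e => hsE (show (s : G) ∈ E from e ▸ hsT)))
    · rintro _ ⟨a, ha, rfl⟩
      exact ((hmemT a).1 ha).2.1
  set Sb := S.mapSurjective hπs with hSb
  have hSbc : (Sb : Subgroup (N ⧸ E')) = (S : Subgroup N).map π := rfl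
  have hker : ∀ {z : N}, π z ∈ W.map π → z ∈ W := by
    rintro z ⟨w, hw, hwz⟩
    have h1 : w⁻¹ * z ∈ E' := QuotientGroup.eq.1 hwz
    simpa using mul_mem hw (hE'W h1)
  have hnear : ∀ a : N ⧸ E', (Sb : Subgroup (N ⧸ E')) ⊓ ((a • Sb : Sylow p _) : Subgroup _) ≠ ⊥ →
      a ∈ W.map π := by
    intro a hne
    obtain ⟨n, rfl⟩ := hπs a
    rw [Ne, Subgroup.eq_bot_iff_forall] at hne
    push Not at hne
    obtain ⟨z, ⟨⟨s, hs, hsz⟩, w, ⟨t, ht, htw⟩, hwz⟩, hz1⟩ := hne
    have hsE : s ∉ E' := fun h => hz1 (by rw [← hsz]; exact (QuotientGroup.eq_one_iff s).2 h)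
    refine ⟨n, hlink n s hs hsE ?_, rfl⟩
    have h2 : π (n⁻¹ * s * n) = π t := by
      rw [map_mul, map_mul, map_inv, hsz, htw, ← hwz]
      show (π n)⁻¹ * (π n * w * (π n)⁻¹) * π n = w
      group
    have h3 : t⁻¹ * (n⁻¹ * s * n) ∈ E' := QuotientGroup.eq.1 h2.symm
    simpa using mul_mem ht (hE'S h3)
  by_cases hconn : IsSylowChainConnected p (N ⧸ E')
  · -- the intersection graph is connected
    have key : ∀ T : Sylow p (N ⧸ E'), Linked Sb T → ∀ a, a • Sb = T → a ∈ W.map π := by
      have hSne : (Sb : Subgroup (N ⧸ E')) ≠ ⊥ := by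
        refine fun h => (hp.out.coprime_iff_not_dvd.1 ?_) hdvd
        have h1 := Sb.not_dvd_index
        rw [h, Subgroup.index_bot] at h1
        exact hp.out.coprime_iff_not_dvd.2 h1
      intro T hT
      induction hT with
      | refl =>
        intro a ha
        refine hnear a ?_
        rw [ha, inf_idem]
        exact hSne
      | @tail U V _ hUV ihU =>
        intro a ha
        obtain ⟨b, hb⟩ := MulAction.exists_smul_eq (N ⧸ E') Sb U
        have hbW := ihU b hb
        have h1 : b⁻¹ * a ∈ W.map π := by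
          refine hnear _ fun h0 => hUV ?_
          rw [← hb, ← ha, Subgroup.eq_bot_iff_forall]
          rintro z ⟨⟨u, hu, rfl⟩, v, hv, hvz⟩
          rw [Subgroup.eq_bot_iff_forall] at h0
          have hvz' : a * v * a⁻¹ = b * u * b⁻¹ := hvz
          have := h0 u ⟨hu, v, hv, by
            show (b⁻¹ * a) * v * (b⁻¹ * a)⁻¹ = u
            calc (b⁻¹ * a) * v * (b⁻¹ * a)⁻¹ = b⁻¹ * (a * v * a⁻¹) * b := by group
              _ = b⁻¹ * (b * u * b⁻¹) * b := by rw [hvz']
              _ = u := by group⟩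
          subst this
          show b * 1 * b⁻¹ = 1
          group
        simpa using mul_mem hbW h1
    exact hker (key _ ((chainConnected_iff.1 hconn) Sb (π ⟨x, hx⟩ • Sb)) _ rfl)
  · -- a strongly `p`-embedded quotient
    classical
    let Fam : Set (Subgroup N) := {Y | Y.Normal ∧ E' ≤ Y ∧ p ∣ E'.relIndex Y}
    have htopmem : (⊤ : Subgroup N) ∈ Fam := by
      refine ⟨inferInstance, le_top, ?_⟩
      rw [Subgroup.relIndex_top_right]
      exact hdvd
    obtain ⟨X₀, hX₀, hmin⟩ := Set.exists_min_image Fam (fun Y => Nat.card Y) (Set.toFinite _)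
      ⟨⊤, htopmem⟩
    have hcard : ∀ Y : Subgroup N, E' ≤ Y → Nat.card ↥(Y.map π) = E'.relIndex Y := fun Y _ => by
      rw [← Subgroup.relIndex_ker, hπ, QuotientGroup.ker_mk']
    have hinter : ∀ Y ∈ Fam, X₀ ≤ Y := by
      rintro Y hY
      obtain ⟨hYn, hEY, hYp⟩ := hY
      obtain ⟨hXn, hEX, hXp⟩ := hX₀
      haveI := hYn; haveI := hXn
      haveI : (X₀.map π).Normal := hXn.map _ hπs
      haveI : (Y.map π).Normal := hYn.map _ hπs
      have hmem : X₀ ⊓ Y ∈ Fam := by
        refine ⟨inferInstance, le_inf hEX hEY, ?_⟩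
        rw [← hcard _ (le_inf hEX hEY)]
        have h1 : (X₀ ⊓ Y).map π = X₀.map π ⊓ Y.map π := by
          apply Subgroup.comap_injective hπs
          rw [Subgroup.comap_inf, Subgroup.comap_map_eq, Subgroup.comap_map_eq,
            Subgroup.comap_map_eq, hπ, QuotientGroup.ker_mk', sup_eq_left.2 (le_inf hEX hEY),
            sup_eq_left.2 hEX, sup_eq_left.2 hEY]
        rw [h1]
        exact dvd_card_inf_normal hconn _ _ (hcard X₀ hEX ▸ hXp) (hcard Y hEY ▸ hYp)
      have h2 : X₀ ⊓ Y = X₀ :=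
        Subgroup.eq_of_le_of_card_ge inf_le_left (hmin _ hmem)
      exact inf_eq_left.1 h2
    obtain ⟨hXn, hEX, hXp⟩ := hX₀
    haveI := hXn
    set X := X₀.map N.subtype with hX
    have hXN : X ≤ N := Subgroup.map_subtype_le _
    have hXsub : X.subgroupOf N = X₀ := Subgroup.comap_map_eq_self_of_injective N.subtype_injective _
    have hEX' : E ≤ X := fun a ha => ⟨⟨a, hEN ha⟩, hEX ha, rfl⟩
    have hrel : ∀ Y : Subgroup G, Y ≤ N → E'.relIndex (Y.subgroupOf N) = E.relIndex Y := fun Y hY =>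
      Subgroup.relIndex_subgroupOf hY
    have hspec : ∀ u, u ∈ (pResidual p ↥X).map X.subtype → Spec P E X u := by
      intro u hu
      obtain ⟨hle1, hle2, hcomm, hdisj, hsup⟩ := hprod
      refine ⟨hEP, htame, ?_, ?_, hconn, ⟨hEX', hXN, hXsub ▸ hXn, ?_, ?_⟩, hu⟩
      · -- the part of the centralizer in `P`
        intro c hc
        obtain ⟨cc, hcc, hcc'⟩ := hcenle hc.2
        have h1 : c ∈ (pPrimeCore p ↥N).map N.subtype ⊔ E := by
          rw [hsup]; exact ⟨cc, hcc, hcc'⟩
        have hEnorm : (pPrimeCore p ↥N).map N.subtype ≤ Subgroup.normalizer (E : Set G) :=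
          Subgroup.map_subtype_le _
        rw [← SetLike.mem_coe, Subgroup.coe_mul_of_left_le_normalizer_right _ _ hEnorm] at h1
        obtain ⟨o, ho, d, hd, hod⟩ := Set.mem_mul.1 h1
        have hoP : o ∈ (P : Subgroup G) := by
          rw [show o = c * d⁻¹ by rw [← hod]; group]
          exact mul_mem hc.1 (inv_mem (hEP hd))
        obtain ⟨k, hk⟩ := IsPGroup.iff_orderOf.1 P.2 ⟨o, hoP⟩
        rw [Subgroup.orderOf_mk] at hk
        have h2 := Subgroup.orderOf_dvd_natCard _ ho
        rw [Subgroup.card_map_of_injective N.subtype_injective] at h2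
        have h3 := Nat.eq_one_of_dvd_coprimes
          ((CfsgLib.Cores.card_pPrimeCore_coprime (G := ↥N) p).pow_right k) h2 hk.dvd
        rw [orderOf_eq_one_iff.1 h3, one_mul] at hod
        exact hod ▸ hd
      · refine le_antisymm ?_ (sup_le hle2 hcenle)
        rw [← hsup]
        have hoc : (pPrimeCore p ↥N).map N.subtype ≤ Subgroup.centralizer (E : Set G) :=
          fun o ho => Subgroup.mem_centralizer_iff.2 fun d hd => (hcomm o ho d hd).symm
        exact sup_le (hoc.trans le_sup_right) le_sup_left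
      · rw [← hrel X hXN, hXsub]
        exact hXp
      · intro Y hEY hYN hYn hYp a ha
        obtain ⟨a', ha', rfl⟩ := ha
        exact hinter (Y.subgroupOf N) ⟨hYn, fun z hz => hEY hz, by rw [hrel Y hYN]; exact hYp⟩ ha'
    -- Frattini
    obtain ⟨R, hR⟩ := CfsgLib.Alperin.exists_sylow_inf_normal S X₀
    have hRmap : (R : Subgroup X₀).map X₀.subtype = (S : Subgroup N) ⊓ X₀ := by
      rw [hR, Subgroup.map_subgroupOf_eq_of_le inf_le_right]
    have htop := Sylow.normalizer_sup_eq_top R
    rw [hRmap] at htop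
    obtain ⟨s, hs, hsE⟩ : ∃ s ∈ (S : Subgroup N) ⊓ X₀, s ∉ E' := by
      refine SetLike.exists_of_lt (lt_of_le_of_ne (le_inf hE'S hEX) fun e => ?_)
      have := R.not_dvd_index
      rw [hR, ← e] at this
      exact this hXp
    have hnormW : Subgroup.normalizer ((((S : Subgroup N) ⊓ X₀ : Subgroup N)) : Set N) ≤ W := by
      intro n hn
      refine hlink n s hs.1 hsE ?_
      have := ((Subgroup.mem_normalizer_iff.1 (inv_mem hn) s).1 hs).1
      rwa [inv_inv] at this
    have hresW : (pResidual p ↥X).map X.subtype ≤ W.map N.subtype := by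
      intro u hu
      refine ⟨⟨u, ?_⟩, ?_, rfl⟩
      · obtain ⟨v, -, rfl⟩ := hu
        exact hXN v.2
      · show Dec P (E : Set G) u
        have := Dec.step (P := P) (E : Set G) E X u 1 subset_rfl (hspec u hu) (hone _)
        rwa [mul_one] at this
    have hXW : X₀ ≤ W := by
      intro z hz
      let eX : X₀ ≃* X := X₀.equivMapOfInjective N.subtype N.subtype_injective
      have h1 := CfsgLib.FusionBasics.pResidual_sup_sylow R
      haveI := CfsgLib.FusionExamples.pResidual_normal p X₀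
      obtain ⟨u, hu, r, hr, hur⟩ := Subgroup.mem_sup_of_normal_left.1
        (h1 ▸ Subgroup.mem_top (⟨z, hz⟩ : X₀))
      have hu' : ((u : X₀) : N) ∈ W := by
        have hmem : ((eX u : X) : G) ∈ (pResidual p ↥X).map X.subtype :=
          ⟨eX u, CfsgLib.Transfer.map_pResidual_le eX.toMonoidHom ⟨u, hu, rfl⟩, rfl⟩
        obtain ⟨w, hw, hwu⟩ := hresW hmem
        have : w = (u : N) := Subtype.ext hwu
        exact this ▸ hw
      have hr' : ((r : X₀) : N) ∈ W := hnormW (Subgroup.le_normalizer (by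
        rw [← hRmap]; exact ⟨r, hr, rfl⟩))
      have hz' : (z : N) = (u : N) * (r : N) := by rw [← Subgroup.coe_mul, hur]
      rw [hz']
      exact mul_mem hu' hr'
    have hWtop : (⊤ : Subgroup N) ≤ W := htop ▸ sup_le hnormW hXW
    exact hWtop (Subgroup.mem_top _)

/-- Downward induction on the subgroup being moved. -/
theorem dec_aux (P : Sylow p G) : ∀ (m : ℕ) (T : Subgroup G), T ≤ (P : Subgroup G) →
    Nat.card G ≤ Nat.card T + m → ∀ g : G,
      (fun a => g⁻¹ * a * g) '' (T : Set G) ⊆ (P : Set G) → Dec P (T : Set G) g := by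
  intro m
  induction m using Nat.strong_induction_on with
  | _ m ih =>
    intro T hT hm g hg
    have big : ∀ U : Subgroup G, U ≤ (P : Subgroup G) → Nat.card T < Nat.card U → ∀ k : G,
        (fun a => k⁻¹ * a * k) '' (U : Set G) ⊆ (P : Set G) → Dec P (U : Set G) k := by
      intro U hU hlt
      have := Subgroup.card_le_card_group U
      exact ih (m - 1) (by omega) U hU (by omega)
    have key : ∀ (A : Set G) (k : G), CfsgLib.Goldschmidt.Conj P A k →
        (∃ U : Subgroup G, A = (U : Set G) ∧ Nat.card T ≤ Nat.card U) → Dec P A k := by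
      intro A k hk
      induction hk with
      | centralize A c hc =>
        intro _
        simpa using Dec.base (P := P) A c 1 hc (one_mem _)
      | step A D x k hA hD hx _ ihk =>
        rintro ⟨U, rfl, hU⟩
        have hUD : U ≤ D := hA
        have h1 : Dec P (D : Set G) x :=
          dec_good P hD (fun V hV hlt => big V hV ((hU.trans (Subgroup.card_le_of_le hUD)).trans_lt hlt)) hx
        refine (h1.mono _ hA).trans _ (ihk ?_)
        refine ⟨U.map (MulAut.conj x⁻¹).toMonoidHom, ?_,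
          hU.trans (Subgroup.card_map_of_injective (MulAut.conj x⁻¹).injective).ge⟩
        rw [Subgroup.coe_map]
        exact Set.image_congr fun a _ => by simp
    exact key _ g (CfsgLib.Goldschmidt.conj_of_fusion P hT hg) ⟨T, rfl, le_rfl⟩

/-- Every fusion inside `P` decomposes. -/
theorem dec_of_fusion (P : Sylow p G) {A : Set G} (hA : A ⊆ (P : Set G)) {g : G}
    (hg : (fun a => g⁻¹ * a * g) '' A ⊆ (P : Set G)) : Dec P A g := by
  have h : (fun a => g⁻¹ * a * g) '' ((Subgroup.closure A : Subgroup G) : Set G) ⊆ (P : Set G) := by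
    rintro _ ⟨a, ha, rfl⟩
    have hle : Subgroup.closure A ≤ (P : Subgroup G).comap (MulAut.conj g⁻¹).toMonoidHom :=
      (Subgroup.closure_le _).2 fun b hb => by
        show g⁻¹ * b * g⁻¹⁻¹ ∈ (P : Subgroup G)
        rw [inv_inv]; exact hg ⟨b, hb, rfl⟩
    have := hle ha
    simp at this ⊢
    exact this
  exact (dec_aux P (Nat.card G) _ ((Subgroup.closure_le _).2 hA) (Nat.le_add_left _ _) g h).mono A
    Subgroup.subset_closure

omit [Finite G] hp in
/-- Reading a decomposition as indexed families. -/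
theorem Dec.exists_fin {P : Sylow p G} {A : Set G} {g : G} (h : Dec P A g) :
    ∃ (n : ℕ) (H X : Fin n → Subgroup G) (x : Fin n → G) (c y : G),
      c ∈ Subgroup.centralizer A ∧ y ∈ Subgroup.normalizer ((P : Subgroup G) : Set G) ∧
      g = c * (List.ofFn x).prod * y ∧
      ∀ i : Fin n, Spec P (H i) (X i) (x i) ∧
        (fun a => (((List.ofFn x).take i.val).prod)⁻¹ * a * ((List.ofFn x).take i.val).prod) '' A ⊆
          (H i : Set G) := by
  induction h with
  | base A c y hc hy =>
    exact ⟨0, Fin.elim0, Fin.elim0, Fin.elim0, c, y, hc, hy, by simp, fun i => i.elim0⟩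
  | step A H₀ X₀ x₀ g hA hs _ ih =>
    obtain ⟨n, H, X, x, c, y, hc, hy, hg, hall⟩ := ih
    refine ⟨n + 1, Fin.cons H₀ H, Fin.cons X₀ X, Fin.cons x₀ x, x₀ * c * x₀⁻¹, y, ?_, hy, ?_,
      Fin.cases ⟨hs, ?_⟩ fun k => ⟨(hall k).1, ?_⟩⟩
    · intro a ha
      have := hc _ ⟨a, ha, rfl⟩
      calc a * (x₀ * c * x₀⁻¹) = x₀ * ((x₀⁻¹ * a * x₀) * c) * x₀⁻¹ := by group
        _ = x₀ * (c * (x₀⁻¹ * a * x₀)) * x₀⁻¹ := by rw [this]
        _ = x₀ * c * x₀⁻¹ * a := by group
    · rw [List.ofFn_cons, List.prod_cons, hg]; group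
    · simpa using hA
    · rw [List.ofFn_cons, Fin.val_succ, List.take_succ_cons, List.prod_cons,
        ← CfsgLib.PGroups.image_conj_image]
      simpa using (hall k).2

end CfsgLib.Replacement.StrongFusion
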