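import Cfsg.Agent.Lib.Replacement.ZJQdFree

/-!
Functor induction from the centric fully normalised subgroups only: the local hypothesis is needed only for the
subgroups reached from those with `C_S(V) ≤ V` by the functor.
-/

set_option autoImplicit false

namespace CfsgLib.Replacement

open CfsgLib.PushUp (cmap conj_mem_cmap cmap_mono cmap_mul cmap_inv_cmap card_cmap cmap_eq_bot
  cmap_eq_of_mem_normalizer mem_normalizer_of_cmap_eq cmap_normalizer IsFullyNormalized
  lt_inf_normalizer exists_cmap_le exists_cmap_eq exists_fullyNormalized_conj fusion_induction IsFusionRel)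

variable {G : Type*} [Group G] [Finite G] {p : ℕ} [Fact p.Prime]

/-- The functor induction, needing the local step only for an invariant class `Inv` containing the centric
subgroups. -/
theorem centric_functor_induction (S : Sylow p G) {Rel : Subgroup G → G → Prop}
    (hRel : IsFusionRel (S : Subgroup G) Rel)
    (hcongr : ∀ (T : Subgroup G) (g h : G), (∀ t ∈ T, g * t * g⁻¹ = h * t * h⁻¹) → Rel T g → Rel T h)
    (hbot : ∀ g : G, Rel ⊥ g)
    (W : Subgroup G → Subgroup G) (hW : Cfsg.IsConjugacyFunctor p W) (Inv : Subgroup G → Prop)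
    (hcentric : ∀ U : Subgroup G, IsFullyNormalized p (S : Subgroup G) U →
      (S : Subgroup G) ⊓ Subgroup.centralizer (U : Set G) ≤ U → Inv U)
    (hstep : ∀ U : Subgroup G, IsFullyNormalized p (S : Subgroup G) U → Inv U → ∀ x : G,
      Inv (cmap x (W ((S : Subgroup G) ⊓ Subgroup.normalizer (U : Set G)))))
    (hbase : ∀ (T : Subgroup G) (m : G), T ≤ (S : Subgroup G) → cmap m T ≤ (S : Subgroup G) →
      m ∈ Subgroup.normalizer ((W (S : Subgroup G) : Subgroup G) : Set G) → Rel T m)
    (hlocal : ∀ U : Subgroup G, IsFullyNormalized p (S : Subgroup G) U → U ≠ ⊥ → Inv U →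
      (∀ (T : Subgroup G) (m : G), T ≤ (S : Subgroup G) ⊓ Subgroup.normalizer (U : Set G) →
        cmap m T ≤ (S : Subgroup G) ⊓ Subgroup.normalizer (U : Set G) →
        m ∈ Subgroup.normalizer (U : Set G) ⊓
          Subgroup.normalizer ((W ((S : Subgroup G) ⊓ Subgroup.normalizer (U : Set G)) : Subgroup G) : Set G) →
        Rel T m) →
      ∀ (T : Subgroup G) (n : G), T ≤ (S : Subgroup G) ⊓ Subgroup.normalizer (U : Set G) →
        cmap n T ≤ (S : Subgroup G) ⊓ Subgroup.normalizer (U : Set G) →
        n ∈ Subgroup.normalizer (U : Set G) → Rel T n)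
    (T : Subgroup G) (g : G) (hT : T ≤ (S : Subgroup G)) (hg : cmap g T ≤ (S : Subgroup G)) :
    Rel T g := by
  refine fusion_induction S hRel (IsFullyNormalized p (S : Subgroup G)) (fun _ h => h)
    (fun T hT => ⟨_, (exists_fullyNormalized_conj S hT).choose_spec.1⟩)
    (fun V hV big n hn => ?_) T g hT hg
  have hVS := hV.1
  by_cases hVb : V = ⊥
  · subst hVb; exact hbot n
  set CS := (S : Subgroup G) ⊓ Subgroup.centralizer (V : Set G) with hCS
  by_cases hcen : CS ≤ V
  swap
  · set N := Subgroup.normalizer (V : Set G) with hN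
    set C := Subgroup.centralizer (V : Set G) with hC
    have hCN : C ≤ N := fun c hc => Subgroup.mem_normalizer_iff.2 fun y => by
      constructor
      · intro hy
        rwa [← Subgroup.mem_centralizer_iff.1 hc y hy, mul_inv_cancel_right]
      · intro hy
        have e : c * y * c⁻¹ = y := by
          have h1 := Subgroup.mem_centralizer_iff.1 hc _ hy
          calc c * y * c⁻¹ = c⁻¹ * (c * (c * y * c⁻¹)) := by group
            _ = c⁻¹ * (c * y * c⁻¹ * c) := by rw [h1]
            _ = y := by group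
        rwa [e] at hy
    set R := (S : Subgroup G) ⊓ N with hR
    have hRp : IsPGroup p (R.subgroupOf N) :=
      (S.2.to_le inf_le_left).of_equiv (Subgroup.subgroupOfEquivOfLe inf_le_right).symm
    haveI : (C.subgroupOf N).Normal := ⟨fun c hc d => by
      refine Subgroup.mem_subgroupOf.2 (Subgroup.mem_centralizer_iff.2 fun y hy => ?_)
      have hd : (d : G)⁻¹ * y * (d : G) ∈ V := by
        simpa using (Subgroup.mem_normalizer_iff.1 (inv_mem d.2) y).1 hy
      have h1 := Subgroup.mem_centralizer_iff.1 (Subgroup.mem_subgroupOf.1 hc) _ hd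
      push_cast
      calc y * ((d : G) * c * (d : G)⁻¹) = (d : G) * ((d : G)⁻¹ * y * d * c) * (d : G)⁻¹ := by group
        _ = (d : G) * (c * ((d : G)⁻¹ * y * d)) * (d : G)⁻¹ := by rw [h1]
        _ = (d : G) * c * (d : G)⁻¹ * y := by group⟩
    have hCSi : ¬ p ∣ CS.relIndex C := by
      have h1 := not_dvd_relIndex_inf_normal (hRp.toSylow hV.2) (C.subgroupOf N)
      rw [show ((hRp.toSylow hV.2 : Sylow p N) : Subgroup N) = R.subgroupOf N from rfl,
        show R.subgroupOf N ⊓ C.subgroupOf N = (R ⊓ C).subgroupOf N from rfl, Subgroup.relIndex_subgroupOf hCN] at h1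
      rwa [hR, inf_assoc, inf_eq_right.2 hCN] at h1
    have hnC : cmap n C = C := by
      refine le_antisymm ?_ fun c hc => ?_
      · rintro _ ⟨c, hc, rfl⟩
        exact (inferInstance : (C.subgroupOf N).Normal).conj_mem ⟨c, hCN hc⟩ hc ⟨n, hn⟩
      · refine ⟨n⁻¹ * c * n, ?_, by simp [mul_assoc]⟩
        have h := Subgroup.mem_subgroupOf.1
          ((inferInstance : (C.subgroupOf N).Normal).conj_mem ⟨c, hCN hc⟩ hc ⟨n⁻¹, inv_mem hn⟩)
        simpa using h
    have hnCSi : ¬ p ∣ (cmap n CS).relIndex C := by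
      rw [← hnC, Subgroup.relIndex_map_map_of_injective _ _ (MulAut.conj n).injective]
      exact hCSi
    obtain ⟨c, hc, hce⟩ := exists_cmap_eq ((cmap_mono n inf_le_right).trans hnC.le)
      ((S.2.to_le inf_le_left).map _) hnCSi (inf_le_right : CS ≤ C) (S.2.to_le inf_le_left) hCSi
    have hm : cmap (c * n) (V ⊔ CS) = V ⊔ CS := by
      rw [cmap, Subgroup.map_sup]
      congr 1
      · exact cmap_eq_of_mem_normalizer (mul_mem (hCN hc) hn)
      · change cmap (c * n) CS = CS
        rw [cmap_mul, hce]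
    have hle : V ⊔ CS ≤ (S : Subgroup G) := sup_le hVS inf_le_left
    have hlt : Nat.card V < Nat.card ↥(V ⊔ CS) := by
      refine lt_of_le_of_ne (Subgroup.card_le_of_le le_sup_left) fun h => hcen ?_
      exact le_sup_right.trans (Subgroup.eq_of_le_of_card_ge le_sup_left h.ge).ge
    refine hcongr V (c * n) n (fun t ht => ?_) (hRel.mono le_sup_left (big _ _ hlt hle (by rw [hm]; exact hle)))
    have hnt : n * t * n⁻¹ ∈ V := (Subgroup.mem_normalizer_iff.1 hn t).1 ht
    have h1 := Subgroup.mem_centralizer_iff.1 hc _ hnt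
    calc c * n * t * (c * n)⁻¹ = c * (n * t * n⁻¹) * c⁻¹ := by group
      _ = n * t * n⁻¹ := by rw [← h1, mul_inv_cancel_right]
  have loc : ∀ (d : ℕ) (U : Subgroup G), IsFullyNormalized p (S : Subgroup G) U → Inv U → U ≠ ⊥ →
      Nat.card ↥((S : Subgroup G) ⊓ Subgroup.normalizer (U : Set G)) + d = Nat.card G →
      Nat.card V ≤ Nat.card ↥((S : Subgroup G) ⊓ Subgroup.normalizer (U : Set G)) →
      ∀ (T : Subgroup G) (n : G), T ≤ (S : Subgroup G) ⊓ Subgroup.normalizer (U : Set G) →
        cmap n T ≤ (S : Subgroup G) ⊓ Subgroup.normalizer (U : Set G) →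
        n ∈ Subgroup.normalizer (U : Set G) → Rel T n := by
    intro d
    induction d using Nat.strong_induction_on with
    | _ d ih =>
    intro U hU hUI hUb hd hle
    refine hlocal U hU hUb hUI (fun T m hT hmT hm => ?_)
    set R := (S : Subgroup G) ⊓ Subgroup.normalizer (U : Set G) with hR
    by_cases hRS : R = (S : Subgroup G)
    · exact hbase T m (hT.trans inf_le_left) (hmT.trans inf_le_left) (hRS ▸ hm.2)
    have hRp : IsPGroup p R := S.2.to_le inf_le_left
    obtain ⟨hWle, hWne, -⟩ := hW R hRp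
    have hUR : U ≤ R := le_inf hU.1 Subgroup.le_normalizer
    have hWb : W R ≠ ⊥ := hWne (fun h => hUb (eq_bot_iff.mpr (h ▸ hUR)))
    set U2 := W R with hU2
    set R2 := (S : Subgroup G) ⊓ Subgroup.normalizer (U2 : Set G) with hR2
    have hRR2 : R < R2 := by
      refine lt_of_lt_of_le (lt_inf_normalizer S inf_le_left hRS) (le_inf inf_le_left ?_)
      intro r hr
      apply mem_normalizer_of_cmap_eq
      have h1 := (hW R hRp).2.2 r
      rw [show R.map (MulAut.conj r).toMonoidHom = R from cmap_eq_of_mem_normalizer hr.2] at h1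
      exact h1.symm
    obtain ⟨x, hx, -⟩ := exists_fullyNormalized_conj S (T := U2) (hWle.trans inf_le_left)
    obtain ⟨k, hk, hkle⟩ := exists_cmap_le (Q := cmap x R2)
      (show cmap x R2 ≤ Subgroup.normalizer ((cmap x U2 : Subgroup G) : Set G) by
        rw [← cmap_normalizer]; exact cmap_mono x inf_le_right)
      ((S.2.to_le inf_le_left).map _) inf_le_right (S.2.to_le inf_le_left) hx.2
    set R3 := (S : Subgroup G) ⊓ Subgroup.normalizer ((cmap x U2 : Subgroup G) : Set G) with hR3
    rw [← cmap_mul] at hkle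
    have hcRR2 : Nat.card R < Nat.card R2 :=
      lt_of_le_of_ne (Subgroup.card_le_of_le hRR2.le)
        (fun h => hRR2.ne (Subgroup.eq_of_le_of_card_ge hRR2.le h.ge))
    have hcR3 : Nat.card R2 ≤ Nat.card R3 := by
      have := Subgroup.card_le_of_le hkle
      rwa [card_cmap] at this
    have hz : Rel R2 (k * x) :=
      big R2 (k * x) (lt_of_le_of_lt hle hcRR2) inf_le_left (hkle.trans inf_le_left)
    have hm3 : (k * x) * m * (k * x)⁻¹ ∈ Subgroup.normalizer ((cmap x U2 : Subgroup G) : Set G) := by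
      have h1 : m ∈ Subgroup.normalizer (U2 : Set G) := hm.2
      apply mem_normalizer_of_cmap_eq
      have h2 : cmap (k * x) U2 = cmap x U2 := by rw [cmap_mul, cmap_eq_of_mem_normalizer hk]
      nth_rewrite 1 [← h2]
      rw [cmap_mul, cmap_inv_cmap, cmap_mul, cmap_eq_of_mem_normalizer h1, h2]
    have hT3 : cmap (k * x) T ≤ R3 := (cmap_mono _ (hT.trans hRR2.le)).trans hkle
    have hmT2 : cmap m T ≤ R2 := hmT.trans hRR2.le
    have hz3 : cmap (k * x * m * (k * x)⁻¹) (cmap (k * x) T) = cmap (k * x) (cmap m T) := by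
      simp only [← cmap_mul]; simp [mul_assoc]
    have hmT3 : cmap (k * x * m * (k * x)⁻¹) (cmap (k * x) T) ≤ R3 := by
      rw [hz3]; exact (cmap_mono _ hmT2).trans hkle
    have hd' : Nat.card R + d = Nat.card G := hd
    have hle' : Nat.card V ≤ Nat.card R := hle
    have hG3 : Nat.card R3 ≤ Nat.card G := R3.card_le_card_group
    have h3 := ih (Nat.card G - Nat.card R3) (by omega) _ hx (hstep U hU hUI x)
      (fun h => hWb (cmap_eq_bot.mp h))
      (by change Nat.card R3 + _ = _; omega)
      (by change _ ≤ Nat.card R3; omega) _ _ hT3 hmT3 hm3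
    have hTS : T ≤ (S : Subgroup G) := hT.trans inf_le_left
    have h4 : Rel (cmap (k * x) (cmap m T)) (k * x)⁻¹ :=
      hRel.inv (hmT2.trans inf_le_left) ((cmap_mono _ hmT2).trans (hkle.trans inf_le_left))
        (hRel.mono hmT2 hz)
    have h5 := hRel.comp hTS (hT3.trans inf_le_left) (hRel.mono (hT.trans hRR2.le) hz) h3
    have h6 : cmap (k * x * m * (k * x)⁻¹ * (k * x)) T = cmap (k * x) (cmap m T) := by
      rw [cmap_mul, hz3]
    have h7 := hRel.comp hTS (by rw [h6]; exact (cmap_mono _ hmT2).trans (hkle.trans inf_le_left))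
      h5 (by rw [h6]; exact h4)
    simpa [mul_assoc] using h7
  have hVR : V ≤ (S : Subgroup G) ⊓ Subgroup.normalizer (V : Set G) := le_inf hVS Subgroup.le_normalizer
  refine loc (Nat.card G - Nat.card ↥((S : Subgroup G) ⊓ Subgroup.normalizer (V : Set G))) V hV
    (hcentric V hV hcen) hVb ?_ (Subgroup.card_le_of_le hVR) V n hVR ?_ hn
  · have := ((S : Subgroup G) ⊓ Subgroup.normalizer (V : Set G)).card_le_card_group
    omega
  · rw [cmap_eq_of_mem_normalizer hn]; exact hVR

/-- The centre of `D` lies in `zcore 0 D`. -/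
theorem inf_centralizer_le_zcore_zero (D : Subgroup G) :
    D ⊓ Subgroup.centralizer (D : Set G) ≤ zcore 0 D := by
  refine le_sInf fun A hA z hz => ?_
  by_contra hzA
  set B := Subgroup.closure (insert z (A : Set G)) with hB
  haveI hcB : IsMulCommutative B := Subgroup.isMulCommutative_closure (by
    intro a ha b hb
    have hzD : ∀ u ∈ A, u * z = z * u := fun u hu => Subgroup.mem_centralizer_iff.1 hz.2 u (hA.le hu)
    rcases ha with rfl | ha <;> rcases hb with rfl | hb
    · rfl
    · exact (hzD b hb).symm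
    · exact hzD a ha
    · exact hA.comm a ha b hb)
  have hBD : B ≤ D := (Subgroup.closure_le _).2 (Set.insert_subset hz.1 hA.le)
  have hle : A ≤ B := fun a ha => Subgroup.subset_closure (Set.mem_insert_of_mem z ha)
  have h1 := hA.card_le B hBD
    (fun a ha b hb => congrArg Subtype.val (hcB.is_comm.comm ⟨a, ha⟩ ⟨b, hb⟩)) (fun a _ => pow_zero a)
  have h2 := Subgroup.eq_of_le_of_card_ge hle h1
  exact hzA (h2.symm ▸ Subgroup.subset_closure (Set.mem_insert z _))

end CfsgLib.Replacement
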